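import Cfsg.Agent.FGS.LS6.Defs

namespace CL.LS6
open Module

variable {K V : Type*} [Field K] [AddCommGroup V] [Module K V] [FiniteDimensional K V]

namespace Big

theorem eig [IsAlgClosed K] {p : ℕ} (hp : (p : K) ≠ 0) {A : Module.End K V} (h : A ^ p = 1) (h1 : A ≠ 1) :
    ∃ (ζ : K) (v : V), ζ ≠ 1 ∧ ζ ^ p = 1 ∧ v ≠ 0 ∧ A v = ζ • v := by
  let B : Module.End K V := ∑ i ∈ Finset.range p, A ^ i
  have hB : B * (A - 1) = 0 := by rw [geom_sum_mul, h, sub_self]
  have hc : B * A = A * B := (Commute.sum_right _ _ A fun i _ => (Commute.refl A).pow_right i).eq.symm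
  have hW : ∀ x ∈ LinearMap.ker B, A x ∈ LinearMap.ker B := fun x hx => by
    rw [LinearMap.mem_ker, ← Module.End.mul_apply, hc, Module.End.mul_apply, hx, map_zero]
  have : Nontrivial (LinearMap.ker B) := by
    refine Submodule.nontrivial_iff_ne_bot.2 fun e => h1 (sub_eq_zero.1 (LinearMap.ext fun w => ?_))
    have : (A - 1) w ∈ LinearMap.ker B := by rw [LinearMap.mem_ker, ← Module.End.mul_apply, hB]; rfl
    rwa [e] at this
  obtain ⟨ζ, hζ⟩ := Module.End.exists_eigenvalue (A.restrict hW)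
  obtain ⟨v, hv⟩ := hζ.exists_hasEigenvector
  have e : A v = ζ • (v : V) := congrArg Subtype.val hv.apply_eq_smul
  have v0 : (v : V) ≠ 0 := fun e => hv.2 (Subtype.ext e)
  have s : ∑ i ∈ Finset.range p, ζ ^ i = 0 := by
    have hv' : A.HasEigenvector ζ v := ⟨Module.End.mem_eigenspace_iff.2 e, v0⟩
    have := v.2
    rw [LinearMap.mem_ker, LinearMap.sum_apply, Finset.sum_congr rfl fun i _ => hv'.pow_apply i,
      ← Finset.sum_smul] at this
    exact (smul_eq_zero.1 this).resolve_right v0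
  refine ⟨ζ, v, fun e => hp (by simpa [e] using s), ?_, v0, e⟩
  rw [← sub_eq_zero, ← geom_sum_mul, s, zero_mul]

theorem xx_eq {p : ℕ} : (xx : SL2 p) = uu (-1) * (ww * uu (-1) * ww⁻¹) * uu (-2) := by
  obtain ⟨l, hl⟩ : ∃ l : SL2 p, (l : Matrix (Fin 2) (Fin 2) (ZMod p)) = !![1, 0; 1, 1] :=
    ⟨⟨!![1, 0; 1, 1], by simp [Matrix.det_fin_two]⟩, rfl⟩
  have : (ww * uu (-1) * ww⁻¹ : SL2 p) = l := by
    rw [mul_inv_eq_iff_eq_mul]
    apply Subtype.ext
    simp only [Matrix.SpecialLinearGroup.coe_mul, coe_uu, coe_ww, hl]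
    ext i j; fin_cases i <;> fin_cases j <;> simp [Matrix.mul_apply, Fin.sum_univ_two]
  rw [this]
  apply Subtype.ext
  simp only [Matrix.SpecialLinearGroup.coe_mul, coe_uu, coe_xx, hl]
  ext i j; fin_cases i <;> fin_cases j <;> simp [Matrix.mul_apply, Fin.sum_univ_two]
  norm_num

end Big

theorem big (p : ℕ) [Fact p.Prime] [IsAlgClosed K] (hp : (p : K) ≠ 0)
    (ρ : Representation K (GL2 p) V) : ρ xG = 1 ∨ p - 1 ≤ finrank K V := by
  let f : SL2 p →* Module.End K V := ρ.comp Matrix.SpecialLinearGroup.toGL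
  have hu : ∀ a, f (uu a) = f (uu 1) ^ a.val := fun a => by rw [← map_pow, ← uu_val]
  by_cases h1 : f (uu 1) = 1
  · left
    change f xx = 1
    rw [Big.xx_eq, map_mul, map_mul, map_mul, map_mul, hu (-1), hu (-2), h1, one_pow, one_pow, one_mul, mul_one,
      mul_one, ← map_mul, mul_inv_cancel, map_one]
  right
  obtain ⟨ζ, v, z1, zp, v0, e⟩ := Big.eig hp (A := f (uu 1))
    (by rw [← map_pow, uu_pow, ZMod.natCast_self, zero_mul, uu_zero, map_one]) h1
  have hv : (f (uu 1)).HasEigenvector ζ v := ⟨Module.End.mem_eigenspace_iff.2 e, v0⟩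
  have oz : orderOf ζ = p := orderOf_eq_prime zp z1
  let δ : (ZMod p)ˣ → GL2 p := fun a =>
    Matrix.GeneralLinearGroup.mkOfDetNeZero !![(a : ZMod p), 0; 0, 1] (by simp [Matrix.det_fin_two])
  have hδ : ∀ a, Matrix.SpecialLinearGroup.toGL (uu 1 : SL2 p) * (δ a)⁻¹ =
      (δ a)⁻¹ * Matrix.SpecialLinearGroup.toGL (uu (a : ZMod p)) := fun a => by
    rw [mul_inv_eq_iff_eq_mul, mul_assoc, eq_inv_mul_iff_mul_eq]
    apply Units.ext
    ext i j; fin_cases i <;> fin_cases j <;> simp [δ, coe_uu, Matrix.mul_apply, Fin.sum_univ_two]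
  have lt : ∀ a : (ZMod p)ˣ, (a : ZMod p).val ∈ Set.Iio (orderOf ζ) := fun a => by rw [oz]; exact ZMod.val_lt _
  have li := Module.End.eigenvectors_linearIndependent' (f (uu 1)) (fun a : (ZMod p)ˣ => ζ ^ (a : ZMod p).val)
    (fun a b e => Units.ext (ZMod.val_injective p (pow_injOn_Iio_orderOf (lt a) (lt b) e)))
    (fun a => ρ (δ a)⁻¹ v) fun a => ⟨Module.End.mem_eigenspace_iff.2 (by
      change (ρ _ * ρ _) v = _
      rw [← map_mul, hδ, map_mul, Module.End.mul_apply, ← map_smul, ← hv.pow_apply, ← hu]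
      rfl), fun e => v0 (by
      rw [← Module.End.one_apply (R := K) v, ← map_one ρ, ← mul_inv_cancel (δ a), map_mul, Module.End.mul_apply, e,
        map_zero])⟩
  exact ZMod.card_units p ▸ li.fintype_card_le_finrank

end CL.LS6
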