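import Cfsg.Agent.FGS.LS6.Defs

namespace CL.LS6
open Module

variable {K V : Type*} [Field K] [AddCommGroup V] [Module K V] [FiniteDimensional K V]

/-- rank-nullity for `Ψ` restricted to `W`. -/
theorem finrank_eq_add {V' : Type*} [AddCommGroup V'] [Module K V'] (Ψ : V →ₗ[K] V')
    (W : Submodule K V) :
    finrank K W = finrank K ↥(W ⊓ LinearMap.ker Ψ) + finrank K (W.map Ψ) := by
  have h := LinearMap.finrank_range_add_finrank_ker (Ψ.domRestrict W)
  rw [LinearMap.range_domRestrict, LinearMap.ker_domRestrict] at h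
  have e : finrank K ↥(Submodule.comap W.subtype (LinearMap.ker Ψ)) =
      finrank K ↥(W ⊓ LinearMap.ker Ψ) := by
    rw [← Submodule.map_comap_subtype]
    exact (Submodule.equivMapOfInjective W.subtype W.injective_subtype _).finrank_eq
  omega

/-- `dim ker (A B) ≤ dim ker A + dim ker B`: `B` maps `ker (A B)` into `ker A` with kernel inside
`ker B` (rank-nullity for `B.domRestrict (ker (A * B))`). -/
theorem ker_mul_le (A B : Module.End K V) :
    finrank K (LinearMap.ker (A * B)) ≤ finrank K (LinearMap.ker A) + finrank K (LinearMap.ker B) := by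
  rw [finrank_eq_add B (LinearMap.ker (A * B))]
  have h1 : finrank K ↥(LinearMap.ker (A * B) ⊓ LinearMap.ker B) ≤ finrank K (LinearMap.ker B) :=
    Submodule.finrank_mono inf_le_right
  have h2 : finrank K ((LinearMap.ker (A * B)).map B) ≤ finrank K (LinearMap.ker A) := by
    apply Submodule.finrank_mono
    rintro _ ⟨v, hv, rfl⟩
    exact hv
  omega

/-- induction on the list with `ker_mul_le` (empty product `1` has kernel `⊥`). -/
theorem ker_prod_le (l : List (Module.End K V)) :
    finrank K (LinearMap.ker l.prod) ≤ (l.map fun A => finrank K (LinearMap.ker A)).sum := by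
  induction l with
  | nil =>
    have : LinearMap.ker (1 : Module.End K V) = ⊥ := LinearMap.ker_id
    rw [List.prod_nil, this, finrank_bot]; exact Nat.zero_le _
  | cons A l ih =>
    rw [List.prod_cons, List.map_cons, List.sum_cons]
    exact (ker_mul_le A l.prod).trans (by omega)

/-- nilpotent: `ker_prod_le` for `List.replicate n A`, `ker 0 = ⊤`. -/
theorem le_of_pow_eq_zero (A : Module.End K V) {n : ℕ} (h : A ^ n = 0) :
    finrank K V ≤ n * finrank K (LinearMap.ker A) := by
  have := ker_prod_le (List.replicate n A)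
  rw [List.prod_replicate, h, LinearMap.ker_zero, finrank_top] at this
  simpa using this

/-- all eigenspaces of `A` have dimension `≤ 1`, `E` is a subspace on which `A ^ m` is the scalar
`s`, `0 < m`: `X ^ m - C s = ∏ (X - C r)` over its `m` roots (`IsAlgClosed.splits`,
`Polynomial.eq_prod_roots_of_monic_of_splits_id`), `E ≤ ker (aeval A (X ^ m - C s))`, the `aeval`
is the product of a list of `m` factors `A - r • 1`; `ker_prod_le`. -/
theorem le_of_eig [IsAlgClosed K] (A : Module.End K V)
    (h1 : ∀ r : K, finrank K (LinearMap.ker (A - r • (1 : Module.End K V))) ≤ 1) {m : ℕ} (hm : 0 < m)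
    (E : Submodule K V) (s : K) (hE : ∀ v ∈ E, (A ^ m) v = s • v) : finrank K E ≤ m := by
  classical
  set f : Polynomial K := Polynomial.X ^ m - Polynomial.C s with hf
  have mo : f.Monic := Polynomial.monic_X_pow_sub_C s hm.ne'
  have sp : f.Splits := IsAlgClosed.splits f
  have e := sp.eq_prod_roots_of_monic mo
  have cd : f.roots.card = m := by
    rw [← sp.natDegree_eq_card_roots, hf, Polynomial.natDegree_X_pow_sub_C]
  set l := f.roots.toList with hl
  have e2 : f = (l.map fun r => Polynomial.X - Polynomial.C r).prod := by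
    conv_lhs => rw [e]
    rw [← Multiset.prod_coe, ← Multiset.map_coe, hl, Multiset.coe_toList]
  have e3 : Polynomial.aeval A f = (l.map fun r => A - r • (1 : Module.End K V)).prod := by
    conv_lhs => rw [e2]
    rw [map_list_prod, List.map_map]
    congr 1
    apply List.map_congr_left
    intro r _
    simp [Algebra.algebraMap_eq_smul_one]
  have le : E ≤ LinearMap.ker (l.map fun r => A - r • (1 : Module.End K V)).prod := by
    intro v hv
    rw [← e3, hf, LinearMap.mem_ker]
    simp [hE v hv, Algebra.algebraMap_eq_smul_one]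
  refine (Submodule.finrank_mono le).trans ((ker_prod_le _).trans ?_)
  have ll : l.length = m := by rw [hl, Multiset.length_toList, cd]
  rw [List.map_map, ← ll]
  have := List.sum_le_card_nsmul (l.map ((fun A : Module.End K V => finrank K (LinearMap.ker A)) ∘
    fun r => A - r • (1 : Module.End K V))) 1 (by
      intro x hx
      obtain ⟨r, -, rfl⟩ := List.mem_map.1 hx
      exact h1 r)
  simpa using this

/-- fixed vectors of an operator of order three lift along an equivariant map: for
`y = Ψ w` fixed by `A'` (`w ∈ W`) the average `3⁻¹ • (w + A w + A A w) ∈ W` is fixed by `A` and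
maps to `y`. So `Ψ` maps `W ⊓ ker (A - 1)` ONTO `W.map Ψ ⊓ ker (A' - 1)` with kernel
`W ⊓ ker Ψ ⊓ ker (A - 1)`; rank-nullity (`V'` may be infinite-dimensional). -/
theorem fW_add {V' : Type*} [AddCommGroup V'] [Module K V'] (h3 : (3 : K) ≠ 0)
    (A : Module.End K V) (A' : Module.End K V') (hA : A ^ 3 = 1) (Ψ : V →ₗ[K] V')
    (W : Submodule K V) (hW : ∀ w ∈ W, A w ∈ W) (hΨ : ∀ w ∈ W, Ψ (A w) = A' (Ψ w)) :
    fW A (W ⊓ LinearMap.ker Ψ) + fW A' (W.map Ψ) ≤ fW A W := by
  unfold fW
  rw [finrank_eq_add Ψ (W ⊓ LinearMap.ker (A - 1))]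
  have e1 : W ⊓ LinearMap.ker Ψ ⊓ LinearMap.ker (A - 1) =
      W ⊓ LinearMap.ker (A - 1) ⊓ LinearMap.ker Ψ := inf_right_comm _ _ _
  rw [e1]
  have le : W.map Ψ ⊓ LinearMap.ker (A' - 1) ≤ (W ⊓ LinearMap.ker (A - 1)).map Ψ := by
    rintro _ ⟨⟨w, hw, rfl⟩, hy⟩
    have hy' : A' (Ψ w) = Ψ w := by
      have : A' (Ψ w) - Ψ w = 0 := by simpa using hy
      exact sub_eq_zero.1 this
    have a3 : A (A (A w)) = w := by
      have := congrArg (fun T : Module.End K V => T w) hA
      simpa [pow_succ] using this
    refine ⟨(3 : K)⁻¹ • (w + A w + A (A w)), ⟨W.smul_mem _ (W.add_mem (W.add_mem hw (hW w hw))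
      (hW _ (hW w hw))), ?_⟩, ?_⟩
    · change (A - 1) _ = 0
      rw [LinearMap.sub_apply, map_smul, map_add, map_add, a3, Module.End.one_apply, ← smul_sub]
      have : A w + A (A w) + w - (w + A w + A (A w)) = 0 := by abel
      rw [this, smul_zero]
    · rw [map_smul, map_add, map_add, hΨ _ (hW w hw), hΨ w hw, hy', hy']
      have : Ψ w + Ψ w + Ψ w = (3 : K) • Ψ w := by
        rw [show (3 : K) = 1 + 1 + 1 by norm_num, add_smul, add_smul, one_smul]
      rw [this, smul_smul, inv_mul_cancel₀ h3, one_smul]
  have := Submodule.finrank_mono le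
  omega

/-- extension of scalars does not enlarge fixed spaces: with `f = A - 1`, `r = dim range f`, pick a
linear section `a : range f → V` of `f.rangeRestrict` and a retraction `b : V → range f` of the
inclusion, `b ∘ f ∘ a = id`; base change gives `rank (f ⊗ L) ≥ dim_L (L ⊗ range f) = r`
(`Module.finrank_baseChange`), then rank-nullity twice. -/
theorem fx_baseChange_le (L : Type*) [Field L] [Algebra K L] (A : Module.End K V) :
    fx (Module.End.baseChangeHom K L V A) ≤ fx A := by
  unfold fx
  have e : Module.End.baseChangeHom K L V A - 1 = Module.End.baseChangeHom K L V (A - 1) := by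
    rw [map_sub, map_one]
  rw [e]
  generalize A - 1 = f
  obtain ⟨a, ha⟩ := f.rangeRestrict.exists_rightInverse_of_surjective f.range_rangeRestrict
  obtain ⟨b, hb⟩ := (LinearMap.range f).subtype.exists_leftInverse_of_injective
    (LinearMap.range f).ker_subtype
  have id0 : b ∘ₗ f ∘ₗ a = LinearMap.id := by
    have : f = (LinearMap.range f).subtype ∘ₗ f.rangeRestrict := rfl
    calc b ∘ₗ f ∘ₗ a = (b ∘ₗ (LinearMap.range f).subtype) ∘ₗ (f.rangeRestrict ∘ₗ a) := rfl
      _ = LinearMap.id := by rw [ha, hb]; rfl
  have id1 : b.baseChange L ∘ₗ f.baseChange L ∘ₗ a.baseChange L = LinearMap.id := by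
    rw [← LinearMap.baseChange_comp, ← LinearMap.baseChange_comp, id0, LinearMap.baseChange_id]
  have le : (⊤ : Submodule L _) ≤ (LinearMap.range (f.baseChange L)).map (b.baseChange L) := by
    intro y _
    exact ⟨f.baseChange L (a.baseChange L y), ⟨_, rfl⟩, congrArg (fun T => T y) id1⟩
  have h1 := Submodule.finrank_mono le
  have h2 := Submodule.finrank_map_le (b.baseChange L) (LinearMap.range (f.baseChange L))
  rw [finrank_top, Module.finrank_baseChange] at h1
  have h3 := LinearMap.finrank_range_add_finrank_ker (f.baseChange L)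
  rw [Module.finrank_baseChange] at h3
  have h4 := LinearMap.finrank_range_add_finrank_ker f
  change finrank L (LinearMap.ker (f.baseChange L)) ≤ _
  omega

end CL.LS6
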