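import Cfsg.Agent.FGS.LS6.Defs
import Cfsg.Agent.FGS.LS6.Lin
namespace CL.LS6
open Module

variable {K V G : Type*} [Field K] [AddCommGroup V] [Module K V] [FiniteDimensional K V] [Group G]

theorem Bad.chr {ρ : Representation K G V} (hb : Bad ρ) {h : G} (h1 : h ≠ 1) {r : ℕ}
    (hr : r.Prime) (h6 : r ≤ 6) (hh : h ^ r = 1) : (r : K) ≠ 0 := by
  intro h0
  have hlt := hb h h1
  have hpos : 0 < finrank K V := by omega
  have : Nontrivial V := Module.finrank_pos_iff.mp hpos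
  have : Fact r.Prime := ⟨hr⟩
  have : CharP K r := (CharP.charP_iff_prime_eq_zero hr).mpr h0
  have : CharP (Module.End K V) r :=
    charP_of_injective_algebraMap (algebraMap K (Module.End K V)).injective r
  have e : (ρ h - 1) ^ r = 0 := by
    rw [sub_pow_char_of_commute r (Commute.one_right _), ← map_pow, hh, map_one, one_pow, sub_self]
  have h2 := le_of_pow_eq_zero (ρ h - 1) e
  have h3 : r * finrank K (LinearMap.ker (ρ h - 1)) ≤ 6 * finrank K (LinearMap.ker (ρ h - 1)) :=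
    Nat.mul_le_mul_right _ h6
  unfold fx at hlt
  omega

theorem Inv.half (A : Module.End K V) (h : A * A = 1) :
    finrank K V ≤ fx A + finrank K (LinearMap.ker (A + 1)) := by
  have e : (A - 1) * (A + 1) = 0 := by
    rw [sub_mul, mul_add, h, one_mul, mul_one, add_comm, sub_self]
  have h2 := ker_mul_le (A - 1) (A + 1)
  rw [e, LinearMap.ker_zero, finrank_top] at h2
  exact h2

theorem Bad.u2 {ρ : Representation K G V} (hb : Bad ρ) (a b : G) (ha : a ≠ 1) (hb1 : b ≠ 1)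
    (ha2 : a ^ 2 = 1) (hb2 : b ^ 2 = 1) : a = b := by
  by_contra hne
  have hab : a * b ≠ 1 := by
    intro e
    apply hne
    rw [pow_two] at hb2
    exact mul_right_cancel (e.trans hb2.symm)
  have h1 := Inv.half (ρ a) (by rw [← map_mul, ← pow_two, ha2, map_one])
  have h2 := Inv.half (ρ b) (by rw [← map_mul, ← pow_two, hb2, map_one])
  have h3 := Submodule.finrank_sup_add_finrank_inf_eq (LinearMap.ker (ρ a + 1))
    (LinearMap.ker (ρ b + 1))
  have h4 := Submodule.finrank_le (LinearMap.ker (ρ a + 1) ⊔ LinearMap.ker (ρ b + 1))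
  have h5 : LinearMap.ker (ρ a + 1) ⊓ LinearMap.ker (ρ b + 1) ≤ LinearMap.ker (ρ (a * b) - 1) := by
    rintro v ⟨hv1, hv2⟩
    have e1 : ρ a v = -v := eq_neg_of_add_eq_zero_left (by simpa using hv1)
    have e2 : ρ b v = -v := eq_neg_of_add_eq_zero_left (by simpa using hv2)
    rw [LinearMap.mem_ker, map_mul, LinearMap.sub_apply, Module.End.mul_apply, e2, map_neg, e1,
      neg_neg, Module.End.one_apply, sub_self]
  have h6 := Submodule.finrank_mono h5
  have b1 := hb a ha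
  have b2 := hb b hb1
  have b3 := hb (a * b) hab
  unfold fx at b1 b2 b3 h1 h2
  omega

/-- the norm operator. -/
def Inv.nm (C : Module.End K V) : Module.End K V := 1 + C + C ^ 2 + C ^ 3 + C ^ 4

omit [FiniteDimensional K V] in
theorem Inv.nm_mem (C : Module.End K V) (h : C ^ 5 = 1) (v : V) :
    Inv.nm C v ∈ LinearMap.ker (C - 1) := by
  have e : (C - 1) * Inv.nm C = C ^ 5 - 1 := by unfold Inv.nm; noncomm_ring
  rw [LinearMap.mem_ker, ← Module.End.mul_apply, e, h, sub_self, LinearMap.zero_apply]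

theorem Inv.ident {R : Type*} [CommRing R] (A B : R) (hA : A ^ 5 = 1) :
    (1 + B + B ^ 2 + B ^ 3 + B ^ 4) + (1 + A * B + (A * B) ^ 2 + (A * B) ^ 3 + (A * B) ^ 4)
      + (1 + A ^ 2 * B + (A ^ 2 * B) ^ 2 + (A ^ 2 * B) ^ 3 + (A ^ 2 * B) ^ 4)
      + (1 + A ^ 3 * B + (A ^ 3 * B) ^ 2 + (A ^ 3 * B) ^ 3 + (A ^ 3 * B) ^ 4)
      + (1 + A ^ 4 * B + (A ^ 4 * B) ^ 2 + (A ^ 4 * B) ^ 3 + (A ^ 4 * B) ^ 4)
      = 5 + (1 + A + A ^ 2 + A ^ 3 + A ^ 4) * (B + B ^ 2 + B ^ 3 + B ^ 4) := by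
  linear_combination (B ^ 2 * (A + A ^ 3) + B ^ 3 * (A + A ^ 4 + A ^ 2 * (A ^ 5 + 1))
    + B ^ 4 * (A ^ 3 + A ^ 2 * (A ^ 5 + 1) + A * (A ^ 10 + A ^ 5 + 1))) * hA

omit [FiniteDimensional K V] in
theorem Inv.identE (A B : Module.End K V) (hA : A ^ 5 = 1) (hc : Commute A B) :
    Inv.nm B + Inv.nm (A * B) + Inv.nm (A ^ 2 * B) + Inv.nm (A ^ 3 * B) + Inv.nm (A ^ 4 * B)
      = 5 + Inv.nm A * (B + B ^ 2 + B ^ 3 + B ^ 4) := by
  let S : Set (Module.End K V) := {A, B}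
  have hS : ∀ x ∈ S, ∀ y ∈ S, x * y = y * x := by
    rintro x (rfl | rfl) y (rfl | rfl)
    · rfl
    · exact hc.eq
    · exact hc.symm.eq
    · rfl
  let _ : CommRing (Subring.closure S) := Subring.closureCommRingOfComm hS
  let A' : Subring.closure S := ⟨A, Subring.subset_closure (Or.inl rfl)⟩
  let B' : Subring.closure S := ⟨B, Subring.subset_closure (Or.inr rfl)⟩
  have h := Inv.ident A' B' (Subtype.ext hA)
  exact congrArg Subtype.val h

theorem Bad.r5 {ρ : Representation K G V} (hb : Bad ρ) (a b : G) (ha : a ≠ 1) (ha5 : a ^ 5 = 1)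
    (hb5 : b ^ 5 = 1) (hc : a * b = b * a) : b ∈ Subgroup.zpowers a := by
  by_contra hn
  have hcm : Commute a b := hc
  have ne : ∀ i : ℕ, a ^ i * b ≠ 1 := fun i e => hn (by
    rw [eq_inv_of_mul_eq_one_right e]
    exact inv_mem (Subgroup.pow_mem _ (Subgroup.mem_zpowers a) i))
  have p5 : ∀ i : ℕ, (ρ a ^ i * ρ b) ^ 5 = 1 := fun i => by
    rw [← map_pow, ← map_mul, ← map_pow, (hcm.pow_left i).mul_pow, hb5, ← pow_mul, mul_comm,
      pow_mul, ha5, one_pow, one_mul, map_one]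
  have h5 : ((5 : ℕ) : K) ≠ 0 := hb.chr ha (by norm_num) (by norm_num) ha5
  have hA : ρ a ^ 5 = 1 := by rw [← map_pow, ha5, map_one]
  have id := Inv.identE (ρ a) (ρ b) hA (hcm.map ρ)
  have f : ∀ i : ℕ, 6 * finrank K (LinearMap.ker (ρ a ^ i * ρ b - 1)) < finrank K V := fun i => by
    have := hb _ (ne i)
    rwa [fx, map_mul, map_pow] at this
  have fa := hb a ha
  unfold fx at fa
  have top : (⊤ : Submodule K V) ≤ LinearMap.ker (ρ a ^ 0 * ρ b - 1) ⊔ LinearMap.ker (ρ a ^ 1 * ρ b - 1)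
      ⊔ LinearMap.ker (ρ a ^ 2 * ρ b - 1) ⊔ LinearMap.ker (ρ a ^ 3 * ρ b - 1)
      ⊔ LinearMap.ker (ρ a ^ 4 * ρ b - 1) ⊔ LinearMap.ker (ρ a - 1) := by
    intro v _
    have e := congrArg (fun T : Module.End K V => T v) id
    simp only [LinearMap.add_apply, Module.End.mul_apply (f := Inv.nm (ρ a))] at e
    have e5 : (5 : Module.End K V) v = ((5 : ℕ) : K) • v := by
      rw [Nat.cast_smul_eq_nsmul]; rfl
    rw [e5] at e
    have m0 := Inv.nm_mem _ (p5 0) v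
    have m1 := Inv.nm_mem _ (p5 1) v
    have m2 := Inv.nm_mem _ (p5 2) v
    have m3 := Inv.nm_mem _ (p5 3) v
    have m4 := Inv.nm_mem _ (p5 4) v
    have m5 := Inv.nm_mem _ hA (ρ b v + (ρ b ^ 2) v + (ρ b ^ 3) v + (ρ b ^ 4) v)
    rw [← Submodule.smul_mem_iff _ h5, ← sub_eq_iff_eq_add.mpr e]
    refine Submodule.sub_mem _ (Submodule.mem_sup_left ?_) (Submodule.mem_sup_right m5)
    refine Submodule.add_mem _ (Submodule.mem_sup_left ?_) (Submodule.mem_sup_right m4)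
    refine Submodule.add_mem _ (Submodule.mem_sup_left ?_) (Submodule.mem_sup_right m3)
    refine Submodule.add_mem _ (Submodule.mem_sup_left ?_) (Submodule.mem_sup_right m2)
    refine Submodule.add_mem _ (Submodule.mem_sup_left ?_) (Submodule.mem_sup_right ?_)
    · simpa only [pow_zero, one_mul] using m0
    · simpa only [pow_one] using m1
  have t := Submodule.finrank_mono top
  rw [finrank_top] at t
  have s1 := Submodule.finrank_add_le_finrank_add_finrank (LinearMap.ker (ρ a ^ 0 * ρ b - 1))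
    (LinearMap.ker (ρ a ^ 1 * ρ b - 1))
  have s2 := Submodule.finrank_add_le_finrank_add_finrank (LinearMap.ker (ρ a ^ 0 * ρ b - 1) ⊔
    LinearMap.ker (ρ a ^ 1 * ρ b - 1)) (LinearMap.ker (ρ a ^ 2 * ρ b - 1))
  have s3 := Submodule.finrank_add_le_finrank_add_finrank (LinearMap.ker (ρ a ^ 0 * ρ b - 1) ⊔
    LinearMap.ker (ρ a ^ 1 * ρ b - 1) ⊔ LinearMap.ker (ρ a ^ 2 * ρ b - 1))
    (LinearMap.ker (ρ a ^ 3 * ρ b - 1))
  have s4 := Submodule.finrank_add_le_finrank_add_finrank (LinearMap.ker (ρ a ^ 0 * ρ b - 1) ⊔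
    LinearMap.ker (ρ a ^ 1 * ρ b - 1) ⊔ LinearMap.ker (ρ a ^ 2 * ρ b - 1) ⊔
    LinearMap.ker (ρ a ^ 3 * ρ b - 1)) (LinearMap.ker (ρ a ^ 4 * ρ b - 1))
  have s5 := Submodule.finrank_add_le_finrank_add_finrank (LinearMap.ker (ρ a ^ 0 * ρ b - 1) ⊔
    LinearMap.ker (ρ a ^ 1 * ρ b - 1) ⊔ LinearMap.ker (ρ a ^ 2 * ρ b - 1) ⊔
    LinearMap.ker (ρ a ^ 3 * ρ b - 1) ⊔ LinearMap.ker (ρ a ^ 4 * ρ b - 1)) (LinearMap.ker (ρ a - 1))
  have f0 := f 0
  have f1 := f 1
  have f2 := f 2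
  have f3 := f 3
  have f4 := f 4
  omega

end CL.LS6
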