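import Cfsg.Agent.FGS.LS6.Defs

namespace CL.LS6
open Module

variable {K V G : Type*} [Field K] [AddCommGroup V] [Module K V] [FiniteDimensional K V] [Group G]

/-- Schur: an operator commuting with an irreducible representation is a scalar (`V` trivial: any
scalar; else an eigenvalue `s` (`Module.End.exists_eigenvalue`), its eigenspace is invariant). -/
theorem Irr.schur [IsAlgClosed K] {ρ : Representation K G V} (hi : Irr ρ) (φ : Module.End K V)
    (hφ : ∀ g, φ * ρ g = ρ g * φ) : ∃ s : K, φ = s • (1 : Module.End K V) := by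
  rcases subsingleton_or_nontrivial V with h | h
  · exact ⟨0, LinearMap.ext fun _ => Subsingleton.elim _ _⟩
  obtain ⟨s, hs⟩ := Module.End.exists_eigenvalue φ
  refine ⟨s, ?_⟩
  rcases hi (φ.eigenspace s) (fun g w hw => by
    rw [Module.End.mem_eigenspace_iff] at hw ⊢
    rw [← Module.End.mul_apply, hφ, Module.End.mul_apply, hw, map_smul]) with h0 | h1
  · exact absurd h0 (Module.End.hasEigenvalue_iff.1 hs)
  · ext v
    have : v ∈ φ.eigenspace s := h1 ▸ Submodule.mem_top
    simpa [Module.End.mem_eigenspace_iff] using this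

omit [FiniteDimensional K V] in
theorem Gel.mul (ρ : Representation K G V) (a b : G) (v : V) : ρ (a * b) v = ρ a (ρ b v) := by
  rw [map_mul, Module.End.mul_apply]

omit [FiniteDimensional K V] in
/-- the orbit of a non-zero vector spans. -/
theorem Gel.span {ρ : Representation K G V} (hi : Irr ρ) {v : V} (hv : v ≠ 0) :
    Submodule.span K (Set.range fun g => ρ g v) = ⊤ := by
  refine (hi _ fun g w hw => ?_).resolve_left fun e => hv ?_
  · have : (Submodule.span K (Set.range fun g => ρ g v)).map (ρ g) ≤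
        Submodule.span K (Set.range fun g => ρ g v) := by
      rw [Submodule.map_span_le]
      rintro _ ⟨h, rfl⟩
      exact Submodule.subset_span ⟨g * h, Gel.mul ρ g h v⟩
    exact this ⟨w, hw, rfl⟩
  · exact (Submodule.eq_bot_iff _).1 e v (Submodule.subset_span ⟨1, by simp⟩)

/-- **Gelfand trick.** Let `E = ker (ρ c - θ)`, `0 ≠ v₁ ∈ E` (else `E = ⊥`); `θ ≠ 0` (`ρ c` is
injective). `ρ c - θ` is not injective, so not surjective: a functional `l ≠ 0` kills its range,
`l (ρ c w) = θ l w`. For `v ∈ E` put `m v g = l (ρ g v)`; from `τ g * c ^ n = c ^ n * g`: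
`θ ^ n * m v (τ g) = θ ^ n * m v g`, so `m v (τ g) = m v g`.
For `v : V` let `T v : (G →₀ K) →ₗ V := Finsupp.linearCombination K fun g => ρ g v`; for `v ≠ 0` it is
onto (the range is invariant and contains `v`), and a functional `L` with `L (ρ g v) = 0` for all `g`
is `0`; a vector `y` with `l (ρ h y) = 0` for all `h` is `0` (such `y` form an invariant subspace
`≠ ⊤`). CLAIM `ker (T v₁) ≤ ker (T v₂)` for `v₂ ∈ E`: for `a : G →₀ K` put
`L = a.sum fun g x => x • l ∘ ρ (τ g)`; for `v ∈ E`: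
`l (ρ h (T v a)) = ∑ a g * m v (h g) = ∑ a g * m v (τ g * τ h) = L (ρ (τ h) v)`
(`m v (h g) = m v (τ (h g))`, `hτ`). If `T v₁ a = 0` then `L (ρ (τ h) v₁) = 0` for all `h`, `τ` onto, so
`L = 0`, so `T v₂ a = 0`. Hence `φ : V →ₗ V` with `φ ∘ T v₁ = T v₂` (section of `T v₁`:
`LinearMap.exists_rightInverse_of_surjective`); `φ` commutes with `ρ g` (check on `ρ h v₁ =
T v₁ (single h 1)`, these span), `Irr.schur`: `v₂ = φ v₁ = s • v₁`. So `E ≤ span {v₁}`. -/
theorem gel [IsAlgClosed K] {ρ : Representation K G V} (hi : Irr ρ) (τ : G → G)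
    (hτ : ∀ a b, τ (a * b) = τ b * τ a) (hs : Function.Surjective τ) (c : G)
    (hc : ∀ g, ∃ n : ℕ, τ g * c ^ n = c ^ n * g) (θ : K) :
    finrank K (LinearMap.ker (ρ c - θ • (1 : Module.End K V))) ≤ 1 := by
  by_cases hE : LinearMap.ker (ρ c - θ • (1 : Module.End K V)) = ⊥
  · rw [hE, finrank_bot]; exact zero_le_one
  have mE : ∀ {v}, v ∈ LinearMap.ker (ρ c - θ • (1 : Module.End K V)) → ρ c v = θ • v := fun hv => by
    simpa [sub_eq_zero] using hv
  obtain ⟨v₁, h₁, n₁⟩ := (Submodule.ne_bot_iff _).1 hE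
  have hθ : θ ≠ 0 := fun e => n₁ (by
    have := congrArg (ρ c⁻¹) (mE h₁)
    rwa [← Gel.mul, inv_mul_cancel, map_one, e, zero_smul, map_zero] at this)
  have hr : LinearMap.range (ρ c - θ • (1 : Module.End K V)) < ⊤ :=
    lt_top_iff_ne_top.2 fun e => hE (LinearMap.ker_eq_bot_iff_range_eq_top.2 e)
  obtain ⟨l, l0, hl⟩ := Submodule.exists_le_ker_of_lt_top _ hr
  have lc : ∀ w, l (ρ c w) = θ * l w := fun w => by
    have := hl (LinearMap.mem_range_self (ρ c - θ • (1 : Module.End K V)) w)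
    simpa [sub_eq_zero] using this
  have lp : ∀ (n : ℕ) w, l (ρ (c ^ n) w) = θ ^ n * l w := fun n => by
    induction n with
    | zero => simp
    | succ n ih => intro w; rw [pow_succ', Gel.mul, lc, ih, pow_succ', mul_assoc]
  have vp : ∀ {v}, ρ c v = θ • v → ∀ n : ℕ, ρ (c ^ n) v = θ ^ n • v := fun {v} hv n => by
    induction n with
    | zero => simp
    | succ n ih => rw [pow_succ', Gel.mul, ih, map_smul, hv, smul_smul, pow_succ]
  have mt : ∀ {v}, ρ c v = θ • v → ∀ g, l (ρ (τ g) v) = l (ρ g v) := fun {v} hv g => by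
    obtain ⟨n, hn⟩ := hc g
    have := congrArg (fun x => l (ρ x v)) hn
    simp only [Gel.mul, vp hv, lp, map_smul, smul_eq_mul] at this
    exact mul_left_cancel₀ (pow_ne_zero n hθ) this
  have z : ∀ y, (∀ h, l (ρ h y) = 0) → y = 0 := fun y hy => by
    by_contra n
    apply l0
    refine LinearMap.ext_on (Gel.span hi n) ?_
    rintro _ ⟨h, rfl⟩
    exact hy h
  refine finrank_le_one ⟨v₁, h₁⟩ fun ⟨v₂, h₂⟩ => ?_
  let W : Submodule K (V × V) := Submodule.span K (Set.range fun g => (ρ g v₁, ρ g v₂))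
  have key : ∀ w ∈ W, ∃ L : V →ₗ[K] K, ∀ h, l (ρ h w.1) = L (ρ (τ h) v₁) ∧ l (ρ h w.2) = L (ρ (τ h) v₂) := by
    intro w hw
    induction hw using Submodule.span_induction with
    | mem x hx =>
      obtain ⟨g, rfl⟩ := hx
      refine ⟨l ∘ₗ ρ (τ g), fun h => ⟨?_, ?_⟩⟩
      · rw [LinearMap.comp_apply, ← Gel.mul, ← Gel.mul, ← hτ, mt (mE h₁)]
      · rw [LinearMap.comp_apply, ← Gel.mul, ← Gel.mul, ← hτ, mt (mE h₂)]
    | zero => exact ⟨0, fun h => by simp⟩
    | add x y _ _ hx hy =>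
      obtain ⟨L, hL⟩ := hx
      obtain ⟨M, hM⟩ := hy
      exact ⟨L + M, fun h => by simp [hL h, hM h]⟩
    | smul a x _ hx =>
      obtain ⟨L, hL⟩ := hx
      exact ⟨a • L, fun h => by simp [hL h]⟩
  have inj : ∀ w ∈ W, w.1 = 0 → w.2 = 0 := fun w hw e => by
    obtain ⟨L, hL⟩ := key w hw
    have L0 : L = 0 := by
      refine LinearMap.ext_on (Gel.span hi n₁) ?_
      rintro _ ⟨g, rfl⟩
      obtain ⟨h, rfl⟩ := hs g
      rw [← (hL h).1, e]; simp
    exact z _ fun h => by rw [(hL h).2, L0]; rfl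
  have sur : ∀ x : V, ∃ y, (x, y) ∈ W := fun x => by
    have : (⊤ : Submodule K V) ≤ W.map (LinearMap.fst K V V) := by
      rw [← Gel.span hi n₁, Submodule.span_le]
      rintro _ ⟨g, rfl⟩
      exact ⟨_, Submodule.subset_span ⟨g, rfl⟩, rfl⟩
    obtain ⟨w, hw, rfl⟩ := this (Submodule.mem_top (x := x))
    exact ⟨w.2, hw⟩
  choose f hf using sur
  have uq : ∀ x y, (x, y) ∈ W → f x = y := fun x y h =>
    sub_eq_zero.1 (inj _ (W.sub_mem (hf x) h) (sub_self x))
  let φ : Module.End K V :=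
    { toFun := f
      map_add' := fun x y => uq _ _ (W.add_mem (hf x) (hf y))
      map_smul' := fun a x => uq _ _ (W.smul_mem a (hf x)) }
  have iW : ∀ g, ∀ w ∈ W, (ρ g w.1, ρ g w.2) ∈ W := fun g w hw => by
    have : W.map ((ρ g).prodMap (ρ g)) ≤ W := by
      rw [Submodule.map_span_le]
      rintro _ ⟨h, rfl⟩
      exact Submodule.subset_span ⟨g * h, by simp [Gel.mul]⟩
    exact this ⟨w, hw, rfl⟩
  obtain ⟨s, hφ⟩ := hi.schur φ fun g => LinearMap.ext fun x => uq _ _ (iW g _ (hf x))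
  refine ⟨s, Subtype.ext ?_⟩
  have e : φ v₁ = v₂ := uq _ _ (Submodule.subset_span ⟨1, by simp⟩)
  rw [hφ] at e
  simpa using e

end CL.LS6
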