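import Cfsg.Agent.FGS.LS6.Defs

namespace CL.LS6
open Module

namespace Tor

variable {p : ℕ}

/-- the anti-automorphism on matrices -/
def ta (M : Matrix (Fin 2) (Fin 2) (ZMod p)) : Matrix (Fin 2) (Fin 2) (ZMod p) := !![M 0 0, -M 1 0; -M 0 1, M 1 1]

theorem ta_mul (A B : Matrix (Fin 2) (Fin 2) (ZMod p)) : ta (A * B) = ta B * ta A := by
  ext i j; fin_cases i <;> fin_cases j <;> simp [ta, Matrix.mul_apply, Fin.sum_univ_two] <;> ring

theorem ta_one : ta (1 : Matrix (Fin 2) (Fin 2) (ZMod p)) = 1 := by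
  ext i j; fin_cases i <;> fin_cases j <;> simp [ta]

theorem ta_ta (A : Matrix (Fin 2) (Fin 2) (ZMod p)) : ta (ta A) = A := by
  ext i j; fin_cases i <;> fin_cases j <;> simp [ta]

/-- the anti-automorphism -/
def tg (g : GL2 p) : GL2 p :=
  ⟨ta g.val, ta g.inv, by rw [← ta_mul, g.inv_val, ta_one], by rw [← ta_mul, g.val_inv, ta_one]⟩

/-- the matrices commuting with `xG` -/
def tm (s t : ZMod p) : Matrix (Fin 2) (Fin 2) (ZMod p) := !![s, -t; t, s - t]

theorem xG_val : (xG : GL2 p).val = tm 0 1 := by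
  change !![0, -1; 1, -1] = _
  simp [tm]

theorem tm_mul (s t a b : ZMod p) : tm s t * tm a b = tm (s * a - t * b) (t * a + (s - t) * b) := by
  ext i j; fin_cases i <;> fin_cases j <;> simp [tm, Matrix.mul_apply, Fin.sum_univ_two] <;> ring

theorem mem_C {g : GL2 p} : g ∈ Subgroup.centralizer {(xG : GL2 p)} ↔ g.val = tm (g.val 0 0) (g.val 1 0) := by
  rw [Subgroup.mem_centralizer_singleton_iff, Units.ext_iff, Units.val_mul, Units.val_mul, xG_val]
  refine ⟨fun h => ?_, fun h => by rw [h, tm_mul, tm_mul]; congr 1 <;> ring⟩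
  have a := congrFun (congrFun h 0) 0
  have b := congrFun (congrFun h 1) 0
  simp [tm, Matrix.mul_apply, Fin.sum_univ_two] at a b
  ext i j; fin_cases i <;> fin_cases j <;> simp [tm, a, b, sub_eq_add_neg]

theorem three_ne [Fact p.Prime] (h3 : p % 3 = 2) : (3 : ZMod p) ≠ 0 := fun h => by
  have := (Nat.prime_dvd_prime_iff_eq (Fact.out : p.Prime) Nat.prime_three).1 ((ZMod.natCast_eq_zero_iff 3 p).1 h)
  omega

theorem nrm [Fact p.Prime] (h3 : p % 3 = 2) {s t : ZMod p} (h : s ^ 2 - s * t + t ^ 2 = 0) : s = 0 ∧ t = 0 := by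
  have e : (-s) ^ 3 = t ^ 3 := by linear_combination (-s - t) * h
  obtain ⟨k, hk⟩ : ∃ k, p + p = 3 * k + 1 := ⟨(p + p) / 3, by omega⟩
  have i : ∀ a : ZMod p, (a ^ 3) ^ k * a = a * a := fun a => by rw [← pow_mul, ← pow_succ, ← hk, pow_add, ZMod.pow_card]
  have t0 : t = 0 := by
    by_contra t0
    have s0 : -s ≠ 0 := fun c => t0 (pow_eq_zero_iff three_ne_zero |>.1 (by rw [← e, c]; simp))
    have : -s = t := by rw [← mul_right_cancel₀ s0 (i (-s)), ← mul_right_cancel₀ t0 (i t), e]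
    exact t0 (pow_eq_zero_iff two_ne_zero |>.1 ((mul_eq_zero.1 (by
      linear_combination h - (2 * t - s) * this : (3 : ZMod p) * t ^ 2 = 0)).resolve_left (three_ne h3)))
  exact ⟨pow_eq_zero_iff two_ne_zero |>.1 (by linear_combination h + (s - t) * t0), t0⟩

end Tor

open Tor in

/-- The non-split torus of `GL(2,p)`, `p ≡ 2 (mod 3)`. `τ !![a,b;c,d] = !![a,-c;-b,d]`
(`= S gᵀ S`, `S = diag(1,-1)`; anti-automorphism, `τ ∘ τ = id`; build the unit by
`Matrix.GeneralLinearGroup.mkOfDetNeZero` or from `g⁻¹`). `C = centralizer {xG}`; `g ∈ C` iff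
`g = !![s,-t;t,s-t]` (`s = g 0 0`, `t = g 1 0`). `s² - s t + t² ≠ 0` for `(s,t) ≠ 0` (else `t ≠ 0`,
`y = -s/t` has `y² + y + 1 = 0`, `y³ = 1`, `y ≠ 1` as `p ≠ 3`, so `3 ∣ p - 1`). `C` is cyclic:
`g ↦ g 0 0 + g 1 0 * ω` is an injective monoid hom to `AlgebraicClosure (ZMod p)`, `ω² + ω + 1 = 0`,
`ω ∉ ZMod p` (`isCyclic_of_subgroup_isDomain`); `c` = generator (powers in `ℕ`: `mem_powers_iff_mem_zpowers`).
`τ g * y = y * g` for `y = !![s,-t;t,s-t]` iff `s (b + c) = t (d - a + c)`: take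
`(s,t) = (d - a + c, b + c)`, or `y = 1` if both vanish. `|C| ≤ p² - 1` (`g ↦ (s,t) ≠ 0` injective);
the subgroup `D = {z * xG ^ k}` (`z` scalar; e.g. the range of a hom from `(ZMod p)ˣ × zpowers xG`,
injective as `xG`, `xG²` are not scalar) has `3 (p - 1)` elements; `m` = index of `D` in `C`,
`m * 3 (p - 1) ≤ p² - 1`; `c ^ m ∈ D` (`Subgroup.pow_index_mem`, `C` commutative). -/
theorem tor (p : ℕ) [Fact p.Prime] (h3 : p % 3 = 2) :
    ∃ (τ : GL2 p → GL2 p) (c z : GL2 p) (m k : ℕ), (∀ a b, τ (a * b) = τ b * τ a) ∧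
      Function.Surjective τ ∧ (∀ g, ∃ n : ℕ, τ g * c ^ n = c ^ n * g) ∧ 0 < m ∧ 3 * m ≤ p + 1 ∧
      z ∈ Subgroup.center (GL2 p) ∧ c ^ m = z * xG ^ k := by
  let L := AlgebraicClosure (ZMod p)
  let φ := algebraMap (ZMod p) L
  obtain ⟨ω, hω⟩ : ∃ ω : L, ω ^ 2 + ω + 1 = 0 := by
    obtain ⟨ω, h⟩ := IsAlgClosed.exists_root (Polynomial.X ^ 2 + Polynomial.X + 1 : Polynomial L) (by
      rw [show (Polynomial.X ^ 2 + Polynomial.X + 1 : Polynomial L).degree = 2 by compute_degree!]; simp)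
    exact ⟨ω, by simpa using h⟩
  have ind : ∀ a t : ZMod p, φ a + φ t * ω = 0 → a = 0 ∧ t = 0 := fun a t h => nrm h3 (φ.injective (by
    simp only [map_add, map_sub, map_mul, map_pow, map_zero]
    linear_combination (φ a - φ t - φ t * ω) * h + φ t ^ 2 * hω))
  let C := Subgroup.centralizer {(xG : GL2 p)}
  let f : C →* L :=
    { toFun := fun g => φ (g.1.val 0 0) + φ (g.1.val 1 0) * ω
      map_one' := by simp
      map_mul' := fun a b => by
        rw [Subgroup.coe_mul, Units.val_mul, mem_C.1 a.2, mem_C.1 b.2, tm_mul]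
        simp [tm]
        linear_combination (-φ (a.1.val 1 0) * φ (b.1.val 1 0)) * hω }
  have := isCyclic_of_injective_ringHom f ((injective_iff_map_eq_one f).2 fun g hg => by
    obtain ⟨a, b⟩ := ind (g.1.val 0 0 - 1) (g.1.val 1 0) (by rw [map_sub, map_one, ← hg]; simp [f])
    refine Subtype.ext (Units.ext ?_)
    rw [mem_C.1 g.2, sub_eq_zero.1 a, b]
    ext i j; fin_cases i <;> fin_cases j <;> simp [tm])
  obtain ⟨c, hc⟩ := IsCyclic.exists_monoid_generator (α := C)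
  obtain ⟨m, hm⟩ : ∃ m, p + 1 = m * 3 := ⟨(p + 1) / 3, by omega⟩
  have xC : xG ∈ C := Subgroup.mem_centralizer_singleton_iff.2 rfl
  obtain ⟨j, hj⟩ : ∃ j, ((c ^ m).1 * xG ^ j).val 1 0 = 0 := by
    have e : f (c ^ m) ^ 3 = φ (c.1.val 0 0 ^ 2 - c.1.val 0 0 * c.1.val 1 0 + c.1.val 1 0 ^ 2) := by
      have w : ω ^ p = ω ^ 2 := by
        have : ω ^ 3 = 1 := by linear_combination (ω - 1) * hω
        exact (congrArg (ω ^ ·) (show p = 3 * (p / 3) + 2 by omega)).trans (by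
          simp only [pow_add, pow_mul, this, one_pow, one_mul])
      rw [map_pow, ← pow_mul, ← hm, pow_succ]
      simp only [f, MonoidHom.coe_mk, OneHom.coe_mk]
      rw [add_pow_char, mul_pow, ← map_pow, ← map_pow, ZMod.pow_card, ZMod.pow_card, w]
      simp only [map_add, map_sub, map_mul, map_pow]
      linear_combination (φ (c.1.val 0 0) * φ (c.1.val 1 0) + φ (c.1.val 1 0) ^ 2 * (ω - 1)) * hω
    generalize c ^ m = y at e
    simp only [f, MonoidHom.coe_mk, OneHom.coe_mk] at e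
    have hy := mem_C.1 y.2
    generalize y.1.val 0 0 = s, y.1.val 1 0 = t, c.1.val 0 0 ^ 2 - c.1.val 0 0 * c.1.val 1 0 + c.1.val 1 0 ^ 2 = n at e hy
    have := (ind (s ^ 3 + t ^ 3 - 3 * s * t ^ 2 - n) (3 * (t * (s * (s - t)))) (by
      simp only [map_add, map_sub, map_mul, map_pow, map_ofNat]
      linear_combination e - (3 * φ s * φ t ^ 2 + φ t ^ 3 * (ω - 1)) * hω)).2
    rcases mul_eq_zero.1 ((mul_eq_zero.1 this).resolve_left (three_ne h3)) with h | h
    · exact ⟨0, by simp [hy, tm, h]⟩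
    rcases mul_eq_zero.1 h with h | h
    · exact ⟨2, by rw [Units.val_mul, pow_two, Units.val_mul, hy, xG_val, tm_mul, tm_mul]; simp [tm, h]⟩
    · exact ⟨1, by rw [Units.val_mul, pow_one, hy, xG_val, tm_mul]; simp [tm, h]⟩
  refine ⟨tg, c, (c ^ m).1 * xG ^ j, m, 2 * j, fun a b => Units.ext (ta_mul _ _), fun g => ⟨tg g, Units.ext (ta_ta _)⟩,
    fun g => ?_, by omega, by omega, Subgroup.mem_center_iff.2 fun g => Units.ext ?_, ?_⟩
  · suffices ∃ y : C, tg g * y = y * g by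
      obtain ⟨y, hy⟩ := this
      obtain ⟨n, rfl⟩ := hc y
      exact ⟨n, hy⟩
    have k : ∀ s t, s * (g.val 0 1 + g.val 1 0) = t * (g.val 1 1 - g.val 0 0 + g.val 1 0) → ta g.val * tm s t = tm s t * g.val :=
      fun s t h => by
        ext a b; fin_cases a <;> fin_cases b <;> simp [ta, tm, Matrix.mul_apply, Fin.sum_univ_two]
        exacts [by ring, by linear_combination -h, by linear_combination -h, by ring]
    by_cases h : g.val 1 1 - g.val 0 0 + g.val 1 0 = 0 ∧ g.val 0 1 + g.val 1 0 = 0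
    · refine ⟨1, Units.ext ?_⟩
      have := k 1 0 (by rw [h.2]; ring)
      rwa [show tm 1 0 = 1 by ext a b; fin_cases a <;> fin_cases b <;> simp [tm]] at this
    · exact ⟨⟨Matrix.GeneralLinearGroup.mkOfDetNeZero (tm (g.val 1 1 - g.val 0 0 + g.val 1 0) (g.val 0 1 + g.val 1 0))
        fun c => h (nrm h3 (by rw [tm, Matrix.det_fin_two_of] at c; linear_combination c)), mem_C.2 rfl⟩,
        Units.ext (k _ _ (mul_comm _ _))⟩
  · rw [Units.val_mul g, Units.val_mul _ g, mem_C.1 (mul_mem (c ^ m).2 (pow_mem xC j)), hj]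
    ext a b; fin_cases a <;> fin_cases b <;> simp [tm, Matrix.mul_apply, Fin.sum_univ_two, mul_comm]
  · rw [mul_assoc, ← pow_add, show j + 2 * j = 3 * j by ring, pow_mul, xG_pow, one_pow, mul_one]
    rfl

end CL.LS6
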