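import Cfsg.Agent.FGS.LS6.Defs
import Cfsg.Agent.FGS.LS6.Lin
import Cfsg.Agent.FGS.LS6.Gel
import Cfsg.Agent.FGS.LS6.Tor
import Cfsg.Agent.FGS.LS6.Big
namespace CL.LS6
open Module

universe v
variable {K : Type*} [Field K]

/-- Irreducible case. `big`: if `ρ xG = 1` then `fx = n`. Else `p - 1 ≤ n`. Take `tor`; `ρ z = s • 1`
(`Irr.schur`), `gel` gives `h1` of `le_of_eig` for `A = ρ c`. `ω² + ω + 1 = 0`; for `μ ∈ {ω, ω²}`,
`E = ker (ρ xG - μ • 1)`: `(A ^ m) v = ρ z (ρ xG ^ k v) = (s * μ ^ k) • v`, so `dim E ≤ m`.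
`(X - ω)(X - ω²)(X - 1) = X³ - 1 = 0` (`xG_pow`), `ker_mul_le` twice: `n ≤ 2 m + fx`. With
`3 m ≤ p + 1`, `p - 1 ≤ n`, `11 ≤ p`: `n ≤ 5 fx` (`omega`). -/
theorem irr_le (p : ℕ) [Fact p.Prime] [IsAlgClosed K] (h11 : 11 ≤ p) (h3 : p % 3 = 2)
    (hp : (p : K) ≠ 0) {V : Type v} [AddCommGroup V] [Module K V] [FiniteDimensional K V]
    (ρ : Representation K (GL2 p) V) (hi : Irr ρ) : finrank K V ≤ 5 * fx (ρ xG) := by
  rcases big p hp ρ with h1 | hn
  · have : fx (ρ xG) = finrank K V := by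
      unfold fx; rw [h1, sub_self, LinearMap.ker_zero, finrank_top]
    omega
  obtain ⟨τ, c, z, m, k, hτ, hs, hc, hm, h3m, hz, hcm⟩ := tor p h3
  obtain ⟨s, hs'⟩ := hi.schur (ρ z) fun g => by
    rw [← map_mul, ← map_mul, Subgroup.mem_center_iff.1 hz g]
  obtain ⟨ω, hω⟩ : ∃ ω : K, ω ^ 2 + ω + 1 = 0 := by
    obtain ⟨ω, h⟩ := IsAlgClosed.exists_root (Polynomial.X ^ 2 + Polynomial.X + 1 : Polynomial K) (by
      rw [show (Polynomial.X ^ 2 + Polynomial.X + 1 : Polynomial K).degree = 2 by compute_degree!]; simp)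
    exact ⟨ω, by simpa using h⟩
  set X := ρ xG with hX
  have hE : ∀ μ : K, finrank K (LinearMap.ker (X - μ • (1 : Module.End K V))) ≤ m := fun μ =>
    le_of_eig (ρ c) (gel hi τ hτ hs c hc) hm _ (s * μ ^ k) fun v hv => by
      have h1 : X v = μ • v := by simpa [sub_eq_zero] using hv
      have h2 : ∀ j : ℕ, (X ^ j) v = μ ^ j • v := fun j => by
        induction j with
        | zero => simp
        | succ j ih => rw [pow_succ', Module.End.mul_apply, ih, map_smul, h1, smul_smul, pow_succ]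
      rw [← map_pow, hcm, map_mul, map_pow, Module.End.mul_apply, ← hX, h2, hs']
      simp [smul_smul, mul_comm]
  have X3 : X * X * X = 1 := by
    rw [hX, ← map_mul, ← map_mul, ← map_one ρ, ← xG_pow]; simp only [pow_succ, pow_zero, one_mul]
  have e1 : (X - ω • (1 : Module.End K V)) * (X - ω ^ 2 • (1 : Module.End K V)) = X * X + X + 1 := by
    have w3 : ω * ω ^ 2 = 1 := by linear_combination (ω - 1) * hω
    have w2 : ω ^ 2 = -1 - ω := by linear_combination hω
    simp only [sub_mul, mul_sub, smul_mul_assoc, mul_smul_comm, mul_one, one_mul, smul_sub, smul_smul]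
    rw [mul_comm (ω ^ 2) ω, w3, w2]
    module
  have e0 : (X - ω • (1 : Module.End K V)) * (X - ω ^ 2 • (1 : Module.End K V)) * (X - 1) = 0 := by
    rw [e1]; simp only [add_mul, mul_sub, mul_one, one_mul, X3]; abel
  have a1 := ker_mul_le ((X - ω • (1 : Module.End K V)) * (X - ω ^ 2 • (1 : Module.End K V))) (X - 1)
  have a2 := ker_mul_le (X - ω • (1 : Module.End K V)) (X - ω ^ 2 • (1 : Module.End K V))
  rw [e0, LinearMap.ker_zero, finrank_top] at a1
  have a3 := hE ω
  have a4 := hE (ω ^ 2)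
  unfold fx
  omega

/-- Strong induction on `finrank K V` (generalizing `V`). If `ρ` is not `Irr` take an invariant
`S ≠ ⊥, ⊤`; the subrepresentation on `S` and the quotient representation on `V ⧸ S`
(`Representation.subrepresentation`, `Representation.quotient`) have smaller dimension;
`fW_add` with `W = ⊤`, `Ψ = S.mkQ` (`fW_top`, `fW (ρ xG) S = fx` of the restriction). -/
theorem all_le (p : ℕ) [Fact p.Prime] [IsAlgClosed K] (h11 : 11 ≤ p) (h3 : p % 3 = 2)
    (hp : (p : K) ≠ 0) (h3K : (3 : K) ≠ 0) {V : Type v} [AddCommGroup V] [Module K V]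
    [FiniteDimensional K V] (ρ : Representation K (GL2 p) V) : finrank K V ≤ 5 * fx (ρ xG) := by
  induction hn : finrank K V using Nat.strong_induction_on generalizing V with
  | _ n ih =>
  subst hn
  by_cases hi : Irr ρ
  · exact irr_le p h11 h3 hp ρ hi
  simp only [Irr, not_forall, not_or] at hi
  obtain ⟨S, hS, h0, h1⟩ := hi
  have hc : ∀ g, S ≤ S.comap (ρ g) := fun g w hw => hS g w hw
  have l1 : finrank K S < finrank K V := Submodule.finrank_lt h1
  have l2 := S.finrank_quotient_add_finrank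
  have l3 : 0 < finrank K S := Nat.pos_of_ne_zero fun e => h0 (Submodule.finrank_eq_zero.1 e)
  have i1 := ih _ l1 (ρ.subrepresentation S hc) rfl
  have i2 := ih (finrank K (V ⧸ S)) (by omega) (ρ.quotient S hc) rfl
  have a := fW_add h3K (ρ xG) (ρ.quotient S hc xG) (by rw [← map_pow, xG_pow, map_one]) S.mkQ ⊤
    (fun _ _ => trivial) (fun w _ => rfl)
  rw [top_inf_eq, Submodule.ker_mkQ, Submodule.map_top, Submodule.range_mkQ, fW_top, fW_top] at a
  have b : fx (ρ.subrepresentation S hc xG) = fW (ρ xG) S := by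
    unfold fx fW
    rw [← Submodule.finrank_map_subtype_eq S]
    suffices e : Submodule.map S.subtype (LinearMap.ker (ρ.subrepresentation S hc xG - 1)) =
        S ⊓ LinearMap.ker (ρ xG - 1) by rw [e]
    ext v
    simp only [Submodule.mem_map, LinearMap.mem_ker, Submodule.mem_inf, LinearMap.sub_apply, Module.End.one_apply,
      sub_eq_zero, Submodule.subtype_apply]
    constructor
    · rintro ⟨w, hw, rfl⟩
      exact ⟨w.2, congrArg Subtype.val hw⟩
    · rintro ⟨hv, h⟩
      exact ⟨⟨v, hv⟩, Subtype.ext h, rfl⟩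
  omega

end CL.LS6
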