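import Cfsg.Agent.FGS.LS6.Defs
import Cfsg.Agent.FGS.LS6.Inv
import Cfsg.Agent.FGS.LS6.Irr
namespace CL.LS6
open Module

variable {K V : Type*} [Field K] [AddCommGroup V] [Module K V] [FiniteDimensional K V]

/-- Generic coinduction along a split hom. `N →ι Γ →d A`, `A` finite, `t : A → Γ` a set section
of `d`, `k : {g : Γ // d g = 1} → N`-type inverse given as `s : Γ → N` with `ι (s g) = g` whenever
`d g = 1`. On `A → V` put `(σ g F) a = ρ (s (t a * g * (t (a * d g))⁻¹)) (F (a * d g))`; this is a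
representation (`ι` injective: `s` is multiplicative on `ker d`, `s 1 = 1`), and for `d g = 1` it
acts diagonally. -/
theorem coind {N Γ A : Type*} [Group N] [Group Γ] [Group A] (ι : N →* Γ) (hι : Function.Injective ι)
    (d : Γ →* A) (t : A → Γ) (ht : ∀ a, d (t a) = a) (s : Γ → N) (hs : ∀ g, d g = 1 → ι (s g) = g)
    (ρ : Representation K N V) :
    ∃ σ : Representation K Γ (A → V), ∀ g, d g = 1 → ∀ F a, σ g F a = ρ (s (t a * g * (t a)⁻¹)) (F a) := by
  have hd : ∀ g a, d (t a * g * (t (a * d g))⁻¹) = 1 := fun g a => by simp [ht]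
  let L : Γ → Module.End K (A → V) := fun g =>
    LinearMap.pi fun a => ρ (s (t a * g * (t (a * d g))⁻¹)) ∘ₗ LinearMap.proj (a * d g)
  have hL : ∀ g F a, L g F a = ρ (s (t a * g * (t (a * d g))⁻¹)) (F (a * d g)) := fun _ _ _ => rfl
  refine ⟨⟨⟨L, LinearMap.ext fun F => funext fun a => ?_⟩, fun g k => LinearMap.ext fun F => funext fun a => ?_⟩,
    fun g hg F a => ?_⟩
  · rw [hL, map_one, mul_one, mul_one, mul_inv_cancel, show s 1 = 1 from hι (by rw [hs 1 (map_one d), map_one]),
      map_one]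
    rfl
  · rw [Module.End.mul_apply, hL, hL, hL, ← Module.End.mul_apply, ← map_mul, map_mul d, ← mul_assoc a]
    congr 2
    refine hι ?_
    rw [map_mul, hs _ (hd g a), hs _ (hd k _), hs _ (by simp [ht, mul_assoc])]
    group
  · show L g F a = _
    rw [hL, hg, mul_one]

/-- Cross characteristic. `coind` with `ι = toGL`, `d = det : GL2 p →* (ZMod p)ˣ`, `t a = diag(a,1)`
(or any section), `h a = s (t a * xG * (t a)⁻¹) ≠ 1`. `3 ≠ 0` by `Bad.chr` (`xx_ne`, `xx_pow`).
`ker (σ xG - 1) = Submodule.pi univ fun a => ker (ρ (h a) - 1)` (embeds in the product), so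
`fx (σ xG) ≤ ∑ a, fx (ρ (h a))`, `dim (A → V) = |A| * n`; `all_le`: `|A| n ≤ 5 ∑ fx`, and `6 fx (ρ (h a)) < n`
for each `a`: `6 |A| n ≤ 30 ∑ fx ≤ 5 |A| (n - 1)`, absurd (`|A| > 0`, `n > 0`). -/
theorem not_bad_cross (p : ℕ) [Fact p.Prime] [IsAlgClosed K] (h11 : 11 ≤ p) (h3 : p % 3 = 2)
    (hp : (p : K) ≠ 0) (ρ : Representation K (SL2 p) V) : ¬ Bad ρ := by
  intro hb
  classical
  let s : GL2 p → SL2 p := fun g => if h : g.1.det = 1 then ⟨g.1, h⟩ else 1
  have hs : ∀ g : GL2 p, Matrix.GeneralLinearGroup.det g = 1 → Matrix.SpecialLinearGroup.toGL (s g) = g := fun g hg => by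
    have : g.1.det = 1 := congrArg Units.val hg
    rw [show s g = ⟨g.1, this⟩ from dif_pos this]
    exact Units.ext rfl
  obtain ⟨t, ht⟩ := (Matrix.GeneralLinearGroup.det_surjective (n := Fin 2) (R := ZMod p)).hasRightInverse
  obtain ⟨σ, hσ⟩ := coind Matrix.SpecialLinearGroup.toGL Matrix.SpecialLinearGroup.toGL_injective
    Matrix.GeneralLinearGroup.det t ht s hs ρ
  have dx : Matrix.GeneralLinearGroup.det (xG : GL2 p) = 1 := Units.ext (xx : SL2 p).2
  have le := all_le p h11 h3 hp (by exact_mod_cast hb.chr xx_ne Nat.prime_three (by norm_num) xx_pow) σ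
  have ne : ∀ a, s (t a * xG * (t a)⁻¹) ≠ 1 := fun a e => by
    have := hs (t a * xG * (t a)⁻¹) (by simp [dx])
    rw [e, map_one, eq_comm, conj_eq_one_iff] at this
    exact xx_ne (Matrix.SpecialLinearGroup.toGL_injective (this.trans (map_one _).symm))
  let f : LinearMap.ker (σ xG - 1) →ₗ[K] ∀ a, LinearMap.ker (ρ (s (t a * xG * (t a)⁻¹)) - 1) :=
    LinearMap.pi fun a => (LinearMap.proj a ∘ₗ Submodule.subtype _).codRestrict _ fun F => by
      have := congrFun (LinearMap.mem_ker.1 F.2) a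
      rw [LinearMap.sub_apply, Pi.sub_apply, hσ _ dx] at this
      exact this
  have fi : Function.Injective f := fun F F' e => Subtype.ext (funext fun a => congrArg Subtype.val (congrFun e a))
  have l2 := LinearMap.finrank_le_finrank_of_injective fi
  rw [finrank_pi_fintype] at l2
  rw [finrank_pi_fintype, Finset.sum_const, smul_eq_mul] at le
  have l3 : ∑ a, (6 * fx (ρ (s (t a * xG * (t a)⁻¹))) + 1) ≤ ∑ _a : (ZMod p)ˣ, finrank K V :=
    Finset.sum_le_sum fun a _ => hb _ (ne a)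
  rw [Finset.sum_add_distrib, ← Finset.mul_sum, Finset.sum_const, Finset.sum_const, smul_eq_mul, smul_eq_mul] at l3
  have : 0 < (Finset.univ : Finset (ZMod p)ˣ).card := Finset.card_pos.2 Finset.univ_nonempty
  unfold fx at le l3
  omega

end CL.LS6
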