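import Mathlib
import Cfsg.Prelude.Def_CaseTheorems
import Cfsg.Prelude.Def_RootSubgroups

/-! Definitions for S5720 (an element with fixed space of dimension at least `dim V / 6`). -/

namespace CL.LS6
open Module

section
variable {K V G : Type*} [Field K] [AddCommGroup V] [Module K V] [Group G]

/-- dimension of the fixed space of `A`. -/
noncomputable def fx (A : Module.End K V) : ℕ := finrank K (LinearMap.ker (A - 1))

/-- dimension of the fixed space of `A` inside `W`. -/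
noncomputable def fW (A : Module.End K V) (W : Submodule K V) : ℕ :=
  finrank K ↥(W ⊓ LinearMap.ker (A - 1))

theorem fW_top (A : Module.End K V) : fW A ⊤ = fx A := by
  unfold fW fx; rw [top_inf_eq]

/-- every non-identity element has a small fixed space. -/
def Bad (ρ : Representation K G V) : Prop := ∀ h : G, h ≠ 1 → 6 * fx (ρ h) < finrank K V

theorem Bad.comp {ρ : Representation K G V} (h : Bad ρ) {H : Type*} [Group H] (f : H →* G)
    (hf : Function.Injective f) : Bad (ρ.comp f : Representation K H V) := fun a ha =>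
  h (f a) fun e => ha (hf (by rw [e, map_one]))

/-- `W` is an invariant subspace. -/
def Inv (ρ : Representation K G V) (W : Submodule K V) : Prop := ∀ g : G, ∀ w ∈ W, ρ g w ∈ W

/-- no invariant subspace except `⊥` and `⊤` (the zero module is allowed). -/
def Irr (ρ : Representation K G V) : Prop := ∀ W : Submodule K V, Inv ρ W → W = ⊥ ∨ W = ⊤
end

/-- the group-theoretic consequences of `Bad`. -/
structure Gp (G : Type*) [Group G] : Prop where
  u2 : ∀ a b : G, a ≠ 1 → b ≠ 1 → a ^ 2 = 1 → b ^ 2 = 1 → a = b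
  t3 : ∀ a b : G, a ≠ 1 → b ≠ 1 → a * b ≠ 1 → a ^ 3 = 1 → b ^ 3 = 1 → (a * b) ^ 3 = 1 → a = b
  r5 : ∀ a b : G, a ≠ 1 → a ^ 5 = 1 → b ^ 5 = 1 → a * b = b * a → b ∈ Subgroup.zpowers a

theorem Gp.comp {G H : Type*} [Group G] [Group H] (h : Gp G) (f : H →* G)
    (hf : Function.Injective f) : Gp H := by
  have n1 : ∀ {a : H}, a ≠ 1 → f a ≠ 1 := fun ha e => ha (hf (by rw [e, map_one]))
  refine ⟨fun a b ha hb ha2 hb2 => hf (h.u2 _ _ (n1 ha) (n1 hb) ?_ ?_),
    fun a b ha hb hab ha3 hb3 hab3 => hf (h.t3 _ _ (n1 ha) (n1 hb) ?_ ?_ ?_ ?_),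
    fun a b ha ha5 hb5 hc => ?_⟩
  · rw [← map_pow, ha2, map_one]
  · rw [← map_pow, hb2, map_one]
  · rw [← map_mul]; exact n1 hab
  · rw [← map_pow, ha3, map_one]
  · rw [← map_pow, hb3, map_one]
  · rw [← map_mul, ← map_pow, hab3, map_one]
  · obtain ⟨k, hk⟩ := h.r5 (f a) (f b) (n1 ha) (by rw [← map_pow, ha5, map_one])
      (by rw [← map_pow, hb5, map_one]) (by rw [← map_mul, hc, map_mul])
    exact ⟨k, hf (by rw [map_zpow]; exact hk)⟩

theorem Gp.sub {G : Type*} [Group G] (h : Gp G) (L : Subgroup G) : Gp L :=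
  h.comp L.subtype L.subtype_injective

/-- `SL(2,p)`. -/
abbrev SL2 (p : ℕ) := Matrix.SpecialLinearGroup (Fin 2) (ZMod p)
/-- `GL(2,p)`. -/
abbrev GL2 (p : ℕ) := GL (Fin 2) (ZMod p)

section
variable {p : ℕ}

/-- upper unitriangular matrix. -/
def uu (a : ZMod p) : SL2 p := ⟨!![1, a; 0, 1], by simp [Matrix.det_fin_two]⟩
/-- diagonal matrix `diag(t, t⁻¹)`. -/
def dd (t : (ZMod p)ˣ) : SL2 p :=
  ⟨!![(t : ZMod p), 0; 0, ((t⁻¹ : (ZMod p)ˣ) : ZMod p)], by simp [Matrix.det_fin_two]⟩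
/-- Weyl element. -/
def ww : SL2 p := ⟨!![0, -1; 1, 0], by simp [Matrix.det_fin_two]⟩
/-- the element of order three. -/
def xx : SL2 p := ⟨!![0, -1; 1, -1], by simp [Matrix.det_fin_two]⟩
/-- `xx` in `GL(2,p)`. -/
def xG : GL2 p := Matrix.SpecialLinearGroup.toGL (xx : SL2 p)

theorem coe_uu (a : ZMod p) : ((uu a : SL2 p) : Matrix (Fin 2) (Fin 2) (ZMod p)) = !![1, a; 0, 1] := rfl
theorem coe_dd (t : (ZMod p)ˣ) : ((dd t : SL2 p) : Matrix (Fin 2) (Fin 2) (ZMod p)) =
    !![(t : ZMod p), 0; 0, ((t⁻¹ : (ZMod p)ˣ) : ZMod p)] := rfl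
theorem coe_ww : ((ww : SL2 p) : Matrix (Fin 2) (Fin 2) (ZMod p)) = !![0, -1; 1, 0] := rfl
theorem coe_xx : ((xx : SL2 p) : Matrix (Fin 2) (Fin 2) (ZMod p)) = !![0, -1; 1, -1] := rfl

theorem uu_add (a b : ZMod p) : uu (a + b) = uu a * uu b := by
  apply Subtype.ext
  rw [Matrix.SpecialLinearGroup.coe_mul, coe_uu, coe_uu, coe_uu]
  ext i j; fin_cases i <;> fin_cases j <;> simp [Matrix.mul_apply, Fin.sum_univ_two, add_comm]

theorem uu_zero : uu (0 : ZMod p) = 1 := by
  apply Subtype.ext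
  rw [coe_uu, Matrix.SpecialLinearGroup.coe_one]
  ext i j; fin_cases i <;> fin_cases j <;> simp

theorem uu_pow (a : ZMod p) (n : ℕ) : uu a ^ n = uu ((n : ZMod p) * a) := by
  induction n with
  | zero => simp [uu_zero]
  | succ n ih => rw [pow_succ, ih, ← uu_add]; congr 1; push_cast; ring

theorem dd_mul (s t : (ZMod p)ˣ) : dd (s * t) = dd s * dd t := by
  apply Subtype.ext
  rw [Matrix.SpecialLinearGroup.coe_mul, coe_dd, coe_dd, coe_dd]
  ext i j; fin_cases i <;> fin_cases j <;> simp [Matrix.mul_apply, Fin.sum_univ_two, mul_comm]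

theorem dd_one : dd (1 : (ZMod p)ˣ) = 1 := by
  apply Subtype.ext
  rw [coe_dd, Matrix.SpecialLinearGroup.coe_one]
  ext i j; fin_cases i <;> fin_cases j <;> simp

theorem dd_uu (t : (ZMod p)ˣ) (a : ZMod p) : dd t * uu a = uu ((t : ZMod p) ^ 2 * a) * dd t := by
  apply Subtype.ext
  rw [Matrix.SpecialLinearGroup.coe_mul, Matrix.SpecialLinearGroup.coe_mul, coe_dd, coe_uu, coe_uu]
  have h : (t : ZMod p) * a = (t : ZMod p) ^ 2 * a * ((t⁻¹ : (ZMod p)ˣ) : ZMod p) := by
    linear_combination (-(t : ZMod p) * a) * t.mul_inv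
  ext i j; fin_cases i <;> fin_cases j <;>
    simp only [Matrix.mul_apply, Fin.sum_univ_two] <;> simpa using h

theorem xx_pow : (xx : SL2 p) ^ 3 = 1 := by
  apply Subtype.ext
  rw [Matrix.SpecialLinearGroup.coe_pow, coe_xx, Matrix.SpecialLinearGroup.coe_one]
  ext i j; fin_cases i <;> fin_cases j <;>
    simp [pow_succ, Matrix.mul_apply, Fin.sum_univ_two]

theorem xG_pow : (xG : GL2 p) ^ 3 = 1 := by
  rw [xG, ← map_pow, xx_pow, map_one]

theorem xx_ne [Fact p.Prime] : (xx : SL2 p) ≠ 1 := fun h => by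
  have := congrArg (fun g : SL2 p => g 1 0) h
  simp [xx] at this

theorem uu_one_ne [Fact p.Prime] : (uu 1 : SL2 p) ≠ 1 := fun h => by
  have := congrArg (fun g : SL2 p => g 0 1) h
  simp [uu] at this

theorem uu_val [NeZero p] (a : ZMod p) : uu a = uu 1 ^ a.val := by
  rw [uu_pow]; simp

/-- number of `i ≤ e` with `i ≡ 2 e (mod 3)`. -/
def fe (e : ℕ) : ℕ := if e % 3 = 1 then e / 3 else e / 3 + 1

variable (K : Type*) [Field K] [Algebra (ZMod p) K]

/-- right translation of functions: `RT K g F h = F (h * g)`. -/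
def RT (g : SL2 p) : Module.End K (SL2 p → K) := LinearMap.funLeft K K (fun h => h * g)

omit [Algebra (ZMod p) K] in
@[simp] theorem RT_apply (g h : SL2 p) (F : SL2 p → K) : RT K g F h = F (h * g) := rfl

/-- the coinduced module: left `U`-invariant functions of left `D`-weight `j`. -/
def MJ (j : ℕ) : Submodule K (SL2 p → K) where
  carrier := {F | (∀ a g, F (uu a * g) = F g) ∧
    ∀ t g, F (dd t * g) = algebraMap (ZMod p) K t ^ j * F g}
  add_mem' := by
    rintro F F' ⟨h1, h2⟩ ⟨h3, h4⟩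
    exact ⟨fun a g => by simp [h1, h3], fun t g => by simp [h2, h4, mul_add]⟩
  zero_mem' := ⟨fun _ _ => rfl, fun _ _ => by simp⟩
  smul_mem' := by
    rintro c F ⟨h1, h2⟩
    exact ⟨fun a g => by simp [h1], fun t g => by simp [h2, mul_left_comm]⟩

/-- the monomial `c ^ (e - i) * d ^ i` in the bottom row `(c, d)`. -/
def mon (e i : ℕ) : SL2 p → K := fun g =>
  algebraMap (ZMod p) K (g 1 0) ^ (e - i) * algebraMap (ZMod p) K (g 1 1) ^ i

/-- homogeneous polynomials of degree `e` in the bottom row. -/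
def PO (e : ℕ) : Submodule K (SL2 p → K) :=
  Submodule.span K (Set.range fun i : Fin (e + 1) => mon (p := p) K e i)

variable {K} {V : Type*} [AddCommGroup V] [Module K V]

/-- `φ` is on `W` a `U`-invariant functional of `D`-weight `j`. -/
structure Fn (ρ : Representation K (SL2 p) V) (W : Submodule K V) (φ : V →ₗ[K] K) (j : ℕ) :
    Prop where
  hU : ∀ a, ∀ w ∈ W, φ (ρ (uu a) w) = φ w
  hD : ∀ t, ∀ w ∈ W, φ (ρ (dd t) w) = algebraMap (ZMod p) K t ^ j * φ w
end

end CL.LS6
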