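import Cfsg.Agent.FGS.LS6.Defs

namespace CL.LS6

namespace GA

open Subgroup

variable {G : Type*} [Group G]

theorem sq {m : G} (o : Odd (orderOf m)) {H : Subgroup G} (h : m * m ∈ H) : m ∈ H := by
  obtain ⟨k, hk⟩ := o
  have e : (m * m) ^ (k + 1) = m := by
    rw [← pow_two, ← pow_mul, show 2 * (k + 1) = 2 * k + 1 + 1 by ring, ← hk, pow_succ, pow_orderOf_eq_one, one_mul]
  exact e ▸ pow_mem h _

theorem quo {A : Subgroup G} [n : A.Normal] (c : ∀ a ∈ A, ∀ b ∈ A, a * b = b * a) {i j x : G} (hj : j * j = 1)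
    (hij : i * j = j * i) (hxi : x * i * x⁻¹ = j) (hxj : x * j * x⁻¹ = i * j)
    (key : ∀ w ∈ A, j * w * j⁻¹ = w → i * w * i⁻¹ = w⁻¹ → w = 1) {t : G} (ht : t ∈ A) (e : i * t * i⁻¹ = t⁻¹) : t = 1 := by
  have hs := n.conj_mem t ht j
  have e1 : t * (j * t * j⁻¹) = 1 := by
    refine key _ (mul_mem ht hs) ?_ ?_
    · calc _ = j * t * j⁻¹ * (j * j * t * (j * j)⁻¹) := by group
        _ = _ := by rw [hj, one_mul, inv_one, mul_one, c _ hs _ ht]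
    · calc _ = i * t * i⁻¹ * (i * j * t * (i * j)⁻¹) := by group
        _ = i * t * i⁻¹ * (j * (i * t * i⁻¹) * j⁻¹) := by rw [hij]; group
        _ = _ := by rw [e, c _ ht _ hs]; group
  have e2 : j * t * j⁻¹ = t⁻¹ := eq_inv_of_mul_eq_one_right e1
  have e3 : x⁻¹ * t * x⁻¹⁻¹ = 1 := by
    refine key _ (n.conj_mem t ht _) ?_ ?_
    · calc _ = x⁻¹ * (x * j * x⁻¹ * t * (x * j * x⁻¹)⁻¹) * x := by group
        _ = x⁻¹ * (i * (j * t * j⁻¹) * i⁻¹) * x := by rw [hxj]; group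
        _ = x⁻¹ * (i * t * i⁻¹)⁻¹ * x := by rw [e2]; group
        _ = _ := by rw [e, inv_inv, inv_inv]
    · calc _ = x⁻¹ * (x * i * x⁻¹ * t * (x * i * x⁻¹)⁻¹) * x := by group
        _ = _ := by rw [hxi, e2]; group
  exact conj_eq_one_iff.1 e3

theorem cm {a b y z : G} (hy : y ∈ center G) (hz : z ∈ center G) :
    a * y * (b * z) * (a * y)⁻¹ * (b * z)⁻¹ = a * b * a⁻¹ * b⁻¹ :=
  calc _ = a * (y * (b * z)) * y⁻¹ * a⁻¹ * z⁻¹ * b⁻¹ := by group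
    _ = a * b * (z * a⁻¹) * z⁻¹ * b⁻¹ := by rw [← mem_center_iff.1 hy]; group
    _ = _ := by rw [← mem_center_iff.1 hz]; group

theorem key (hG : Gp G) {M : Subgroup G} [n : M.Normal]
    (hodd : ∀ m ∈ M, Odd (orderOf m)) (hM : ∀ a ∈ M, ∀ b ∈ M, a * b * a⁻¹ * b⁻¹ ∈ center G)
    {i j x : G} (hx : x ^ 3 = 1) (hxM : x ∉ M) (hxi : x * i * x⁻¹ = j) {w y z : G} (hw : w ∈ M)
    (hy : y ∈ center G) (hz : z ∈ center G) (e1 : j * w * j⁻¹ = w * y) (e2 : i * w * i⁻¹ = w⁻¹ * z) : w ∈ center G := by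
  obtain ⟨u, hu⟩ : ∃ u, u = x * w * x⁻¹ := ⟨_, rfl⟩
  obtain ⟨v, hv⟩ : ∃ v, v = x * u * x⁻¹ := ⟨_, rfl⟩
  have uM : u ∈ M := hu ▸ n.conj_mem w hw x
  have e3 : j * u * j⁻¹ = u⁻¹ * z :=
    calc _ = x * (i * w * i⁻¹) * x⁻¹ := by rw [← hxi, hu]; group
      _ = x * w⁻¹ * (z * x⁻¹) := by rw [e2]; group
      _ = _ := by rw [← mem_center_iff.1 hz, hu]; group
  have hc := hM w hw u uM
  have e4 : w * u * w⁻¹ * u⁻¹ * (w * u * w⁻¹ * u⁻¹) = 1 :=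
    calc _ = w * u * w⁻¹ * u⁻¹ * (j * (w * u * w⁻¹ * u⁻¹) * j⁻¹) := by rw [mem_center_iff.1 hc j]; group
      _ = w * u * w⁻¹ * u⁻¹ * (j * w * j⁻¹ * (j * u * j⁻¹) * (j * w * j⁻¹)⁻¹ * (j * u * j⁻¹)⁻¹) := by group
      _ = u⁻¹ * (u * (w * u * w⁻¹ * u⁻¹)) * (w * u⁻¹ * w⁻¹ * u⁻¹⁻¹) := by rw [e1, e3, cm hy hz]; group
      _ = u⁻¹ * (w * u * w⁻¹ * (w * u⁻¹ * w⁻¹ * u⁻¹⁻¹)) := by rw [mem_center_iff.1 hc u]; group
      _ = 1 := by group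
  have c1 : Commute w u := commutatorElement_eq_one_iff_commute.1 (mem_bot.1
    (sq (hodd _ (mul_mem (mul_mem (mul_mem hw uM) (inv_mem hw)) (inv_mem uM))) (mem_bot.2 e4)))
  have c2 : Commute u v := by
    rw [hv]
    nth_rw 1 [hu]
    exact c1.conj x
  have c3 : Commute v w := by
    have e : x * v * x⁻¹ = w := by
      rw [hv, hu]
      calc _ = x ^ 3 * w * (x ^ 3)⁻¹ := by rw [pow_three']; group
        _ = _ := by rw [hx]; group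
    rw [← e]
    nth_rw 1 [hv]
    exact c2.conj x
  have x1 : x ≠ 1 := fun e => hxM (e ▸ one_mem _)
  have e5 : x = w * x * w⁻¹ := by
    refine hG.t3 x _ x1 (by simpa using x1) (fun e => hxM ?_) hx (by rw [conj_pow, hx]; group) ?_
    · have m : x * x ∈ M := by
        rw [show x * x = x * (w * x * w⁻¹) * (w * (x⁻¹ * w⁻¹ * x⁻¹⁻¹)) by group, e, one_mul]
        exact mul_mem hw (n.conj_mem _ (inv_mem hw) _)
      rw [show x = x ^ 3 * x by rw [hx, one_mul], pow_three', mul_assoc]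
      exact mul_mem m m
    · calc _ = u * v⁻¹ * (x ^ 3 * w * (x ^ 3)⁻¹) * (x ^ 3 * u * (x ^ 3)⁻¹)⁻¹ * (x ^ 3 * v * (x ^ 3)⁻¹) *
          (x ^ 3 * (x ^ 3 * w * (x ^ 3)⁻¹) * (x ^ 3)⁻¹)⁻¹ * (x ^ 3 * x ^ 3) := by
            rw [hv, hu, pow_three' (x * _)]; group
        _ = u * (v⁻¹ * (w * u⁻¹ * v)) * w⁻¹ := by rw [hx]; group
        _ = 1 := by rw [← (c3.mul_right c2.symm.inv_right).eq, inv_mul_cancel_left, ← mul_assoc, ← c1.eq]; group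
  have e6 : u = w := by
    rw [hu]
    calc _ = w * (w⁻¹ * x * w) * x⁻¹ := by group
      _ = _ := by nth_rw 1 [e5]; group
  rw [e6, e1] at e3
  refine sq (hodd w hw) ?_
  rw [show w * w = w * (w * y) * y⁻¹ by group, e3, mul_inv_cancel_left]
  exact mul_mem hz (inv_mem hy)

end GA

/-- **`A₄`-lemma** (element calculus; `Z = center G`, `k = i j`, `≡` is equality in `G ⧸ Z`, where the
image of `M` is commutative by `hM`; odd order: `m ∈ M`, `m ^ 2 ∈ Z → m ∈ Z`, `m ^ 2 = 1 → m = 1`).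
Suppose `i m ≠ m i`. `t = m⁻¹ * (i m i⁻¹) ∈ M`, `t ≠ 1`, `i t i⁻¹ = t⁻¹` (`i i` central), so `t ∉ Z`.
`s = j t j⁻¹`, `i s i⁻¹ = s⁻¹` (`i j = z j i`), `j s j⁻¹ = t`. `a = t s`: fixed by `j`, inverted by `i` mod `Z`.
`b = t s⁻¹`: inverted by `j` and by `i` mod `Z`, so fixed by `i j`. `a b ≡ t ^ 2 ∉ Z`, so `a ∉ Z` or `b ∉ Z`.
`w = a`, or `w = x⁻¹ b x` (fixed by `x⁻¹ (i j) x = j`, inverted by `x⁻¹ j x = i`): `w ∈ M \ Z`,
`j w j⁻¹ ≡ w`, `i w i⁻¹ ≡ w⁻¹`. `w₁ = x w x⁻¹` has `j w₁ j⁻¹ ≡ w₁⁻¹` (`j = x i x⁻¹`). `c = ⁅w, w₁⁆ ∈ Z ∩ M`,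
`c = j c j⁻¹ = ⁅w z₁, w₁⁻¹ z₂⁆ = ⁅w, w₁⁻¹⁆ = c⁻¹`, so `c = 1`; conjugating by `x`, `x²`: `w, w₁, w₂ = x w₁ x⁻¹`
commute pairwise (`x w₂ x⁻¹ = w`). `hG.t3` for `x` and `w x w⁻¹`: the product is `w₁ w₂⁻¹ * x²`, `≠ 1` as
`x² ∉ M` (`x = (x²)²`), its cube is `(w₁ w₂⁻¹)(w w₁⁻¹)(w₂ w⁻¹) x⁶ = 1`. So `x = w x w⁻¹`, `w₁ = w`, `j` fixes and
inverts `w` mod `Z`, `w ^ 2 ∈ Z`, `w ∈ Z`: contradiction. -/
theorem ga {G : Type*} [Group G] (hG : Gp G) (M : Subgroup G) [M.Normal]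
    (hodd : ∀ m ∈ M, Odd (orderOf m)) (hM : ∀ a ∈ M, ∀ b ∈ M, a * b * a⁻¹ * b⁻¹ ∈ Subgroup.center G)
    {i j x z : G} (hz : z ∈ Subgroup.center G) (hi : i * i = z) (hj : j * j = z)
    (hij : i * j = z * (j * i)) (hx : x ^ 3 = 1) (hxM : x ∉ M) (hxi : x * i * x⁻¹ = j)
    (hxj : x * j * x⁻¹ = i * j) : ∀ m ∈ M, i * m = m * i := by
  intro m hm
  obtain ⟨π, hπ⟩ : ∃ π, π = QuotientGroup.mk' (Subgroup.center G) := ⟨_, rfl⟩
  have k1 : ∀ g, π g = 1 ↔ g ∈ Subgroup.center G := fun g => hπ ▸ QuotientGroup.eq_one_iff g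
  have : (M.map π).Normal := Subgroup.Normal.map inferInstance _ (hπ ▸ QuotientGroup.mk'_surjective _)
  have ht : m⁻¹ * (i * m * i⁻¹) ∈ M := mul_mem (inv_mem hm) (Subgroup.Normal.conj_mem inferInstance m hm i)
  have e : i * (m⁻¹ * (i * m * i⁻¹)) * i⁻¹ = (m⁻¹ * (i * m * i⁻¹))⁻¹ :=
    calc _ = i * m⁻¹ * i⁻¹ * (i * i * m) * (i * i)⁻¹ := by group
      _ = _ := by rw [hi, ← Subgroup.mem_center_iff.1 hz]; group
  have c : m⁻¹ * (i * m * i⁻¹) ∈ Subgroup.center G := by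
    refine (k1 _).1 (GA.quo (A := M.map π) (i := π i) (j := π j) (x := π x) ?_ ?_ ?_ ?_ ?_ ?_
      (Subgroup.mem_map_of_mem π ht) (by rw [← map_inv, ← map_inv, ← e, ← map_mul, ← map_mul]))
    · rintro _ ⟨a, ha, rfl⟩ _ ⟨b, hb, rfl⟩
      have := (k1 _).2 (hM a ha b hb)
      rwa [map_mul, map_mul, map_mul, map_inv, map_inv, mul_inv_eq_one, mul_inv_eq_iff_eq_mul] at this
    · rw [← map_mul, hj, (k1 _).2 hz]
    · rw [← map_mul, hij, map_mul, (k1 _).2 hz, one_mul, map_mul]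
    · rw [← hxi, map_mul, map_mul, map_inv]
    · rw [← map_mul π i, ← hxj, map_mul, map_mul, map_inv]
    · rintro _ ⟨w, hw, rfl⟩ e1 e2
      refine (k1 _).2 (GA.key hG hodd hM hx hxM hxi hw ((k1 (w⁻¹ * (j * w * j⁻¹))).1 ?_) ((k1 (w * (i * w * i⁻¹))).1 ?_)
        (by group) (by group))
      · rw [map_mul, map_mul, map_mul, map_inv, map_inv, e1, inv_mul_cancel]
      · rw [map_mul, map_mul, map_mul, map_inv, e2, mul_inv_cancel]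
  rw [Subgroup.mem_center_iff.1 c i, mul_inv_cancel_right] at e
  have := Subgroup.mem_bot.1 (GA.sq (hodd _ ht) (Subgroup.mem_bot.2 (mul_eq_one_iff_eq_inv.2 e)))
  rwa [inv_mul_eq_one, eq_mul_inv_iff_mul_eq, eq_comm] at this

end CL.LS6
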