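import Cfsg.Agent.FGS.LS6.Defs
import Cfsg.Agent.TECH.Conj

namespace CL.LS6

open Subgroup CL.MSS in
/-- a subgroup of order prime to the kernel lifts -/
theorem GB.lift {L Γ : Type*} [Group L] [Finite L] [Group Γ] (π : L →* Γ) (hπ : Function.Surjective π) (S : Subgroup Γ)
    (h : (Nat.card π.ker).Coprime (Nat.card S)) : ∃ T : Subgroup L, Set.InjOn π T ∧ ∀ s ∈ S, ∃ t ∈ T, π t = s := by
  let φ := π.comp (S.comap π).subtype
  obtain ⟨T, hT⟩ := exists_right_complement'_of_coprime (N := φ.ker) (by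
    rw [index_ker, MonoidHom.range_comp, range_subtype, map_comap_eq_self_of_surjective hπ]
    exact h.coprime_dvd_left (card_comap_dvd_of_injective π.ker _ (S.comap π).subtype_injective))
  refine ⟨T.map (S.comap π).subtype, ?_, fun s hs => ?_⟩
  · rintro _ ⟨a, ha, rfl⟩ _ ⟨b, hb, rfl⟩ e
    exact congrArg _ (mul_inv_eq_one.1 (disjoint_def.1 hT.disjoint (φ.mem_ker.2 (by
      rw [map_mul, map_inv, mul_inv_eq_one]; exact e)) (mul_mem ha (inv_mem hb))))
  · obtain ⟨y, rfl⟩ := hπ s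
    obtain ⟨⟨n, t⟩, e⟩ := hT.2 ⟨y, hs⟩
    refine ⟨_, ⟨t, t.2, rfl⟩, ?_⟩
    have := congrArg φ e
    rwa [map_mul, φ.mem_ker.1 n.2, one_mul] at this

open Subgroup CL.MSS in

/-- Lifting `Q₈ ⋊ 3` through a kernel of order prime to 6. `z` commutes with `i`, `j` (`= i i = j j`).
`Q₀ = {z^a i^b j^c}` is a subgroup whose elements satisfy `q ^ 4 = 1` (closure induction, or the carrier
`{1, z, i, z i, j, z j, i j, z i j}`), normalized by `x`; `S = {q * x ^ d}` is a subgroup, `g ^ 3 ∈ Q₀`, so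
`g ^ 12 = 1` on `S` and (Cauchy, `exists_prime_orderOf_dvd_card'`) `|S|` is prime to `|ker π|`.
Schur-Zassenhaus (`Subgroup.exists_right_complement'_of_coprime`) in `Y = S.comap π` for `ker π`: a complement
`T`, `π` is injective on `T` and maps it onto `S`; take the preimages in `T`, relations by injectivity. -/
theorem gb {L Γ : Type*} [Group L] [Finite L] [Group Γ] (π : L →* Γ) (hπ : Function.Surjective π)
    (hk : (Nat.card π.ker).Coprime 6) {i j x z : Γ} (hz : z * z = 1) (hi : i * i = z)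
    (hj : j * j = z) (hij : i * j = z * (j * i)) (hx : x ^ 3 = 1) (hxi : x * i * x⁻¹ = j)
    (hxj : x * j * x⁻¹ = i * j) :
    ∃ i' j' x' z' : L, π i' = i ∧ π j' = j ∧ π x' = x ∧ π z' = z ∧ z' * z' = 1 ∧ i' * i' = z' ∧
      j' * j' = z' ∧ i' * j' = z' * (j' * i') ∧ x' ^ 3 = 1 ∧ x' * i' * x'⁻¹ = j' ∧
      x' * j' * x'⁻¹ = i' * j' := by
  have := Finite.of_surjective π hπ
  have i4 : ∀ {a : Γ}, a * a = z → IsPGroup 2 (zpowers a) := fun {a} h => isPGroup_zpowers (k := 2) (by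
    rw [show a ^ 2 ^ 2 = a * a * (a * a) by simp only [pow_succ, pow_zero, one_mul, mul_assoc, show 2 * 2 = 0 + 1 + 1 + 1 + 1 from rfl], h, hz])
  have q2 : IsPGroup 2 (zpowers j ⊔ zpowers i : Subgroup Γ) := isPGroup_sup_of_normalizes (i4 hj) (i4 hi)
    (zpowers_le.2 (inv_mem_iff.1 (mem_normalizer_of_cj_le (by
      rw [cj_zpowers, zpowers_le, inv_inv, mul_assoc, hij, ← hj, show j⁻¹ * (j * j * (j * i)) = j * j * i by group, hj, ← hi]
      exact mul_mem (mul_mem (mem_zpowers i) (mem_zpowers i)) (mem_zpowers i)))))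
  generalize hQ : zpowers j ⊔ zpowers i = Q at q2
  have iQ : i ∈ Q := hQ.le (mem_sup_right (mem_zpowers i))
  have jQ : j ∈ Q := hQ.le (mem_sup_left (mem_zpowers j))
  have nx : zpowers x ≤ normalizer Q := zpowers_le.2 (mem_normalizer_of_cj_le (by
    conv_lhs => rw [← hQ, cj_sup, cj_zpowers, cj_zpowers, hxi, hxj]
    exact sup_le (zpowers_le.2 (mul_mem iQ jQ)) (zpowers_le.2 jQ)))
  obtain ⟨T, inj, hT⟩ := GB.lift π hπ (Q ⊔ zpowers x) (Nat.coprime_of_dvd fun k hk' h1 h2 => by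
    have := Fact.mk hk'
    obtain ⟨⟨g, hg⟩, o⟩ := exists_prime_orderOf_dvd_card' k h2
    rw [orderOf_mk] at o
    obtain ⟨q, hq, y, hy, rfl⟩ := (mem_sup_of_normalizes_left nx).1 hg
    have y3 : y ^ 3 = 1 := by
      obtain ⟨n, rfl⟩ := hy
      rw [← zpow_natCast, ← zpow_mul, mul_comm, zpow_mul, zpow_natCast, hx, one_zpow]
    obtain ⟨n, hn⟩ := isPGroup_iff_forall_mem.1 q2 ((q * y) ^ 3) (by
      rw [show (q * y) ^ 3 = q * (y * (q * (y * q * y⁻¹)) * y⁻¹) * y ^ 3 by simp only [pow_succ]; group, y3, mul_one]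
      exact mul_mem hq (conj_mem_of_normalizes nx hy (mul_mem hq (conj_mem_of_normalizes nx hy hq))))
    rw [← pow_mul, ← orderOf_dvd_iff_pow_eq_one, o] at hn
    exact hk'.one_lt.ne' (Nat.eq_one_of_dvd_coprimes hk h1 (((Nat.Prime.dvd_mul hk').1 hn).elim (·.trans (by norm_num))
      fun h => (hk'.dvd_of_dvd_pow h).trans (by norm_num))))
  obtain ⟨i, a, rfl⟩ := hT i (mem_sup_left iQ)
  obtain ⟨j, b, rfl⟩ := hT j (mem_sup_left jQ)
  obtain ⟨x, c, rfl⟩ := hT x (mem_sup_right (mem_zpowers x))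
  obtain ⟨z, d, rfl⟩ := hT z (mem_sup_left (hi ▸ mul_mem iQ iQ))
  exact ⟨i, j, x, z, rfl, rfl, rfl, rfl, inj (mul_mem d d) (one_mem T) (by simpa using hz), inj (mul_mem a a) d (by simpa using hi),
    inj (mul_mem b b) d (by simpa using hj), inj (mul_mem a b) (mul_mem d (mul_mem b a)) (by simpa using hij),
    inj (pow_mem c 3) (one_mem T) (by simpa using hx), inj (mul_mem (mul_mem c a) (inv_mem c)) b (by simpa using hxi),
    inj (mul_mem (mul_mem c b) (inv_mem c)) (mul_mem a b) (by simpa using hxj)⟩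

end CL.LS6
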