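import Cfsg.Agent.FGS.LS6.Defs

namespace CL.LS6

/-- `Q₈ ⋊ 3` in `SL(2,p)`: `a² + b² = -1` (`ZMod.sq_add_sq`), `i = ww = !![0,-1;1,0]`, `j = !![a,b;b,-a]`,
`z = -1`, `x = -(1 + i + j + i j) / 2 = h • !![-1-a+b, 1-b-a; -1-b-a, -1+a-b]` with `2 h = 1`; prove
`x * i = j * x`, `x * j = i * j * x`, `x * x * x = 1` entrywise (`linear_combination`). `ww` does not
commute with `uu 1`. -/
theorem gc (p : ℕ) [Fact p.Prime] (h2 : p ≠ 2) :
    ∃ i j x z : SL2 p, z ≠ 1 ∧ x ≠ 1 ∧ i ∉ Subgroup.center (SL2 p) ∧ z * z = 1 ∧ i * i = z ∧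
      j * j = z ∧ i * j = z * (j * i) ∧ x ^ 3 = 1 ∧ x * i * x⁻¹ = j ∧ x * j * x⁻¹ = i * j := by
  obtain ⟨a, b, hab⟩ := ZMod.sq_add_sq p (-1)
  have t2 : (2 : ZMod p) ≠ 0 := fun e => h2 <| by
    have : ((2 : ℕ) : ZMod p) = 0 := by exact_mod_cast e
    exact (Nat.prime_dvd_prime_iff_eq Fact.out Nat.prime_two).1 ((ZMod.natCast_eq_zero_iff 2 p).1 this)
  obtain ⟨h, hh⟩ : ∃ h : ZMod p, 2 * h = 1 := ⟨2⁻¹, mul_inv_cancel₀ t2⟩
  let j : SL2 p := ⟨!![a, b; b, -a], by rw [Matrix.det_fin_two_of]; linear_combination -hab⟩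
  let z : SL2 p := ⟨!![-1, 0; 0, -1], by rw [Matrix.det_fin_two_of]; ring⟩
  let x : SL2 p := ⟨!![h * (-1 - a + b), h * (1 - b - a); h * (-1 - b - a), h * (-1 + a - b)], by
    rw [Matrix.det_fin_two_of]; linear_combination (-2 * h ^ 2) * hab + (2 * h + 1) * hh⟩
  have cj : (j : Matrix (Fin 2) (Fin 2) (ZMod p)) = !![a, b; b, -a] := rfl
  have cz : (z : Matrix (Fin 2) (Fin 2) (ZMod p)) = !![-1, 0; 0, -1] := rfl
  have cx : (x : Matrix (Fin 2) (Fin 2) (ZMod p)) =
    !![h * (-1 - a + b), h * (1 - b - a); h * (-1 - b - a), h * (-1 + a - b)] := rfl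
  have xi : x * ww = j * x := by
    apply Subtype.ext
    simp only [Matrix.SpecialLinearGroup.coe_mul, cj, cx, coe_ww, Matrix.mul_fin_two]
    congr 1
    ext r s; fin_cases r <;> fin_cases s <;> simp <;> grind
  have xj : x * j = ww * j * x := by
    apply Subtype.ext
    simp only [Matrix.SpecialLinearGroup.coe_mul, cj, cx, coe_ww, Matrix.mul_fin_two]
    congr 1
    ext r s; fin_cases r <;> fin_cases s <;> simp <;> grind
  have x3 : x * x * x = 1 := by
    apply Subtype.ext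
    simp only [Matrix.SpecialLinearGroup.coe_mul, cx, Matrix.mul_fin_two,
      Matrix.SpecialLinearGroup.coe_one, Matrix.one_fin_two]
    congr 1
    ext r s; fin_cases r <;> fin_cases s <;> simp <;> grind
  have nc : (ww : SL2 p) ∉ Subgroup.center (SL2 p) := fun hc => by
    have := congrArg (fun g : SL2 p => (g : Matrix (Fin 2) (Fin 2) (ZMod p)) 0 0)
      (Subgroup.mem_center_iff.1 hc (uu 1))
    simp only [Matrix.SpecialLinearGroup.coe_mul, coe_uu, coe_ww, Matrix.mul_fin_two] at this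
    simp at this
  have jw : j ≠ ww := fun e => by
    have e1 := congrArg (fun g : SL2 p => g 0 1) e
    have e2 := congrArg (fun g : SL2 p => g 1 0) e
    simp only [ww, j] at e1 e2
    apply t2
    have f1 : b = -1 := e1
    have f2 : b = 1 := e2
    linear_combination f1 - f2
  refine ⟨ww, j, x, z, fun e => ?_, fun e => ?_, nc, ?_, ?_, ?_, ?_, ?_, ?_, ?_⟩
  · have e1 : (-1 : ZMod p) = 1 := congrArg (fun g : SL2 p => g 0 0) e
    exact t2 (by linear_combination -e1)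
  · rw [e, one_mul, mul_one] at xi
    exact jw xi.symm
  · apply Subtype.ext
    simp only [Matrix.SpecialLinearGroup.coe_mul, cz, Matrix.mul_fin_two,
      Matrix.SpecialLinearGroup.coe_one, Matrix.one_fin_two]
    simp
  · apply Subtype.ext
    simp only [Matrix.SpecialLinearGroup.coe_mul, cz, coe_ww, Matrix.mul_fin_two]
    simp
  · apply Subtype.ext
    simp only [Matrix.SpecialLinearGroup.coe_mul, cz, cj, Matrix.mul_fin_two]
    congr 1
    ext r s; fin_cases r <;> fin_cases s <;> simp <;> grind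
  · apply Subtype.ext
    simp only [Matrix.SpecialLinearGroup.coe_mul, cz, cj, coe_ww, Matrix.mul_fin_two]
    simp
  · rw [pow_succ, pow_two, x3]
  · rw [xi, mul_inv_cancel_right]
  · rw [xj, mul_inv_cancel_right]

/-- `p ≡ 1 (mod 3)`: `t` of order 3 in `(ZMod p)ˣ` (Cauchy, `ZMod.card_units`), `t² + t + 1 = 0`;
`a = dd t`, `b = dd t * uu 1`, `a * b = dd (t * t) * uu 1`; `(dd s * uu 1) ^ 3 = 1` for `s = t, t²`
(matrix `!![s, s; 0, s⁻¹]`, `s⁻¹ = s²`); `t3` gives `uu 1 = 1`. -/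
theorem no_one (p : ℕ) [Fact p.Prime] (h1 : p % 3 = 1) : ¬ Gp (SL2 p) := by
  intro hG
  have : Fact (Nat.Prime 3) := ⟨Nat.prime_three⟩
  obtain ⟨t, ht⟩ := exists_prime_orderOf_dvd_card' (G := (ZMod p)ˣ) 3 (by
    rw [Nat.card_eq_fintype_card, ZMod.card_units]; omega)
  have t3 : t ^ 3 = 1 := ht ▸ pow_orderOf_eq_one t
  have t1 : t ≠ 1 := fun e => by rw [e, orderOf_one] at ht; omega
  have tt1 : t * t ≠ 1 := fun e => t1 (by rw [pow_succ, pow_two, e, one_mul] at t3; exact t3)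
  have ne : ∀ (s : (ZMod p)ˣ) (c : ZMod p), s ≠ 1 → dd s * uu c ≠ 1 := fun s c hs e => by
    have := congrArg (fun g : SL2 p => (g : Matrix (Fin 2) (Fin 2) (ZMod p)) 0 0) e
    simp only [Matrix.SpecialLinearGroup.coe_mul, coe_uu, coe_dd, Matrix.mul_fin_two,
      Matrix.SpecialLinearGroup.coe_one] at this
    have e2 : (s : ZMod p) * 1 + 0 * 0 = 1 := this
    exact hs (Units.ext (by rw [Units.val_one]; linear_combination e2))
  have cube : ∀ (s : (ZMod p)ˣ) (c : ZMod p), s ≠ 1 → s ^ 3 = 1 → (dd s * uu c) ^ 3 = 1 := by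
    intro s c hs h3
    have k3 : (s : ZMod p) ^ 3 = 1 := by rw [← Units.val_pow_eq_pow_val, h3, Units.val_one]
    have k1 : (s : ZMod p) - 1 ≠ 0 := fun e => hs (Units.ext (sub_eq_zero.1 e))
    have k : (s : ZMod p) ^ 2 + s + 1 = 0 :=
      (mul_eq_zero.1 (by linear_combination k3 : ((s : ZMod p) - 1) * (s ^ 2 + s + 1) = 0)).resolve_left k1
    have e1 : (dd s * uu c) ^ 3 =
        uu ((s : ZMod p) ^ 2 * c) * (dd s * uu ((s : ZMod p) ^ 2 * c)) * (dd s * (dd s * uu c)) := by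
      rw [pow_succ, pow_two]
      nth_rewrite 1 [dd_uu s c]
      nth_rewrite 1 [dd_uu s c]
      simp only [mul_assoc]
    rw [e1, dd_uu s c, dd_uu s, ← mul_assoc (dd s), dd_uu s]
    simp only [mul_assoc]
    rw [← mul_assoc (dd s), dd_uu s]
    simp only [mul_assoc]
    rw [← dd_mul, ← dd_mul, ← mul_assoc, ← mul_assoc, ← uu_add, ← uu_add]
    rw [show s * (s * s) = 1 by rw [← h3]; simp [pow_succ, mul_assoc], dd_one, mul_one, ← uu_zero]
    congr 1
    linear_combination (c * s ^ 2 * (s ^ 2 - s + 1)) * k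
  have e := hG.t3 (dd t * uu 0) (dd t * uu 1) (ne _ _ t1) (ne _ _ t1)
    (by rw [uu_zero, mul_one, ← mul_assoc, ← dd_mul]; exact ne _ _ tt1) (cube _ _ t1 t3) (cube _ _ t1 t3)
    (by rw [uu_zero, mul_one, ← mul_assoc, ← dd_mul]
        exact cube _ _ tt1 (by rw [mul_pow, t3, one_mul]))
  rw [uu_zero] at e
  exact uu_one_ne (mul_left_cancel e).symm

end CL.LS6
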