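import Cfsg.Agent.FGS.LS6.Defs
import Cfsg.Agent.ODD.BG5.Ucn
import Cfsg.Agent.FGS.SqFree
namespace CL.LS6

/-- Sylow `3`- and `5`-subgroups are cyclic: `CL.BG.A38.isCyclic_of_prankLE_one`. An abelian subgroup `A` of
exponent `r` lies in `zpowers a` for any `1 ≠ a ∈ A` (`r = 5`: `r5`; `r = 3`: for `b ∈ A`, `b = 1` or
`a b = 1` or `t3` gives `a = b`), so `|A| ≤ r`. -/
theorem Gp.cyc {G : Type*} [Group G] [Finite G] (hG : Gp G) {r : ℕ} [Fact r.Prime]
    (hr : r = 3 ∨ r = 5) (P : Subgroup G) (hP : IsPGroup r P) : IsCyclic P := by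
  have hp : r.Prime := Fact.out
  refine CL.BG.A38.isCyclic_of_prankLE_one (by rcases hr with rfl | rfl <;> norm_num) hP ?_
  intro A hA hAr
  rw [pow_one]
  by_cases hb : A = ⊥
  · rw [hb, Subgroup.card_bot]; exact hp.one_lt.le
  obtain ⟨⟨a, haA⟩, ha⟩ := (Subgroup.ne_bot_iff_exists_ne_one).1 hb
  have ha1 : a ≠ 1 := fun e => ha (Subtype.ext e)
  have hle : A ≤ Subgroup.zpowers a := by
    intro b hbA
    have hc : a * b = b * a := congrArg Subtype.val (hA.is_comm.comm ⟨a, haA⟩ ⟨b, hbA⟩)
    rcases hr with rfl | rfl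
    · by_cases h1 : b = 1
      · rw [h1]; exact one_mem _
      by_cases h2 : a * b = 1
      · rw [eq_inv_of_mul_eq_one_right h2]; exact inv_mem (Subgroup.mem_zpowers a)
      rw [← (hG.sub P).t3 a b ha1 h1 h2 (hAr a haA) (hAr b hbA) (hAr _ (mul_mem haA hbA))]
      exact Subgroup.mem_zpowers a
    · exact (hG.sub P).r5 a b ha1 (hAr a haA) (hAr b hbA) hc
  calc Nat.card A ≤ Nat.card (Subgroup.zpowers a) := Subgroup.card_le_of_le hle
    _ = r := by rw [Nat.card_zpowers, orderOf_eq_prime (hAr a haA) ha1]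

/-- No `r × r` in a quotient. `E = closure {a, b}` is an `r`-group (commutative, exponent `r`); a Sylow
`r`-subgroup `P` of `E.comap π` maps onto `E` (`Sylow.mapSurjective`, or
`IsPGroup.exists_le_sylow` + `Sylow.mapSurjective_surjective`), so `E` is cyclic (`Gp.cyc`,
`isCyclic_of_surjective`), of exponent `r`, so of order `≤ r`, and `zpowers a ≤ E` has order `r`. -/
theorem Gp.no_sq {G Q : Type*} [Group G] [Finite G] [Group Q] (hG : Gp G) (π : G →* Q)
    (hπ : Function.Surjective π) {r : ℕ} (hr : r = 3 ∨ r = 5) {a b : Q} (ha : a ≠ 1)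
    (har : a ^ r = 1) (hbr : b ^ r = 1) (hc : a * b = b * a) : b ∈ Subgroup.zpowers a := by
  have hp : r.Prime := by rcases hr with rfl | rfl <;> norm_num
  have := Fact.mk hp
  have : Finite Q := Finite.of_surjective π hπ
  have cm : Commute a b := hc
  let E : Subgroup Q :=
    { carrier := {x | ∃ i j : ℤ, x = a ^ i * b ^ j}
      one_mem' := ⟨0, 0, by simp⟩
      mul_mem' := by
        rintro _ _ ⟨i, j, rfl⟩ ⟨k, l, rfl⟩
        refine ⟨i + k, j + l, ?_⟩
        rw [zpow_add, zpow_add, mul_assoc, mul_assoc, ← mul_assoc (b ^ j),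
          ← (cm.zpow_zpow k j).eq, mul_assoc]
      inv_mem' := by
        rintro _ ⟨i, j, rfl⟩
        refine ⟨-i, -j, ?_⟩
        rw [mul_inv_rev, ← zpow_neg, ← zpow_neg, (cm.zpow_zpow (-i) (-j)).eq] }
  have hE : ∀ x ∈ E, x ^ r = 1 := by
    rintro _ ⟨i, j, rfl⟩
    rw [(cm.zpow_zpow i j).mul_pow, ← zpow_natCast, ← zpow_natCast, ← zpow_mul, ← zpow_mul,
      mul_comm i, mul_comm j, zpow_mul, zpow_mul, zpow_natCast, zpow_natCast, har, hbr]
    simp
  have hEp : IsPGroup r E := fun x => ⟨1, Subtype.ext (by simpa using hE x x.2)⟩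
  obtain ⟨T, hT⟩ := hEp.exists_le_sylow
  obtain ⟨P, rfl⟩ := Sylow.mapSurjective_surjective hπ r T
  have hP := hG.cyc hr (P : Subgroup G) P.isPGroup'
  have hT' : IsCyclic (P.mapSurjective hπ : Subgroup Q) := by
    rw [Sylow.coe_mapSurjective]
    exact isCyclic_of_surjective _ (π.subgroupMap_surjective _)
  have hEc : IsCyclic E := Subgroup.isCyclic_of_le hT
  have h1 : Nat.card E ∣ r := by
    rw [← IsCyclic.exponent_eq_card]
    exact Monoid.exponent_dvd_of_forall_pow_eq_one fun x => Subtype.ext (by simpa using hE x x.2)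
  have haE : Subgroup.zpowers a ≤ E := (Subgroup.zpowers_le).2 ⟨1, 0, by simp⟩
  have h2 : Subgroup.zpowers a = E := by
    refine Subgroup.eq_of_le_of_card_ge haE ?_
    rw [Nat.card_zpowers, orderOf_eq_prime har ha]
    exact Nat.le_of_dvd hp.pos h1
  rw [h2]
  exact ⟨0, 1, by simp⟩

/-- Transfer: `P` Sylow, commutative (cyclic), `z ∈ P` central. `MonoidHom.transfer` of the identity
`P →* P` is trivial (`G` perfect, target commutative), and `MonoidHom.transfer_eq_pow` gives
`z ^ P.index = 1`; `P.index` is prime to `r` (see `CL.CS.eq_one_of_mem_commutator_center`). -/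
theorem central_eq_one {G : Type*} [Group G] [Finite G] (hp : commutator G = ⊤) {r : ℕ}
    [Fact r.Prime] (P : Sylow r G) (hP : IsCyclic P) {z : G} (hz : z ∈ Subgroup.center G)
    (hzP : z ∈ P) : z = 1 := by
  refine CL.CS.eq_one_of_abelian_sylow P inferInstance hzP (by rw [hp]; trivial) ?_
  intro g _
  rw [Subgroup.mem_centralizer_iff]
  rintro _ rfl
  exact ((Subgroup.mem_center_iff.1 hz) g).symm

/-- A nilpotent normal subgroup `O` of a perfect `Gp` group has order prime to 3. Else `T : Sylow 3 O` is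
normal in `O` (`Group.IsNilpotent` ⇒ `isNilpotent_of_finite_tfae`), characteristic
(`Sylow.characteristic_of_normal`), `C = T.map O.subtype` is normal in `G`, cyclic (`Gp.cyc`), nontrivial.
`MulAut.conjNormal : G →* MulAut C` has commutative target (`IsCyclic.commGroup`/`IsCyclic.mulAutMulEquiv`),
so it is trivial on `commutator G = ⊤`: `C` is central; `C ≤ P` Sylow, `central_eq_one`. -/
theorem Gp.three {G : Type*} [Group G] [Finite G] (hG : Gp G) (hp : commutator G = ⊤)
    (O : Subgroup G) [O.Normal] (hO : Group.IsNilpotent O) : ¬ 3 ∣ Nat.card O := by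
  intro h3
  have : Fact (Nat.Prime 3) := ⟨by norm_num⟩
  obtain ⟨T⟩ : Nonempty (Sylow 3 O) := inferInstance
  have hn0 : ∀ (p : ℕ) (_ : Fact p.Prime) (P : Sylow p O), (P : Subgroup O).Normal :=
    ((Group.isNilpotent_of_finite_tfae (G := O)).out 0 3).1 hO
  have hn : (T : Subgroup O).Normal := hn0 3 inferInstance T
  have := Sylow.characteristic_of_normal T hn
  let C : Subgroup G := (T : Subgroup O).map O.subtype
  have hCn : C.Normal := ConjAct.normal_of_characteristic_of_normal
  have hC : IsPGroup 3 C := T.isPGroup'.map _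
  have hCc := hG.cyc (.inl rfl) C hC
  have hne : (T : Subgroup O) ≠ ⊥ := T.ne_bot_of_dvd_card h3
  obtain ⟨⟨t, ht⟩, ht1⟩ := (Subgroup.ne_bot_iff_exists_ne_one).1 hne
  have htC : (t : G) ∈ C := ⟨t, ht, rfl⟩
  have hcm : ∀ f g : MulAut C, f * g = g * f := fun f g => by
    apply (IsCyclic.mulAutMulEquiv C).injective
    rw [map_mul, map_mul, mul_comm]
  have hk : commutator G ≤ (MulAut.conjNormal : G →* MulAut C).ker := by
    rw [commutator_def, Subgroup.commutator_le]
    intro x _ y _
    rw [MonoidHom.mem_ker, map_commutatorElement, commutatorElement_eq_one_iff_mul_comm]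
    exact hcm _ _
  have hz : (t : G) ∈ Subgroup.center G := by
    rw [Subgroup.mem_center_iff]
    intro g
    have := hk (show g ∈ commutator G by rw [hp]; trivial)
    rw [MonoidHom.mem_ker] at this
    have h2 := congrArg (fun f : MulAut C => ((f ⟨t, htC⟩ : C) : G)) this
    simp only [MulAut.conjNormal_apply, MulAut.one_apply] at h2
    exact mul_inv_eq_iff_eq_mul.1 h2
  obtain ⟨P, hP⟩ := hC.exists_le_sylow
  have := central_eq_one hp P (hG.cyc (.inl rfl) _ P.isPGroup') hz (hP htC)
  exact ht1 (Subtype.ext (Subtype.ext this))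

end CL.LS6
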