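import Cfsg.Agent.FGS.LS6.Defs
import Cfsg.Agent.FGS.LS6.GA
import Cfsg.Agent.FGS.LS6.GB
import Cfsg.Agent.FGS.LS6.GC
import Cfsg.Agent.FGS.LS6.GS
import Cfsg.Agent.TECH.BHB1
import Cfsg.Agent.FGS.SchurHopf
import Cfsg.Agent.S2117
namespace CL.LS6

/-- Minimal cover. `O = ker π ≤ frattini L` (a maximal `H` not containing `O` has `H ⊔ O = ⊤`, so maps onto),
`O` nilpotent (`frattini_nilpotent`); `commutator L = ⊤` (it maps onto the perfect `SL2 p`:
`CL.BHB.normal_cases` for `commutator`, which is not central, or Mathlib's perfectness of `SL 2`).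
`Gp.three`: `|O|` prime to 6. `gc`, `gb`: `i', j', x', z'`; `z' ≠ 1` is the only involution (`u2`), so central.
`M = {m ∈ O | ∀ o ∈ O, ⁅m, o⁆ ∈ center L}` is a normal subgroup (preimage of the centralizer of the image of
`O` in `L ⧸ center L`, intersected with `O`), `x' ∉ O`; `ga`: `i' ∈ C = centralizer M`, normal; `C.map π` is normal,
contains the non-central `i`, so is `⊤` (`CL.BHB.normal_cases`), `C = ⊤` by `hmin`: `M ≤ center L`. If
`O ≰ center L`, the image of `O` in `L ⧸ center L` is a nontrivial nilpotent group, a nontrivial element of its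
centre comes from `m ∈ M \ center L`: contradiction. So `π` is a stem extension and `S2117`
(`CL.Schur.hasTrivialMultiplier_iff` / `CL.SI.card_ker_dvd` / `stemKer_eq_bot_of_trivial`; `card (ZMod p) = p ≠ 4, 9`)
gives `O = ⊥`. -/
theorem gk_min {L : Type*} [Group L] [Finite L] (hG : Gp L) {p : ℕ} [Fact p.Prime] (h5 : 5 ≤ p)
    (π : L →* SL2 p) (hπ : Function.Surjective π) (ho : Odd (Nat.card π.ker))
    (hmin : ∀ H : Subgroup L, H.map π = ⊤ → H = ⊤) : Function.Injective π := by
  have hc : Nat.card (ZMod p) = p := Nat.card_zmod p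
  have h3 : 3 < Nat.card (ZMod p) := by omega
  have hF : π.ker ≤ frattini L := by
    refine le_iInf₂ fun H hH => ?_
    by_contra hn
    refine hH.1 (hmin H ?_)
    have h1 : H ⊔ π.ker = ⊤ := hH.2 _ (lt_of_le_of_ne le_sup_left fun e => hn (e ▸ le_sup_right))
    have h2 := congrArg (Subgroup.map π) h1
    rwa [Subgroup.map_sup, (Subgroup.map_eq_bot_iff _).2 le_rfl, sup_bot_eq,
      Subgroup.map_top_of_surjective _ hπ] at h2
  have hN : Group.IsNilpotent π.ker :=
    haveI := frattini_nilpotent (G := L)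
    nilpotent_of_mulEquiv (Subgroup.subgroupOfEquivOfLe hF)
  have hp : commutator L = ⊤ := hmin _ (by
    rw [commutator_def, Subgroup.map_commutator, Subgroup.map_top_of_surjective _ hπ]
    exact CL.BHB.kk_eq_top h3)
  have h6 : (Nat.card π.ker).Coprime 6 :=
    Nat.Coprime.mul_right (m := 2) (n := 3) ho.coprime_two_right
      ((Nat.prime_three.coprime_iff_not_dvd.2 (hG.three hp _ hN)).symm)
  obtain ⟨i, j, x, z, z1, x1, iZ, hz, hi, hj, hij, hx, hxi, hxj⟩ := gc p (by omega)
  obtain ⟨i', j', x', z', ei, -, ex, ez, hz', hi', hj', hij', hx', hxi', hxj'⟩ :=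
    gb π hπ h6 hz hi hj hij hx hxi hxj
  have z1' : z' ≠ 1 := fun e => z1 (by rw [← ez, e, map_one])
  have zc : z' ∈ Subgroup.center L := Subgroup.mem_center_iff.2 fun g => by
    have := hG.u2 (g * z' * g⁻¹) z' (by simpa using z1') z1' (by rw [conj_pow, sq, hz']; simp)
      (by rw [sq, hz'])
    exact mul_inv_eq_iff_eq_mul.1 this
  let q := QuotientGroup.mk' (Subgroup.center L)
  have hq : Function.Surjective q := QuotientGroup.mk'_surjective _
  have q1 : ∀ g, q g = 1 ↔ g ∈ Subgroup.center L := fun g => QuotientGroup.eq_one_iff g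
  haveI : (π.ker.map q).Normal := Subgroup.Normal.map inferInstance q hq
  let M : Subgroup L := π.ker ⊓ (Subgroup.centralizer (π.ker.map q : Set _)).comap q
  have hM : M ≤ Subgroup.center L := by
    have h1 := ga hG M (fun m hm => Odd.of_dvd_nat ho (Subgroup.orderOf_dvd_natCard _ hm.1))
      (fun a ha b hb => (q1 _).1 (by
        have := Subgroup.mem_centralizer_iff.1 hb.2 (q a) ⟨a, ha.1, rfl⟩
        simp only [map_mul, map_inv]; rw [this]; group))
      zc hi' hj' hij' hx' (fun h => x1 (by rw [← ex]; exact h.1)) hxi' hxj'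
    have h2 : i' ∈ Subgroup.centralizer (M : Set L) :=
      Subgroup.mem_centralizer_iff.2 fun m hm => (h1 m hm).symm
    haveI : ((Subgroup.centralizer (M : Set L)).map π).Normal := Subgroup.Normal.map inferInstance π hπ
    have h4 := hmin _ ((CL.BHB.normal_cases h3 ((Subgroup.centralizer (M : Set L)).map π)).resolve_left
      fun h => iZ (h ⟨i', h2, ei⟩))
    exact fun m hm => Subgroup.mem_center_iff.2 fun g =>
      (Subgroup.mem_centralizer_iff.1 (h4.ge (Subgroup.mem_top g)) m hm).symm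
  have hO : π.ker ≤ Subgroup.center L := by
    by_contra hn
    haveI : Group.IsNilpotent (π.ker.map q) :=
      nilpotent_of_surjective _ (q.subgroupMap_surjective π.ker)
    haveI : Nontrivial (π.ker.map q) := (Subgroup.nontrivial_iff_ne_bot _).2 fun e => hn fun g hg =>
      (q1 g).1 (Subgroup.mem_bot.1 (e.le ⟨g, hg, rfl⟩))
    obtain ⟨⟨⟨_, m, hm, rfl⟩, hmc⟩, m1⟩ := Subgroup.ne_bot_iff_exists_ne_one.1
      (Group.IsNilpotent.center_ne_bot (G := π.ker.map q))
    refine m1 (Subtype.ext (Subtype.ext ((q1 m).2 (hM ⟨hm, ?_⟩))))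
    exact Subgroup.mem_centralizer_iff.2 fun y hy =>
      congrArg Subtype.val (Subgroup.mem_center_iff.1 hmc ⟨y, hy⟩)
  have hcard : Fintype.card (ZMod p) = p := ZMod.card p
  have hS := CL.Schur.stemKer_eq_bot_of_trivial (Cfsg.Agent.S2117.result (F := ZMod p) (by omega)
    (by rw [hcard]; rintro rfl; exact absurd (Fact.out : Nat.Prime 9) (by norm_num))) ⟨hπ, hO⟩
  rw [CL.Schur.stemKer, hp, inf_top_eq] at hS
  exact (MonoidHom.ker_eq_bot_iff π).1 hS

/-- Take `H : Subgroup L` of minimal order with `H.map π = ⊤`; `gk_min` for `π.comp H.subtype`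
(`Gp.sub`; the kernel order divides `|ker π|`); `f = H.subtype ∘ (MulEquiv.ofBijective _).symm`. -/
theorem gk {L : Type*} [Group L] [Finite L] (hG : Gp L) {p : ℕ} [Fact p.Prime] (h5 : 5 ≤ p)
    (π : L →* SL2 p) (hπ : Function.Surjective π) (ho : Odd (Nat.card π.ker)) :
    ∃ f : SL2 p →* L, Function.Injective f := by
  have hne : ({H : Subgroup L | H.map π = ⊤}).Nonempty := ⟨⊤, Subgroup.map_top_of_surjective _ hπ⟩
  obtain ⟨H, hH, hm⟩ := (wellFounded_lt (α := Subgroup L)).has_min _ hne
  have hs : Function.Surjective (π.comp H.subtype) := fun y => by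
    obtain ⟨x, hx, e⟩ := hH.ge (Subgroup.mem_top y)
    exact ⟨⟨x, hx⟩, e⟩
  have hi := gk_min (hG.sub H) h5 _ hs (Odd.of_dvd_nat ho (by
      rw [← MonoidHom.comap_ker]
      exact Subgroup.card_comap_dvd_of_injective _ _ H.subtype_injective)) fun K hK => by
    by_contra hn
    refine hm (K.map H.subtype) (by rw [Set.mem_setOf_eq, Subgroup.map_map]; exact hK) ?_
    refine lt_of_le_of_ne (Subgroup.map_subtype_le K) fun e => hn ?_
    apply Subgroup.map_injective H.subtype_injective
    rw [e, ← MonoidHom.range_eq_map, Subgroup.range_subtype]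
  exact ⟨H.subtype.comp (MulEquiv.ofBijective _ ⟨hi, hs⟩).symm.toMonoidHom,
    H.subtype_injective.comp (MulEquiv.ofBijective _ ⟨hi, hs⟩).symm.injective⟩

end CL.LS6
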