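import Cfsg.Agent.FGS.LS6.Defs

namespace CL.LS6
open Module

variable {p : ℕ} [Fact p.Prime] {K : Type*} [Field K] [Algebra (ZMod p) K]

/-! Notation: `c g = algebraMap (g 1 0)`, `d g = algebraMap (g 1 1)` (bottom row of `g`). The bottom row
of `h * g` is `(c h, d h) * g`; `ww * uu y` has bottom row `(1, y)`, `1` has `(0, 1)`. -/

set_option linter.unusedSectionVars false in
theorem mon_mem {e i : ℕ} (h : i ≤ e) : mon (p := p) K e i ∈ PO (p := p) K e :=
  Submodule.subset_span ⟨⟨i, Nat.lt_succ_of_le h⟩, rfl⟩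

/-- a linear form times a form of degree `e` (span induction: `c * mon e i = mon (e+1) i`,
`d * mon e i = mon (e+1) (i+1)` for `i ≤ e`). -/
theorem po_mul {e : ℕ} {F : SL2 p → K} (hF : F ∈ PO (p := p) K e) (s t : K) :
    (fun g : SL2 p => (s * algebraMap (ZMod p) K (g 1 0) + t * algebraMap (ZMod p) K (g 1 1)) * F g)
      ∈ PO (p := p) K (e + 1) := by
  induction hF using Submodule.span_induction with
  | mem F h =>
    obtain ⟨⟨i, hi⟩, rfl⟩ := h
    have := (PO (p := p) K (e + 1)).add_mem (Submodule.smul_mem _ s (mon_mem (i := i) (by omega)))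
      (Submodule.smul_mem _ t (mon_mem (i := i + 1) (by omega)))
    convert this using 1
    ext g
    simp only [mon, Pi.add_apply, Pi.smul_apply, smul_eq_mul]
    rw [show e + 1 - i = e - i + 1 by omega, show e + 1 - (i + 1) = e - i by omega]
    ring
  | zero => convert (PO (p := p) K (e + 1)).zero_mem using 1; ext g; simp
  | add F G _ _ h1 h2 => convert (PO (p := p) K (e + 1)).add_mem h1 h2 using 1; ext g; simp [mul_add]
  | smul c F _ h1 =>
    convert (PO (p := p) K (e + 1)).smul_mem c h1 using 1; ext g; simp [mul_left_comm]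

/-- products of powers of two linear forms (induction on `a`, `b` with `po_mul`; `1 = mon 0 0`). -/
theorem po_pow (s t s' t' : K) (a b : ℕ) :
    (fun g : SL2 p => (s * algebraMap (ZMod p) K (g 1 0) + t * algebraMap (ZMod p) K (g 1 1)) ^ a *
      (s' * algebraMap (ZMod p) K (g 1 0) + t' * algebraMap (ZMod p) K (g 1 1)) ^ b)
      ∈ PO (p := p) K (a + b) := by
  induction a with
  | zero =>
    induction b with
    | zero => convert mon_mem (p := p) (K := K) (le_refl 0) using 1; ext g; simp [mon]
    | succ b ih =>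
      rw [← add_assoc]
      convert po_mul ih s' t' using 1
      ext g; ring
  | succ a ih =>
    rw [show a + 1 + b = a + b + 1 by omega]
    convert po_mul ih s t using 1
    ext g; ring

/-- `RT g (mon e i)` is a `po_pow`. -/
theorem po_rt {e : ℕ} (g : SL2 p) {F : SL2 p → K} (hF : F ∈ PO (p := p) K e) :
    RT K g F ∈ PO (p := p) K e := by
  induction hF using Submodule.span_induction with
  | mem F h =>
    obtain ⟨⟨i, hi⟩, rfl⟩ := h
    have := po_pow (p := p) (algebraMap (ZMod p) K (g 0 0)) (algebraMap (ZMod p) K (g 1 0))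
      (algebraMap (ZMod p) K (g 0 1)) (algebraMap (ZMod p) K (g 1 1)) (e - i) i
    rw [show e - i + i = e by omega] at this
    convert this using 1
    ext h
    simp only [RT_apply, mon, Matrix.SpecialLinearGroup.coe_mul, Matrix.mul_apply, Fin.sum_univ_two,
      map_add, map_mul]
    ring
  | zero => rw [map_zero]; exact Submodule.zero_mem _
  | add F G _ _ h1 h2 => rw [map_add]; exact Submodule.add_mem _ h1 h2
  | smul c F _ h1 => rw [map_smul]; exact Submodule.smul_mem _ c h1

/-- a polynomial of degree `< p` vanishing on the prime field is zero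
(`Polynomial.eq_zero_of_natDegree_lt_card_of_eval_eq_zero`, `algebraMap` injective). -/
theorem poly_zero (P : Polynomial K) (hP : P.natDegree < p)
    (h : ∀ y : ZMod p, P.eval (algebraMap (ZMod p) K y) = 0) : P = 0 := by
  exact P.eq_zero_of_natDegree_lt_card_of_eval_eq_zero (algebraMap (ZMod p) K).injective h
    (by rwa [ZMod.card])

theorem row_uu (g : SL2 p) (y : ZMod p) :
    (g * uu y) 1 0 = g 1 0 ∧ (g * uu y) 1 1 = g 1 0 * y + g 1 1 := by
  simp [Matrix.SpecialLinearGroup.coe_mul, coe_uu, Matrix.mul_apply, Fin.sum_univ_two]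

theorem mon_ww (e i : ℕ) (y : ZMod p) :
    mon (p := p) K e i (ww * uu y) = algebraMap (ZMod p) K y ^ i := by
  simp [mon, (row_uu _ y).1, (row_uu _ y).2, coe_ww]

/-- the `mon e i` are independent: evaluate `∑ a i • mon e i` at `ww * uu y`, `poly_zero`;
`finrank_span_eq_card`. -/
theorem po_finrank {e : ℕ} (he : e ≤ p - 1) : finrank K (PO (p := p) K e) = e + 1 := by
  have hp := (Fact.out : p.Prime).pos
  rw [PO, finrank_span_eq_card, Fintype.card_fin]
  refine Fintype.linearIndependent_iff.2 fun a ha i => ?_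
  have := poly_zero (p := p) (∑ j : Fin (e + 1), Polynomial.monomial (j : ℕ) (a j))
    (lt_of_le_of_lt (Polynomial.natDegree_sum_le_of_forall_le _ _ fun j _ =>
      (Polynomial.natDegree_monomial_le _).trans (Nat.le_of_lt_succ j.2)) (by omega)) fun y => by
    have := congrFun ha (ww * uu y)
    simpa [Polynomial.eval_finsetSum, mon_ww] using this
  have := congrArg (fun P => P.coeff i) this
  simpa [Polynomial.coeff_monomial, Fin.val_inj] using this

theorem diff_pow (g : SL2 p) (k : ℕ) (F : SL2 p → K) (q : K → K)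
    (h : ∀ y, F (g * uu y) = q (algebraMap (ZMod p) K y)) (y : ZMod p) :
    ((RT K (uu 1) - 1) ^ k) F (g * uu y) = (fwdDiff 1)^[k] q (algebraMap (ZMod p) K y) := by
  induction k generalizing F q with
  | zero => exact h y
  | succ k ih =>
    rw [pow_succ, Module.End.mul_apply, Function.iterate_succ_apply]
    refine ih _ _ fun y => ?_
    rw [LinearMap.sub_apply, Pi.sub_apply, RT_apply, mul_assoc, ← uu_add, Module.End.one_apply, h, h,
      map_add, map_one, fwdDiff]

open Polynomial in
theorem po_poly {e : ℕ} {F : SL2 p → K} (hF : F ∈ PO (p := p) K e) (g : SL2 p) :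
    ∃ P : K[X], P.natDegree ≤ e ∧ P.coeff e = algebraMap (ZMod p) K (g 1 0) ^ e * F 1 ∧
      ∀ y, F (g * uu y) = P.eval (algebraMap (ZMod p) K y) := by
  induction hF using Submodule.span_induction with
  | mem F h =>
    obtain ⟨⟨i, hi⟩, rfl⟩ := h
    have l : (C (algebraMap (ZMod p) K (g 1 0)) * X + C (algebraMap (ZMod p) K (g 1 1))).natDegree ≤ 1 :=
      natDegree_linear_le
    have d := (natDegree_C_mul_le (algebraMap (ZMod p) K (g 1 0) ^ (e - i)) _).trans
      (natDegree_pow_le_of_le i l)
    refine ⟨_, d.trans (by omega), ?_, fun y => by simp [mon, (row_uu g y).1, (row_uu g y).2]⟩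
    rcases (Nat.le_of_lt_succ hi).eq_or_lt with rfl | hl
    · have := coeff_pow_of_natDegree_le (m := i) l
      rw [mul_one] at this
      simp [this, mon]
    · rw [coeff_eq_zero_of_natDegree_lt (by omega)]
      simp [mon, Nat.sub_ne_zero_of_lt hl]
  | zero => exact ⟨0, by simp, by simp, by simp⟩
  | add F G _ _ h1 h2 =>
    obtain ⟨P, a1, a2, a3⟩ := h1
    obtain ⟨Q, b1, b2, b3⟩ := h2
    exact ⟨P + Q, natDegree_add_le_of_degree_le a1 b1, by simp [a2, b2, mul_add], by simp [a3, b3]⟩
  | smul c F _ h1 =>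
    obtain ⟨P, a1, a2, a3⟩ := h1
    exact ⟨C c * P, (natDegree_C_mul_le _ _).trans a1, by simp [a2, mul_left_comm], by simp [a3]⟩

/-- One Jordan block. `Δ = RT (uu 1) - 1`; `RT (uu 1)` substitutes `(c, d) ↦ (c, c + d)`. Let
`P k = span {mon e i | i < k}` (`k ≤ e + 1`). Binomial theorem: `Δ (mon e i) - i • mon e (i - 1) ∈ P (i - 1)`,
so `Δ (P (k+1)) ≤ P k`, `P 0 = ⊥`: second claim. `F = a • mon e e + (P e)`, `a = F 1 ≠ 0` (`mon e i 1 = 0` for
`i < e`); by induction `Δ ^ k F - (a * e.descFactorial k) • mon e (e - k) ∈ P (e - k)`; so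
`Δ ^ e F = (a * e !) • mon e 0`, `e ! ≠ 0` in `K` (`e < p`, `CharP K p`), `mon e 0 ww = 1`. -/
theorem po_block {e : ℕ} (he : e ≤ p - 1) {F : SL2 p → K} (hF : F ∈ PO (p := p) K e) :
    (F 1 ≠ 0 → ((RT K (uu 1) - 1) ^ e) F ≠ 0) ∧ ((RT K (uu 1) - 1) ^ (e + 1)) F = 0 := by
  have hp := (Fact.out : p.Prime).pos
  refine ⟨fun h1 h0 => ?_, funext fun g => ?_⟩
  · obtain ⟨P, a1, a2, a3⟩ := po_poly hF ww
    have c : P.coeff e = F 1 := by simpa [coe_ww] using a2
    have d : P.natDegree = e := Polynomial.natDegree_eq_of_le_of_coeff_ne_zero a1 (c ▸ h1)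
    have := diff_pow ww e F (fun x => P.eval x) a3 0
    rw [h0, ← d] at this
    rw [Polynomial.fwdDiff_iter_degree_eq_factorial] at this
    have _ : CharP K p := charP_of_injective_algebraMap (algebraMap (ZMod p) K).injective p
    have f : ((e.factorial : ℕ) : K) ≠ 0 := fun z => by
      have := (Fact.out : p.Prime).dvd_factorial.1 ((CharP.cast_eq_zero_iff K p _).1 z)
      omega
    simp [Polynomial.leadingCoeff, d, c, h1, f] at this
  · obtain ⟨P, a1, -, a3⟩ := po_poly hF g
    have := diff_pow g (e + 1) F (fun x => P.eval x) a3 0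
    rw [uu_zero, mul_one] at this
    rw [this]
    rw [Polynomial.fwdDiff_iter_eq_zero_of_degree_lt (Nat.lt_succ_of_le a1)]
    rfl

end CL.LS6
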