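import Cfsg.Agent.FGS.LS6.Defs
import Cfsg.Agent.FGS.LS6.MC
namespace CL.LS6
open Module

/-- Nakayama for one Jordan block: `Q.map Δ ≤ Q ⊓ ker φ < Q` and `dim (Q.map Δ) ≥ dim Q - 1`, so
`Q.map Δ = Q ⊓ ker φ`, `Q ≤ span {F} ⊔ Q.map Δ`; by induction `Q ≤ P ⊔ Q.map (Δ ^ k)`; `k = n`. -/
theorem naka {K V : Type*} [Field K] [AddCommGroup V] [Module K V] [FiniteDimensional K V]
    (Δ : Module.End K V) {n : ℕ} (hn : Δ ^ n = 0) (Q P : Submodule K V) (hQ : ∀ v ∈ Q, Δ v ∈ Q)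
    (hP : ∀ v ∈ P, Δ v ∈ P) (h1 : finrank K ↥(Q ⊓ LinearMap.ker Δ) ≤ 1) (φ : V →ₗ[K] K)
    (hφ : ∀ v ∈ Q, φ (Δ v) = 0) {F : V} (hF : F ∈ Q) (hFP : F ∈ P) (h0 : φ F ≠ 0) : Q ≤ P := by
  have e1 : finrank K (Q.map Δ) + finrank K ↥(Q ⊓ LinearMap.ker Δ) = finrank K Q := by
    have := LinearMap.finrank_range_add_finrank_ker (Δ.domRestrict Q)
    rw [LinearMap.range_domRestrict, LinearMap.ker_domRestrict] at this
    rw [← this, ← Submodule.finrank_map_subtype_eq Q (Submodule.comap Q.subtype (LinearMap.ker Δ)),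
      Submodule.map_comap_subtype]
  have l1 : Q.map Δ ≤ Q ⊓ LinearMap.ker φ := by
    rintro _ ⟨v, hv, rfl⟩
    exact ⟨hQ v hv, hφ v hv⟩
  have l2 : Q ⊓ LinearMap.ker φ < Q := lt_of_le_of_ne inf_le_left fun e => h0 (e.ge hF).2
  have e2 : Q.map Δ = Q ⊓ LinearMap.ker φ :=
    Submodule.eq_of_le_of_finrank_le l1 (by have := Submodule.finrank_lt_finrank_of_lt l2; omega)
  have step : ∀ v ∈ Q, ∃ x ∈ P, ∃ w ∈ Q, v = x + Δ w := by
    intro v hv
    have m : v - (φ v / φ F) • F ∈ Q ⊓ LinearMap.ker φ :=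
      ⟨Q.sub_mem hv (Q.smul_mem _ hF), by simp [div_mul_cancel₀ _ h0]⟩
    rw [← e2] at m
    obtain ⟨w, hw, e⟩ := m
    exact ⟨_, P.smul_mem (φ v / φ F) hFP, w, hw, by rw [e]; abel⟩
  have key : ∀ k : ℕ, ∀ v ∈ Q, ∃ x ∈ P, ∃ w ∈ Q, v = x + (Δ ^ k) w := by
    intro k
    induction k with
    | zero => exact fun v hv => ⟨0, P.zero_mem, v, hv, by simp⟩
    | succ k ih =>
      intro v hv
      obtain ⟨x, hx, w, hw, rfl⟩ := step v hv
      obtain ⟨y, hy, u, hu, rfl⟩ := ih w hw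
      exact ⟨x + Δ y, P.add_mem hx (hP y hy), u, hu, by rw [map_add, pow_succ', Module.End.mul_apply, add_assoc]⟩
  intro v hv
  obtain ⟨x, hx, w, -, rfl⟩ := key n v hv
  simpa [hn] using hx

variable {p : ℕ} [Fact p.Prime] {K : Type*} [Field K] [Algebra (ZMod p) K]

namespace MA

theorem ext2 {A B : SL2 p} (h0 : A 0 0 = B 0 0) (h1 : A 0 1 = B 0 1) (h2 : A 1 0 = B 1 0) (h3 : A 1 1 = B 1 1) :
    A = B := by
  apply Subtype.ext
  ext i j
  fin_cases i <;> fin_cases j <;> assumption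

theorem mul_ap (A B : SL2 p) (i j : Fin 2) : (A * B) i j = A i 0 * B 0 j + A i 1 * B 1 j := by
  show (A.1 * B.1) i j = _
  simp [Matrix.mul_apply, Fin.sum_univ_two]

theorem det2 (A : SL2 p) : A 0 0 * A 1 1 - A 0 1 * A 1 0 = 1 := by
  have := A.2
  rwa [Matrix.det_fin_two] at this

/-- the inverse of `ww * uu y` -/
def wi (y : ZMod p) : SL2 p := ⟨!![y, 1; -1, 0], by simp [Matrix.det_fin_two]⟩

theorem coe_wi (y : ZMod p) : ((wi y : SL2 p) : Matrix (Fin 2) (Fin 2) (ZMod p)) = !![y, 1; -1, 0] := rfl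

theorem rt_mem {j : ℕ} {F : SL2 p → K} (hF : F ∈ MJ (p := p) K j) (g : SL2 p) : RT K g F ∈ MJ (p := p) K j :=
  ⟨fun a h => by rw [RT_apply, RT_apply, mul_assoc, hF.1], fun t h => by rw [RT_apply, RT_apply, mul_assoc, hF.2]⟩

theorem rt_pow (g : SL2 p) (n : ℕ) : RT K g ^ n = RT K (g ^ n) := by
  induction n with
  | zero => ext F h; simp
  | succ n ih =>
    rw [pow_succ, ih]
    refine LinearMap.ext fun F => funext fun h => ?_
    simp [pow_succ, mul_assoc]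

theorem nil : (RT K (uu (1 : ZMod p)) - 1) ^ p = 0 := by
  have : CharP K p := charP_of_injective_algebraMap (algebraMap (ZMod p) K).injective p
  have : CharP (Module.End K (SL2 p → K)) p :=
    charP_of_injective_algebraMap (FaithfulSMul.algebraMap_injective K _) p
  rw [sub_pow_char_of_commute _ (Commute.one_right _), rt_pow, uu_pow, one_pow]
  simp only [CharP.cast_eq_zero, zero_mul, uu_zero]
  ext F h
  simp

theorem lt_finrank {V : Type*} [AddCommGroup V] [Module K V] [FiniteDimensional K V] (Δ : Module.End K V) {n e : ℕ}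
    (hn : Δ ^ n = 0) {Q : Submodule K V} (hQ : ∀ v ∈ Q, Δ v ∈ Q) {F : V} (hF : F ∈ Q) (h : (Δ ^ e) F ≠ 0) :
    e < finrank K Q := by
  by_contra le
  apply h
  have key : ∀ m, ((Δ.restrict hQ ^ m) ⟨F, hF⟩ : V) = (Δ ^ m) F := by
    intro m
    induction m with
    | zero => rfl
    | succ m ih => rw [pow_succ', pow_succ', Module.End.mul_apply, Module.End.mul_apply, ← ih]; rfl
  have m1 : (⟨F, hF⟩ : Q) ∈ LinearMap.ker (Δ.restrict hQ ^ n) := by
    rw [LinearMap.mem_ker]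
    apply Subtype.ext
    rw [key, hn]; rfl
  have m2 := Module.End.ker_pow_le_ker_pow_finrank _ _ m1
  rw [← Module.End.ker_pow_eq_ker_pow_finrank_of_le (not_lt.1 le), LinearMap.mem_ker] at m2
  rw [← key, m2]; rfl

theorem ex_ker {V : Type*} [AddCommGroup V] [Module K V] (Δ : Module.End K V) {Q : Submodule K V}
    (hQ : ∀ v ∈ Q, Δ v ∈ Q) (n : ℕ) : ∀ F ∈ Q, F ≠ 0 → (Δ ^ n) F = 0 → ∃ F' ∈ Q, F' ≠ 0 ∧ Δ F' = 0 := by
  induction n with
  | zero => exact fun F _ h h' => absurd h' h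
  | succ n ih =>
    intro F hF h h'
    by_cases k : Δ F = 0
    · exact ⟨F, hF, h, k⟩
    · exact ih _ (hQ F hF) k (by rwa [pow_succ, Module.End.mul_apply] at h')

end MA

open MA

/-- Bruhat. `g = !![a,b;c,d]`. `c = 0`: `a d = 1`, `g = uu (b a) * dd a`, so `F g = a ^ j * F 1`, i.e.
`d ^ j * F g = F 1`. `c ≠ 0`: `g = uu (a / c) * dd c⁻¹ * (ww * uu (d / c))`. -/
theorem mj_val {j : ℕ} {F : SL2 p → K} (hF : F ∈ MJ (p := p) K j) (g : SL2 p) :
    (g 1 0 = 0 → algebraMap (ZMod p) K (g 1 1) ^ j * F g = F 1) ∧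
    (g 1 0 ≠ 0 → algebraMap (ZMod p) K (g 1 0) ^ j * F g = F (ww * uu (g 1 1 / g 1 0))) := by
  have d := det2 g
  constructor
  · intro c0
    rw [c0, mul_zero, sub_zero] at d
    have a0 : g 0 0 ≠ 0 := left_ne_zero_of_mul_eq_one d
    have e : g = uu (g 0 1 * g 0 0) * (dd (Units.mk0 _ a0) * 1) := by
      rw [mul_one]
      apply ext2 <;> simp [mul_ap, coe_uu, coe_dd, c0, a0]
      exact eq_inv_of_mul_eq_one_right d
    have : F g = algebraMap (ZMod p) K (g 0 0) ^ j * F 1 := by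
      conv_lhs => rw [e, hF.1, hF.2]
      rfl
    rw [this, ← mul_assoc, ← mul_pow, ← map_mul, mul_comm (g 1 1), d]
    simp
  · intro c0
    have e : g = uu (g 0 0 / g 1 0) * (dd (Units.mk0 _ c0)⁻¹ * (ww * uu (g 1 1 / g 1 0))) := by
      apply ext2 <;> simp [mul_ap, coe_uu, coe_dd, coe_ww, c0] <;> field_simp
      linear_combination -d
    have : F g = algebraMap (ZMod p) K (g 1 0)⁻¹ ^ j * F (ww * uu (g 1 1 / g 1 0)) := by
      conv_lhs => rw [e, hF.1, hF.2]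
      simp
    rw [this, ← mul_assoc, ← mul_pow, ← map_mul, mul_inv_cancel₀ c0]
    simp

/-- **Submodules of the coinduced module.** `A F y = F (ww * uu y)`; by `mj_val` `F ∈ MJ` is determined by
`F 1` and `A F`. `Δ = RT (uu 1) - 1`, `Δ ^ p = 0` (char `p`, `uu 1 ^ p = 1`), `φ F = F 1`, `φ (Δ F) = 0` on
`MJ` (`1 * uu 1 = uu 1 * 1`), `A (RT (uu a) F) y = A F (y + a)`.
CASE A: some `0 ≠ δ ∈ Q` has `A δ = 0`, so `δ 1 ≠ 0`, `δ g = 0` iff `g 1 0 ≠ 0`. `δ y = RT (ww * uu y)⁻¹ δ ∈ Q` has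
`δ y (ww * uu y) = δ 1`, `δ y (ww * uu y') = 0` (`y' ≠ y`), `δ y 1 = 0`. For `F ∈ MJ`:
`F = (F 1 / δ 1) • δ + ∑ y, (A F y / δ 1) • δ y` (both sides in `MJ`, same data). So `Q = MJ`.
CASE B: `A` is injective on `Q`. `F ∈ Q ⊓ ker Δ` has `A F` constant, so `dim (Q ⊓ ker Δ) ≤ 1`, and there is
`F0 ∈ Q`, `Δ F0 = 0`, `A F0 = 1` (`Δ` nilpotent, `Q ≠ ⊥`). `γ = F0 1`, `F1 = RT ww F0 ∈ Q` (bottom row of
`g * ww` is `(d, -c)`).
`γ ≠ 0`: `naka` with `P = span {F0}`: `F1 = l • F0`; at `ww * uu y`, `y ≠ 0`: `y ^ j * l = 1`, so `l = 1`,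
`y ^ j = 1` for all units, `(p - 1) ∣ j` (generator of `(ZMod p)ˣ`); at `ww`: `(-1) ^ j * l = γ`, `γ = 1`; so
`F0 = 1 = mon 0 0`, `Q = PO 0`, `e = 0`.
`γ = 0`: take `1 ≤ e ≤ p - 1` with `(p - 1) ∣ e + j`; `c ^ j * F0 g = 1 = c ^ j * c ^ e` for `c ≠ 0`, so
`F0 = mon e 0`, `F1 = mon e e`, `φ F1 = 1`. `naka` with `P = PO e` (`po_rt`): `Q ≤ PO e`. Conversely `naka` with
the roles swapped (`Q := PO e`, `P := Q`; `PO e ⊓ ker Δ` has dimension `≤ 1`: `po_finrank`, `po_block`; or: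
`F1, Δ F1, …, Δ ^ e F1 ∈ Q` are independent as `Δ ^ e F1 ≠ 0 = Δ ^ (e+1) F1`, and `dim PO e = e + 1`). -/
theorem ma {j : ℕ} (Q : Submodule K (SL2 p → K)) (hQ : Q ≤ MJ (p := p) K j)
    (hi : ∀ g, ∀ F ∈ Q, RT K g F ∈ Q) (hne : Q ≠ ⊥) :
    Q = MJ (p := p) K j ∨ ∃ e ≤ p - 1, (p - 1) ∣ e + j ∧ Q = PO (p := p) K e := by
  classical
  have an : ∀ {y : ZMod p}, y ≠ 0 → ∀ n : ℕ, algebraMap (ZMod p) K y ^ n ≠ 0 := fun hy n =>
    pow_ne_zero _ ((map_ne_zero _).2 hy)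
  have dn : ∀ g : SL2 p, g 1 0 = 0 → g 1 1 ≠ 0 := fun g c0 => by
    have d := det2 g
    rw [c0, mul_zero, sub_zero] at d
    exact right_ne_zero_of_mul_eq_one d
  have zero : ∀ F ∈ MJ (p := p) K j, F 1 = 0 → (∀ y, F (ww * uu y) = 0) → F = 0 := by
    intro F hF h1 h2
    funext g
    by_cases c0 : g 1 0 = 0
    · have := (mj_val hF g).1 c0
      rw [h1] at this
      exact (mul_eq_zero.1 this).resolve_left (an (dn g c0) j)
    · have := (mj_val hF g).2 c0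
      rw [h2] at this
      exact (mul_eq_zero.1 this).resolve_left (an c0 j)
  by_cases hA : ∃ δ ∈ Q, δ ≠ 0 ∧ ∀ y, δ (ww * uu y) = 0
  · left
    obtain ⟨δ, hδ, δ0, hA⟩ := hA
    have δ1 : δ 1 ≠ 0 := fun h => δ0 (zero δ (hQ hδ) h hA)
    have van : ∀ g : SL2 p, g 1 0 ≠ 0 → δ g = 0 := fun g c0 => by
      have := (mj_val (hQ hδ) g).2 c0
      rw [hA] at this
      exact (mul_eq_zero.1 this).resolve_left (an c0 j)
    refine le_antisymm hQ fun F hF => ?_
    have m : (F 1 / δ 1) • δ + ∑ y, (F (ww * uu y) / δ 1) • RT K (wi y) δ ∈ Q :=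
      Q.add_mem (Q.smul_mem _ hδ) (Q.sum_mem fun y _ => Q.smul_mem _ (hi _ _ hδ))
    have z := zero _ ((MJ (p := p) K j).sub_mem hF (hQ m)) ?_ ?_
    · rw [sub_eq_zero] at z
      rw [z]; exact m
    · simp only [Pi.sub_apply, Pi.add_apply, Pi.smul_apply, Finset.sum_apply, RT_apply, smul_eq_mul, one_mul]
      rw [Finset.sum_eq_zero fun y _ => by rw [van (wi y) (by simp [coe_wi]), mul_zero], div_mul_cancel₀ _ δ1]
      ring
    · intro y
      simp only [Pi.sub_apply, Pi.add_apply, Pi.smul_apply, Finset.sum_apply, RT_apply, smul_eq_mul, hA]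
      rw [Finset.sum_eq_single y]
      · have : ww * uu y * wi y = 1 := by
          apply ext2 <;> simp [mul_ap, coe_uu, coe_ww, coe_wi]
        rw [this, div_mul_cancel₀ _ δ1]
        ring
      · intro y' _ ne
        rw [van (ww * uu y * wi y'), mul_zero]
        simp only [mul_ap, coe_uu, coe_ww, coe_wi]
        simpa [← sub_eq_add_neg, sub_eq_zero] using ne
      · simp
  right
  push Not at hA
  set Δ : Module.End K (SL2 p → K) := RT K (uu 1) - 1 with hΔ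
  have hn : Δ ^ p = 0 := nil
  have QΔ : ∀ v ∈ Q, Δ v ∈ Q := fun v hv => Q.sub_mem (hi _ v hv) hv
  have cst : ∀ F : SL2 p → K, Δ F = 0 → ∀ y, F (ww * uu y) = F ww := by
    intro F h y
    rw [uu_val y]
    induction y.val with
    | zero => simp
    | succ n ih =>
      have := congrFun h (ww * uu 1 ^ n)
      simp only [hΔ, LinearMap.sub_apply, Pi.sub_apply, RT_apply, Module.End.one_apply, Pi.zero_apply, sub_eq_zero] at this
      rw [pow_succ, ← mul_assoc, this, ih]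
  have inj : ∀ F ∈ Q, Δ F = 0 → F ww = 0 → F = 0 := fun F hF h h' => by
    by_contra ne
    obtain ⟨y, hy⟩ := hA F hF ne
    exact hy ((cst F h y).trans h')
  have h1 : finrank K ↥(Q ⊓ LinearMap.ker Δ) ≤ 1 := by
    rw [← finrank_self K]
    refine LinearMap.finrank_le_finrank_of_injective
      (f := (LinearMap.proj (ww : SL2 p) : (SL2 p → K) →ₗ[K] K).domRestrict _) ?_
    rw [injective_iff_map_eq_zero]
    exact fun F h => Subtype.ext (inj F.1 F.2.1 F.2.2 h)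
  have hφ : ∀ v ∈ Q, (LinearMap.proj (1 : SL2 p) : (SL2 p → K) →ₗ[K] K) (Δ v) = 0 := by
    intro v hv
    have := (hQ hv).1 1 1
    simp only [hΔ, LinearMap.proj_apply, LinearMap.sub_apply, Pi.sub_apply, RT_apply, Module.End.one_apply, one_mul]
    rw [mul_one] at this
    rw [this, sub_self]
  obtain ⟨F0, hF0, Δ0, A0⟩ : ∃ F0 ∈ Q, Δ F0 = 0 ∧ ∀ y, F0 (ww * uu y) = 1 := by
    obtain ⟨F, hF, F0⟩ := Submodule.exists_mem_ne_zero_of_ne_bot hne
    obtain ⟨F, hF, F0, k⟩ := ex_ker Δ QΔ p F hF F0 (by rw [hn]; rfl)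
    have w0 : F ww ≠ 0 := fun h => F0 (inj F hF k h)
    exact ⟨(F ww)⁻¹ • F, Q.smul_mem _ hF, by rw [map_smul, k, smul_zero], fun y => by
      rw [Pi.smul_apply, cst F k, smul_eq_mul, inv_mul_cancel₀ w0]⟩
  have v1 : ∀ g : SL2 p, g 1 0 = 0 → algebraMap (ZMod p) K (g 1 1) ^ j * F0 g = F0 1 := fun g => (mj_val (hQ hF0) g).1
  have v2 : ∀ g : SL2 p, g 1 0 ≠ 0 → algebraMap (ZMod p) K (g 1 0) ^ j * F0 g = 1 := fun g c0 =>
    ((mj_val (hQ hF0) g).2 c0).trans (A0 _)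
  have hF1 := hi ww F0 hF0
  have p1 : 0 < p - 1 := by have := (Fact.out : p.Prime).two_le; omega
  by_cases γ : F0 1 = 0
  · have lt := Nat.mod_lt j p1
    have dv : (p - 1) ∣ (p - 1 - j % (p - 1)) + j := by
      have := Nat.mod_add_div j (p - 1)
      refine ⟨1 + j / (p - 1), ?_⟩
      rw [mul_add]; omega
    obtain ⟨e, he⟩ : ∃ e, e = p - 1 - j % (p - 1) := ⟨_, rfl⟩
    rw [← he] at dv
    have e1 : e ≤ p - 1 := by omega
    have f0 : ∀ g : SL2 p, F0 g = algebraMap (ZMod p) K (g 1 0) ^ e := by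
      intro g
      by_cases c0 : g 1 0 = 0
      · have := v1 g c0
        rw [γ] at this
        rw [(mul_eq_zero.1 this).resolve_left (an (dn g c0) j), c0, map_zero, zero_pow (by omega)]
      · apply mul_left_cancel₀ (an c0 j)
        obtain ⟨k, hk⟩ := dv
        rw [v2 g c0, ← pow_add, add_comm, hk, ← map_pow, pow_mul, ZMod.pow_card_sub_one_eq_one c0]
        simp
    have f1 : RT K ww F0 = mon (p := p) K e e := by
      funext g
      simp [f0, mon, mul_ap, coe_ww]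
    have m1 : RT K ww F0 ∈ PO (p := p) K e := by
      rw [f1]
      exact Submodule.subset_span ⟨Fin.last e, rfl⟩
    have n1 : RT K ww F0 1 ≠ 0 := by rw [f1]; simp [mon]
    have le := naka Δ hn Q (PO (p := p) K e) QΔ (fun v hv => Submodule.sub_mem _ (po_rt _ hv) hv) h1 _ hφ hF1 m1 n1
    refine ⟨e, e1, dv, Submodule.eq_of_le_of_finrank_le le ?_⟩
    rw [po_finrank e1]
    exact lt_finrank Δ hn QΔ hF1 ((po_block e1 m1).1 n1)
  · have le := naka Δ hn Q (Submodule.span K {F0}) QΔ (fun v hv => by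
      obtain ⟨c, rfl⟩ := Submodule.mem_span_singleton.1 hv
      rw [map_smul, Δ0, smul_zero]
      exact Submodule.zero_mem _) h1 _ hφ hF0 (Submodule.mem_span_singleton_self _) γ
    obtain ⟨l, hl⟩ := Submodule.mem_span_singleton.1 (le hF1)
    have k1 : ∀ y, F0 (ww * uu y * ww) = l := fun y => by
      have := congrFun hl (ww * uu y)
      rw [Pi.smul_apply, A0, smul_eq_mul, mul_one, RT_apply] at this
      exact this.symm
    have k2 : ∀ y : ZMod p, y ≠ 0 → algebraMap (ZMod p) K y ^ j * l = 1 := fun y hy => by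
      have e : (ww * uu y * ww : SL2 p) 1 0 = y := by simp [mul_ap, coe_uu, coe_ww]
      have := v2 (ww * uu y * ww) (by rwa [e])
      rwa [e, k1] at this
    have l1 : l = 1 := by simpa using k2 1 one_ne_zero
    have k3 : ∀ y : ZMod p, y ≠ 0 → algebraMap (ZMod p) K y ^ j = 1 := fun y hy => by simpa [l1] using k2 y hy
    have dv : (p - 1) ∣ j := by
      have := (FiniteField.forall_pow_eq_one_iff (ZMod p) j).1 fun x => Units.ext (by
        apply (algebraMap (ZMod p) K).injective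
        simpa using k3 x x.ne_zero)
      rwa [ZMod.card] at this
    have γ1 : F0 1 = 1 := by
      have e : (ww * uu 0 * ww : SL2 p) 1 0 = 0 := by simp [mul_ap, coe_uu, coe_ww]
      rw [← v1 _ e, k3 _ (dn _ e), k1, l1, mul_one]
    have f0 : F0 = mon (p := p) K 0 0 := by
      funext g
      by_cases c0 : g 1 0 = 0
      · have := v1 g c0
        rw [k3 _ (dn g c0), one_mul, γ1] at this
        simp [this, mon]
      · have := v2 g c0
        rw [k3 _ c0, one_mul] at this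
        simp [this, mon]
    refine ⟨0, Nat.zero_le _, by simpa using dv, le_antisymm (le.trans ?_) ?_⟩
    · rw [Submodule.span_le, Set.singleton_subset_iff, f0]
      exact Submodule.subset_span ⟨0, rfl⟩
    · refine Submodule.span_le.2 ?_
      rintro _ ⟨i, rfl⟩
      have : (i : ℕ) = 0 := by omega
      simp only [this, ← f0]
      exact hF0

end CL.LS6
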