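import Cfsg.Agent.FGS.LS6.Defs
import Cfsg.Agent.FGS.LS6.Lin
namespace CL.LS6
open Module

variable {p : ℕ} [Fact p.Prime] {K : Type*} [Field K] [Algebra (ZMod p) K]

namespace MB

theorem r_uu (a : ZMod p) (g : SL2 p) (i : Fin 2) : (uu a * g) 1 i = g 1 i := by
  rw [Matrix.SpecialLinearGroup.coe_mul, coe_uu]
  simp [Matrix.mul_apply, Fin.sum_univ_two]

theorem r_dd (t : (ZMod p)ˣ) (g : SL2 p) (i : Fin 2) : (dd t * g) 1 i = (t : ZMod p)⁻¹ * g 1 i := by
  rw [Matrix.SpecialLinearGroup.coe_mul, coe_dd, ← Units.val_inv_eq_inv_val]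
  generalize ((t⁻¹ : (ZMod p)ˣ) : ZMod p) = s
  simp [Matrix.mul_apply, Fin.sum_univ_two]

theorem r_xx0 (g : SL2 p) : (g * xx : SL2 p) 1 0 = g 1 1 := by
  rw [Matrix.SpecialLinearGroup.coe_mul, coe_xx]
  simp [Matrix.mul_apply, Fin.sum_univ_two]

theorem r_xx1 (g : SL2 p) : (g * xx : SL2 p) 1 1 = - g 1 0 - g 1 1 := by
  rw [Matrix.SpecialLinearGroup.coe_mul, coe_xx]
  simp [Matrix.mul_apply, Fin.sum_univ_two, sub_eq_add_neg]

theorem r_wu0 (y : ZMod p) : (ww * uu y : SL2 p) 1 0 = 1 := by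
  rw [Matrix.SpecialLinearGroup.coe_mul, coe_ww, coe_uu]
  simp [Matrix.mul_apply, Fin.sum_univ_two]

theorem r_wu1 (y : ZMod p) : (ww * uu y : SL2 p) 1 1 = y := by
  rw [Matrix.SpecialLinearGroup.coe_mul, coe_ww, coe_uu]
  simp [Matrix.mul_apply, Fin.sum_univ_two]

theorem nz (h3 : p % 3 = 2) {ω : K} (hω : ω ^ 2 + ω + 1 = 0) (g : SL2 p) :
    algebraMap (ZMod p) K (g 1 1) - ω * algebraMap (ZMod p) K (g 1 0) ≠ 0 := by
  intro h
  have inj := (algebraMap (ZMod p) K).injective
  by_cases c : g 1 0 = 0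
  · rw [c, map_zero, mul_zero, sub_zero, map_eq_zero_iff _ inj] at h
    have := g.det_coe
    rw [Matrix.det_fin_two, c, h] at this
    simp at this
  have e : ω = algebraMap (ZMod p) K (g 1 1 / g 1 0) := by
    rw [map_div₀, eq_div_iff ((map_ne_zero_iff _ inj).2 c)]
    exact (sub_eq_zero.1 h).symm
  generalize g 1 1 / g 1 0 = y at e
  have hy : y ^ 2 + y + 1 = 0 := inj (by simpa [e] using hω)
  have y3 : y ^ 3 = 1 := by linear_combination (y - 1) * hy
  have y0 : y ≠ 0 := by
    rintro rfl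
    simp at hy
  have y1 : y ≠ 1 := by
    rintro rfl
    have : ((3 : ℕ) : ZMod p) = 0 := by push_cast; linear_combination hy
    rw [ZMod.natCast_eq_zero_iff] at this
    rw [(Nat.prime_dvd_prime_iff_eq Fact.out Nat.prime_three).1 this] at h3
    omega
  have := Fact.mk Nat.prime_three
  have := orderOf_dvd_of_pow_eq_one (ZMod.pow_card_sub_one_eq_one y0)
  rw [orderOf_eq_prime y3 y1] at this
  have := (Fact.out : p.Prime).two_le
  omega

end MB

open MB in
/-- The map `MJ → (ZMod p → K)`, `F ↦ fun y => F (ww * uu y)` is onto: for `f` put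
`F g = if c = 0 then 0 else (algebraMap c)⁻¹ ^ j * f (d / c)` with `(c, d) = (g 1 0, g 1 1)`; `uu a * g` has
the bottom row of `g`, `dd t * g` has `t⁻¹ (c, d)`, `ww * uu y` has `(1, y)`. -/
theorem mj_ge (j : ℕ) : p ≤ finrank K (MJ (p := p) K j) := by
  classical
  let L : MJ (p := p) K j →ₗ[K] (ZMod p → K) :=
    (LinearMap.funLeft K K fun y => ww * uu y).comp (MJ (p := p) K j).subtype
  have hs : Function.Surjective L := fun f => by
    refine ⟨⟨fun g => if g 1 0 = 0 then 0 else (algebraMap (ZMod p) K (g 1 0))⁻¹ ^ j * f (g 1 1 / g 1 0),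
      fun a g => by simp only [r_uu], fun t g => ?_⟩, funext fun y => ?_⟩
    · simp only [r_dd]
      by_cases c : g 1 0 = 0
      · rw [c, mul_zero, if_pos rfl, if_pos rfl, mul_zero]
      · rw [if_neg (mul_ne_zero (inv_ne_zero t.ne_zero) c), if_neg c,
          mul_div_mul_left _ _ (inv_ne_zero t.ne_zero), map_mul, map_inv₀, mul_inv, inv_inv, mul_pow, mul_assoc]
    · show (if (ww * uu y : SL2 p) 1 0 = 0 then 0 else _) = f y
      rw [r_wu0, r_wu1]
      simp
  have := LinearMap.finrank_le_finrank_of_surjective hs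
  simpa using this

open MB in
/-- `ω² + ω + 1 = 0` in `K`; `ω, ω² ∉` prime field (`y² + y + 1 = 0` in `ZMod p` gives `y³ = 1`, `y ≠ 1`,
`3 ∣ p - 1`). So `α = d - ω c`, `β = d - ω² c` never vanish (bottom row `≠ 0`), `h = α / β` is invariant
under left `uu a`, `dd t`, and `h (g * xx) = ω h g` (bottom row of `g * xx` is `(d, -c - d)`,
`α (g * xx) = ω² α g`, `β (g * xx) = ω β g`). Multiplication by `h` is injective, preserves `MJ`, maps
`E μ = MJ ⊓ ker (RT xx - μ • 1)` into `E (ω μ)`: `dim E ω ≤ dim E ω² ≤ dim E 1 = fW`. `RT xx` preserves `MJ`,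
its restriction `X` has `(X - ω)(X - ω²)(X - 1) = X³ - 1 = 0` (`xx_pow`): `ker_mul_le` twice. -/
theorem mj_fx [IsAlgClosed K] (h3 : p % 3 = 2) (j : ℕ) :
    finrank K (MJ (p := p) K j) ≤ 3 * fW (RT K (xx : SL2 p)) (MJ (p := p) K j) := by
  obtain ⟨ω, hω⟩ : ∃ ω : K, ω ^ 2 + ω + 1 = 0 := by
    obtain ⟨ω, h⟩ := IsAlgClosed.exists_root (Polynomial.X ^ 2 + Polynomial.X + 1 : Polynomial K) (by
      have : (Polynomial.X ^ 2 + Polynomial.X + 1 : Polynomial K).degree = 2 := by compute_degree!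
      rw [this]
      norm_num)
    exact ⟨ω, by simpa using h⟩
  have ω3 : ω ^ 3 = 1 := by linear_combination (ω - 1) * hω
  have hω' : (ω ^ 2) ^ 2 + ω ^ 2 + 1 = 0 := by linear_combination hω + ω * ω3
  let h : SL2 p → K := fun g => (algebraMap (ZMod p) K (g 1 1) - ω * algebraMap (ZMod p) K (g 1 0)) /
    (algebraMap (ZMod p) K (g 1 1) - ω ^ 2 * algebraMap (ZMod p) K (g 1 0))
  have h0 : ∀ g, h g ≠ 0 := fun g => div_ne_zero (nz h3 hω g) (nz h3 hω' g)
  have hu : ∀ a g, h (uu a * g) = h g := fun a g => by simp only [h, r_uu]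
  have hd : ∀ t g, h (dd t * g) = h g := fun t g => by
    have t0 : algebraMap (ZMod p) K (t : ZMod p)⁻¹ ≠ 0 :=
      (map_ne_zero_iff _ (algebraMap (ZMod p) K).injective).2 (inv_ne_zero t.ne_zero)
    simp only [h, r_dd, map_mul]
    rw [div_eq_div_iff _ (nz h3 hω' g)]
    · ring
    · rw [mul_left_comm, ← mul_sub]
      exact mul_ne_zero t0 (nz h3 hω' g)
  have hx : ∀ g, h (g * xx) = ω * h g := fun g => by
    have := nz h3 hω' (g * xx)
    simp only [h]
    rw [← mul_div_assoc, div_eq_div_iff this (nz h3 hω' g), r_xx0, r_xx1, map_sub, map_neg]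
    generalize algebraMap (ZMod p) K (g 1 1) = d
    generalize algebraMap (ZMod p) K (g 1 0) = c
    linear_combination (d ^ 2 * (ω - 1) + c * d * (ω - 1)) * hω - c * d * ω * ω3
  have pres : ∀ F ∈ MJ (p := p) K j, RT K (xx : SL2 p) F ∈ MJ (p := p) K j := fun F hF =>
    ⟨fun a g => by rw [RT_apply, RT_apply, mul_assoc, hF.1], fun t g => by rw [RT_apply, RT_apply, mul_assoc, hF.2]⟩
  let X : Module.End K (MJ (p := p) K j) := (RT K (xx : SL2 p)).restrict pres
  let m : Module.End K (MJ (p := p) K j) := (LinearMap.mulLeft K h).restrict (p := MJ (p := p) K j) fun F hF =>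
    ⟨fun a g => by show h _ * F _ = h _ * F _; rw [hu, hF.1], fun t g => by
      show h _ * F _ = _ * (h _ * F _); rw [hd, hF.2, mul_left_comm]⟩
  have mi : Function.Injective m := fun F F' e => Subtype.ext (funext fun g =>
    mul_left_cancel₀ (h0 g) (congrFun (congrArg Subtype.val e) g))
  have step : ∀ μ : K, finrank K (LinearMap.ker (X - μ • 1)) ≤ finrank K (LinearMap.ker (X - (ω * μ) • 1)) := by
    intro μ
    refine LinearMap.finrank_le_finrank_of_injective (f := m.restrict fun F hF => ?_) fun F F' e =>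
      Subtype.ext (mi (congrArg Subtype.val e))
    rw [LinearMap.mem_ker, LinearMap.sub_apply, sub_eq_zero] at hF ⊢
    refine Subtype.ext (funext fun g => ?_)
    have : F.1 (g * xx) = μ * F.1 g := congrFun (congrArg Subtype.val hF) g
    show h (g * xx) * F.1 (g * xx) = ω * μ * (h g * F.1 g)
    rw [hx, this]
    ring
  have X3 : X ^ 3 = 1 := by
    refine LinearMap.ext fun F => Subtype.ext (funext fun g => ?_)
    show F.1 (g * xx * xx * xx) = F.1 g
    rw [mul_assoc, mul_assoc, ← pow_three, xx_pow, mul_one]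
  have prod : (X - ω • 1) * ((X - (ω * ω) • 1) * (X - (1 : K) • 1)) = 0 := by
    have e : ∀ a : K, a • (1 : Module.End K (MJ (p := p) K j)) = algebraMap K _ a := fun a =>
      (Algebra.algebraMap_eq_smul_one a).symm
    have : (X - ω • 1) * ((X - (ω * ω) • 1) * (X - (1 : K) • 1)) = Polynomial.aeval X
        ((Polynomial.X - Polynomial.C ω) * ((Polynomial.X - Polynomial.C (ω * ω)) * (Polynomial.X - Polynomial.C 1))) := by
      simp only [e, map_mul, map_sub, Polynomial.aeval_X, Polynomial.aeval_C]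
    have c1 : (Polynomial.C ω) ^ 2 + Polynomial.C ω + 1 = 0 := by simpa using congrArg Polynomial.C hω
    rw [this, show (Polynomial.X - Polynomial.C ω) * ((Polynomial.X - Polynomial.C (ω * ω)) *
      (Polynomial.X - Polynomial.C 1)) = Polynomial.X ^ 3 - 1 by
        rw [map_mul, map_one]
        linear_combination (-Polynomial.X ^ 2 + Polynomial.C ω * Polynomial.X - Polynomial.C ω + 1) * c1]
    simp [X3]
  have k1 := ker_mul_le (X - ω • 1) ((X - (ω * ω) • 1) * (X - (1 : K) • 1))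
  have k2 := ker_mul_le (X - (ω * ω) • 1) (X - (1 : K) • 1)
  rw [prod, LinearMap.ker_zero, finrank_top] at k1
  have s1 := step ω
  have s2 := step (ω * ω)
  rw [show ω * (ω * ω) = 1 by rw [← ω3]; ring] at s2
  have e : finrank K (LinearMap.ker (X - (1 : K) • 1)) = fW (RT K (xx : SL2 p)) (MJ (p := p) K j) := by
    unfold fW
    rw [← Submodule.finrank_map_subtype_eq]
    refine congrArg (fun W : Submodule K (SL2 p → K) => finrank K W) ?_
    ext F
    constructor
    · rintro ⟨F, hF, rfl⟩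
      exact ⟨F.2, by simpa [X] using congrArg Subtype.val (LinearMap.mem_ker.1 hF)⟩
    · rintro ⟨h1, h2⟩
      exact ⟨⟨F, h1⟩, LinearMap.mem_ker.2 (Subtype.ext (by simpa [X] using h2)), rfl⟩
  omega

end CL.LS6
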