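import Cfsg.Agent.FGS.LS6.Defs
import Cfsg.Agent.FGS.LS6.MC
namespace CL.LS6
open Module

variable {p : ℕ} [Fact p.Prime] {K : Type*} [Field K] [Algebra (ZMod p) K]

open Polynomial in
theorem MX.indep {ι : Type*} [Fintype ι] {a b : K} (hab : a ≠ b) (e : ℕ) {i : ι → ℕ}
    (hi : Function.Injective i) (c : ι → K)
    (h : ∑ k, C (c k) * ((X - C a) ^ (e - i k) * (X - C b) ^ i k) = 0) (k : ι) : c k = 0 := by
  classical
  by_contra hk
  obtain ⟨m, hm, hmin⟩ := (Finset.univ.filter fun k => c k ≠ 0).exists_min_image i ⟨k, by simpa using hk⟩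
  simp only [Finset.mem_filter, Finset.mem_univ, true_and] at hm hmin
  have h1 : (X - C b) ^ i m * ∑ k, C (c k) * ((X - C a) ^ (e - i k) * (X - C b) ^ (i k - i m)) = 0 := by
    rw [← h, Finset.mul_sum]
    refine Finset.sum_congr rfl fun k _ => ?_
    by_cases hc : c k = 0
    · simp [hc]
    · conv_rhs => rw [← Nat.add_sub_cancel' (hmin k hc), pow_add]
      rw [Nat.add_sub_cancel' (hmin k hc)]
      ring
  have h2 := congrArg (eval b) ((mul_eq_zero.1 h1).resolve_left (pow_ne_zero _ (X_sub_C_ne_zero b)))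
  rw [eval_finsetSum, Finset.sum_eq_single m (fun k _ hkm => ?_) (by simp)] at h2
  · simp [hm, sub_eq_zero, hab.symm] at h2
  · by_cases hc : c k = 0
    · simp [hc]
    · have : i k - i m ≠ 0 := Nat.sub_ne_zero_of_lt (lt_of_le_of_ne (hmin k hc) fun e => hkm (hi e).symm)
      simp [this]

/-- `ω² + ω + 1 = 0` in `K` (alg. closed), `ω ≠ ω²` (`3 ≠ 0` in `K` as `CharP K p`, `p ≠ 3`). Bottom row
of `g * xx` is `(d, -c - d)`. `α = d - ω c` has `α (g * xx) = ω² α g`, `β = d - ω² c` has
`β (g * xx) = ω β g`. For `k < fe e` put `i = (2 e) % 3 + 3 k ≤ e`, `F k = α ^ (e - i) * β ^ i ∈ PO e`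
(`po_pow`), fixed by `RT xx` (`ω ^ (2 (e - i) + i) = 1`, the exponent is divisible by 3). Independent:
evaluate a relation at `ww * uu y`, `poly_zero` gives `∑ a k (X - ω)^(e - i) (X - ω²)^i = 0` in `K[X]`;
the polynomials `(X - a)^(e - i) (X - b)^i` (`i ≤ e`, `a ≠ b`) are independent (they have different
`rootMultiplicity b`; or take the least `i` with coefficient `≠ 0`, cancel `(X - b)^i`, evaluate at `b`).
`LinearIndependent.fintype_card_le_finrank` in `PO e ⊓ ker`. -/
theorem po_fx [IsAlgClosed K] (h3 : p % 3 = 2) {e : ℕ} (he : e ≤ p - 1) :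
    fe e ≤ fW (RT K (xx : SL2 p)) (PO (p := p) K e) := by
  classical
  obtain ⟨ω, hω⟩ := IsAlgClosed.exists_root (Polynomial.X ^ 2 + Polynomial.X + 1 : Polynomial K) (by
    rw [show (Polynomial.X ^ 2 + Polynomial.X + 1 : Polynomial K).degree = 2 by compute_degree!]
    decide)
  simp only [Polynomial.IsRoot.def, Polynomial.eval_add, Polynomial.eval_pow, Polynomial.eval_X,
    Polynomial.eval_one] at hω
  have hω3 : ω ^ 3 = 1 := by linear_combination (ω - 1) * hω
  have hne : ω ≠ ω ^ 2 := fun h => by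
    have := charP_of_injective_algebraMap (algebraMap (ZMod p) K).injective p
    have h0 : ((3 : ℕ) : K) = 0 := by
      push_cast
      linear_combination (3 - 2 * ω) * hω + (-2 * ω - 1) * h + (0 : K) * hω3
    have := (Nat.prime_dvd_prime_iff_eq Fact.out Nat.prime_three).1 ((CharP.cast_eq_zero_iff K p 3).1 h0)
    omega
  let i : Fin (fe e) → ℕ := fun k => 2 * e % 3 + 3 * k
  have hi : ∀ k, i k ≤ e := fun k => by
    have := k.2
    simp only [fe] at this
    simp only [i]
    split_ifs at this <;> omega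
  let F : Fin (fe e) → SL2 p → K := fun k g =>
    (-ω * algebraMap (ZMod p) K (g 1 0) + 1 * algebraMap (ZMod p) K (g 1 1)) ^ (e - i k) *
      (-ω ^ 2 * algebraMap (ZMod p) K (g 1 0) + 1 * algebraMap (ZMod p) K (g 1 1)) ^ i k
  have hF : ∀ k, F k ∈ PO (p := p) K e ⊓ LinearMap.ker (RT K (xx : SL2 p) - 1) := fun k => by
    refine ⟨?_, ?_⟩
    · have := po_pow (p := p) (-ω) 1 (-ω ^ 2) 1 (e - i k) (i k)
      rwa [Nat.sub_add_cancel (hi k)] at this
    · refine LinearMap.mem_ker.2 (sub_eq_zero.2 (funext fun g => ?_))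
      have e0 : (g * xx : SL2 p) 1 0 = g 1 1 := by
        simp [Matrix.SpecialLinearGroup.coe_mul, coe_xx, Matrix.mul_apply, Fin.sum_univ_two]
      have e1 : (g * xx : SL2 p) 1 1 = -g 1 0 - g 1 1 := by
        simp [Matrix.SpecialLinearGroup.coe_mul, coe_xx, Matrix.mul_apply, Fin.sum_univ_two, sub_eq_add_neg]
      obtain ⟨m, hm⟩ : 3 ∣ 2 * (e - i k) + i k := by
        have := hi k
        simp only [i] at this ⊢
        omega
      have e2 : (ω ^ 2) ^ (e - i k) * ω ^ i k = 1 := by
        rw [← pow_mul, ← pow_add, hm, pow_mul, hω3, one_pow]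
      show F k (g * xx) = F k g
      simp only [F, e0, e1, map_sub, map_neg]
      generalize algebraMap (ZMod p) K (g 1 0) = c
      generalize algebraMap (ZMod p) K (g 1 1) = d
      rw [show -ω * d + 1 * (-c - d) = ω ^ 2 * (-ω * c + 1 * d) by linear_combination (-d) * hω + c * hω3,
        show -ω ^ 2 * d + 1 * (-c - d) = ω * (-ω ^ 2 * c + 1 * d) by linear_combination (-d) * hω + c * hω3,
        mul_pow, mul_pow, mul_mul_mul_comm, e2, one_mul]
  have hl : LinearIndependent K fun k => (⟨F k, hF k⟩ :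
      ↥(PO (p := p) K e ⊓ LinearMap.ker (RT K (xx : SL2 p) - 1))) := by
    refine LinearIndependent.of_comp (Submodule.subtype _) (Fintype.linearIndependent_iff.2 fun c hc => ?_)
    refine MX.indep hne e (i := i) (fun k l h => Fin.ext (by simp only [i] at h; omega)) c
      (poly_zero (p := p) _ ?_ fun y => ?_)
    · refine lt_of_le_of_lt (Polynomial.natDegree_sum_le_of_forall_le _ _ (n := e) fun k _ =>
        (Polynomial.natDegree_C_mul_le _ _).trans (Polynomial.natDegree_mul_le.trans ?_))
        (by have := (Fact.out : p.Prime).pos; omega)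
      rw [Polynomial.natDegree_pow, Polynomial.natDegree_pow, Polynomial.natDegree_X_sub_C,
        Polynomial.natDegree_X_sub_C, mul_one, mul_one, Nat.sub_add_cancel (hi k)]
    · have e0 : (ww * uu y : SL2 p) 1 0 = 1 := by
        simp [Matrix.SpecialLinearGroup.coe_mul, coe_ww, coe_uu, Matrix.mul_apply, Fin.sum_univ_two]
      have e1 : (ww * uu y : SL2 p) 1 1 = y := by
        simp [Matrix.SpecialLinearGroup.coe_mul, coe_ww, coe_uu, Matrix.mul_apply, Fin.sum_univ_two]
      have := congrFun hc (ww * uu y)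
      simp only [Finset.sum_apply, Pi.smul_apply, Function.comp, Submodule.subtype_apply, F, e0, e1,
        smul_eq_mul, map_one, mul_one, one_mul, Pi.zero_apply] at this
      rw [← this, Polynomial.eval_finsetSum]
      refine Finset.sum_congr rfl fun k _ => ?_
      simp [neg_add_eq_sub]
  simpa [fW] using hl.fintype_card_le_finrank

end CL.LS6
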