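import Cfsg.Agent.FGS.LS6.Defs
import Cfsg.Agent.FGS.LS6.Lin
import Cfsg.Agent.FGS.LS6.MA
import Cfsg.Agent.FGS.LS6.MB
import Cfsg.Agent.FGS.LS6.MX
namespace CL.LS6
open Module

variable {p : ℕ} [Fact p.Prime] {K V : Type*} [Field K] [Algebra (ZMod p) K] [AddCommGroup V]
  [Module K V] [FiniteDimensional K V]

/-- One step down. `Ψ : V →ₗ (SL2 p → K)`, `Ψ w g = φ (ρ g w)` (`LinearMap.pi fun g => φ ∘ₗ ρ g`),
`Ψ (ρ h w) = RT h (Ψ w)`; `W' = W ⊓ ker Ψ` is invariant; `Q = W.map Ψ ≤ MJ j` (`hφ` applied to `ρ g w ∈ W`),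
`RT`-invariant, `≠ ⊥` (`Ψ w 1 = φ w`). `finrank_eq_add`, `fW_add` (`(ρ xx) ^ 3 = 1`; `3 ≠ 0` in `K`: `CharP K p`,
`p ≠ 3`), `ma`. First case: `N = dim MJ`, `mj_ge`, `mj_fx`. Second: `po_finrank`, `po_fx`, `po_block` with
`Ψ ((ρ (uu 1) - 1) ^ k w) = (RT (uu 1) - 1) ^ k (Ψ w)` and `(ρ (uu 1) - 1) ^ k w ∈ W`. -/
theorem step [IsAlgClosed K] (h3 : p % 3 = 2) {ρ : Representation K (SL2 p) V} {W : Submodule K V}
    (hW : Inv ρ W) {φ : V →ₗ[K] K} {j : ℕ} (hφ : Fn ρ W φ j) (hne : ∃ w ∈ W, φ w ≠ 0) :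
    ∃ W' ≤ W, Inv ρ W' ∧
      ((∃ N, p ≤ N ∧ finrank K W = finrank K W' + N ∧ 3 * fW (ρ xx) W' + N ≤ 3 * fW (ρ xx) W) ∨
       ∃ e ≤ p - 1, (p - 1) ∣ e + j ∧ finrank K W = finrank K W' + (e + 1) ∧
         fW (ρ xx) W' + fe e ≤ fW (ρ xx) W ∧
         (∀ w ∈ W, φ w ≠ 0 → ((ρ (uu 1) - 1) ^ e) w ∉ W') ∧
         ∀ w ∈ W, ((ρ (uu 1) - 1) ^ (e + 1)) w ∈ W') := by
  let Ψ : V →ₗ[K] (SL2 p → K) := LinearMap.pi fun g => φ ∘ₗ ρ g
  have ap : ∀ w g, Ψ w g = φ (ρ g w) := fun _ _ => rfl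
  have eqv : ∀ h w, Ψ (ρ h w) = RT K h (Ψ w) := fun h w => funext fun g => by rw [RT_apply, ap, ap, map_mul]; rfl
  have one : ∀ w, Ψ w 1 = φ w := fun w => by rw [ap, map_one]; rfl
  have k3 : (3 : K) ≠ 0 := fun h => by
    have : (3 : ZMod p) = 0 := (algebraMap (ZMod p) K).injective (by rw [map_ofNat, h, map_zero])
    have := (Nat.prime_dvd_prime_iff_eq (Fact.out : p.Prime) Nat.prime_three).1 ((ZMod.natCast_eq_zero_iff 3 p).1 this)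
    omega
  have d := finrank_eq_add Ψ W
  have f := fW_add k3 (ρ xx) (RT K xx) (by rw [← map_pow, xx_pow, map_one]) Ψ W (hW xx) fun w _ => eqv xx w
  have pw : ∀ k : ℕ, ∀ w ∈ W, ((ρ (uu 1) - 1) ^ k) w ∈ W ∧ Ψ (((ρ (uu 1) - 1) ^ k) w) = ((RT K (uu 1) - 1) ^ k) (Ψ w) := by
    intro k w hw
    induction k with
    | zero => exact ⟨hw, rfl⟩
    | succ k ih =>
      rw [pow_succ', pow_succ', Module.End.mul_apply, Module.End.mul_apply, ← ih.2]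
      exact ⟨sub_mem (hW _ _ ih.1) ih.1, (map_sub Ψ _ _).trans (congrArg (· - _) (eqv _ _))⟩
  refine ⟨W ⊓ LinearMap.ker Ψ, inf_le_left, fun g w hw => ⟨hW g w hw.1, ?_⟩, ?_⟩
  · exact (eqv g w).trans (by rw [show Ψ w = 0 from hw.2, map_zero])
  rcases ma (j := j) (W.map Ψ) (by
      rintro _ ⟨w, hw, rfl⟩
      exact ⟨fun a g => by rw [ap, ap, map_mul]; exact hφ.hU a _ (hW g w hw),
        fun t g => by rw [ap, ap, map_mul]; exact hφ.hD t _ (hW g w hw)⟩)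
    (by
      rintro g _ ⟨w, hw, rfl⟩
      exact ⟨_, hW g w hw, eqv g w⟩)
    (fun h => by
      obtain ⟨w, hw, h0⟩ := hne
      exact h0 (by rw [← one, (Submodule.eq_bot_iff _).1 h _ ⟨w, hw, rfl⟩]; rfl)) with h | ⟨e, he, hd, h⟩
  · rw [h] at d f
    have := mj_fx (K := K) h3 j
    exact .inl ⟨_, mj_ge j, d, by omega⟩
  · have m : ∀ w ∈ W, Ψ w ∈ PO (p := p) K e := fun w hw => h.le ⟨w, hw, rfl⟩
    rw [h] at d f
    rw [po_finrank he] at d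
    have := po_fx (K := K) h3 he
    exact .inr ⟨e, he, hd, d, by omega,
      fun w hw h0 c => (po_block he (m w hw)).1 (by rwa [one]) ((pw e w hw).2.symm.trans c.2),
      fun w hw => ⟨(pw _ w hw).1, (pw _ w hw).2.trans (po_block he (m w hw)).2⟩⟩

end CL.LS6
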