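import Cfsg.Agent.FGS.LS6.Defs

namespace CL.LS6
open Module

variable {p : ℕ} [Fact p.Prime] {K V : Type*} [Field K] [Algebra (ZMod p) K] [AddCommGroup V]
  [Module K V]

namespace MEx

theorem c_inv (s t : (ZMod p)ˣ) (j : ℕ) : algebraMap (ZMod p) K ((t⁻¹ : (ZMod p)ˣ) : ZMod p) ^ j =
    algebraMap (ZMod p) K s ^ j * algebraMap (ZMod p) K (((t * s)⁻¹ : (ZMod p)ˣ) : ZMod p) ^ j := by
  rw [← mul_pow, ← map_mul, ← Units.val_mul, mul_inv_rev, mul_inv_cancel_left]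

theorem pm (K : Type*) [Field K] [Algebra (ZMod p) K] : ((p - 1 : ℕ) : K) ≠ 0 := by
  have : CharP K p := charP_of_injective_algebraMap (algebraMap (ZMod p) K).injective p
  rw [Nat.cast_sub (Fact.out : p.Prime).one_le, CharP.cast_eq_zero, Nat.cast_one, zero_sub]
  exact neg_ne_zero.2 one_ne_zero

theorem geo {t : (ZMod p)ˣ} (ht : t ≠ 1) :
    ∑ j ∈ Finset.range (p - 1), algebraMap (ZMod p) K ((t⁻¹ : (ZMod p)ˣ) : ZMod p) ^ j = 0 := by
  have e := geom_sum_mul (algebraMap (ZMod p) K ((t⁻¹ : (ZMod p)ˣ) : ZMod p)) (p - 1)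
  rw [← map_pow, ZMod.pow_card_sub_one_eq_one (Units.ne_zero _), map_one, sub_self, mul_eq_zero] at e
  refine e.resolve_right fun e' => ht ?_
  rw [sub_eq_zero, ← map_one (algebraMap (ZMod p) K)] at e'
  exact inv_eq_one.1 (Units.val_eq_one.1 ((algebraMap (ZMod p) K).injective e'))

end MEx

open MEx

/-- A functional `ψ` kills `W.map (ρ (uu 1) - 1)` and not `y` (`Submodule.exists_dual_map_eq_bot_of_notMem`);
it is `uu a`-invariant on `W` (`uu_val`, induction), and so is `ψ ∘ ρ (dd t)` (`dd_uu`). With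
`χ t = algebraMap t` put `φ j = ∑ t : (ZMod p)ˣ, (χ t⁻¹) ^ j • ψ ∘ ρ (dd t)`; reindexing `t ↦ t * s` (`dd_mul`)
gives `φ j (ρ (dd s) w) = χ s ^ j * φ j w`. `∑ j ∈ range (p - 1), φ j y = (p - 1) * ψ y = - ψ y ≠ 0`
(`∑ j<p-1, r ^ j = 0` for `r ≠ 1`, `r ^ (p - 1) = 1`: `mul_geom_sum`), so some `φ j y ≠ 0`. -/
theorem ex_fun {ρ : Representation K (SL2 p) V} {W : Submodule K V} (hW : Inv ρ W) {y : V}
    (hy : y ∉ W.map (ρ (uu 1) - 1 : Module.End K V)) : ∃ φ j, Fn ρ W φ j ∧ φ y ≠ 0 := by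
  obtain ⟨ψ, hψ, hk⟩ := Submodule.exists_dual_map_eq_bot_of_notMem hy inferInstance
  have k1 : ∀ w ∈ W, ψ (ρ (uu 1) w) = ψ w := fun w hw => by
    have : ψ ((ρ (uu 1) - 1 : Module.End K V) w) ∈ (W.map (ρ (uu 1) - 1 : Module.End K V)).map ψ :=
      Submodule.mem_map_of_mem (Submodule.mem_map_of_mem hw)
    rw [hk, Submodule.mem_bot, LinearMap.sub_apply, map_sub, sub_eq_zero] at this
    exact this
  have kn : ∀ n : ℕ, ∀ w ∈ W, ψ (ρ (uu 1 ^ n) w) = ψ w := fun n => by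
    induction n with
    | zero => intro w _; simp
    | succ n ih =>
      intro w hw
      rw [pow_succ', map_mul, Module.End.mul_apply, k1 _ (hW _ w hw), ih w hw]
  have kU : ∀ a, ∀ w ∈ W, ψ (ρ (uu a) w) = ψ w := fun a w hw => by rw [uu_val, kn _ w hw]
  let φ : ℕ → V →ₗ[K] K := fun j =>
    ∑ t : (ZMod p)ˣ, algebraMap (ZMod p) K ((t⁻¹ : (ZMod p)ˣ) : ZMod p) ^ j • ψ ∘ₗ ρ (dd t)
  have hφ : ∀ j v, φ j v =
      ∑ t : (ZMod p)ˣ, algebraMap (ZMod p) K ((t⁻¹ : (ZMod p)ˣ) : ZMod p) ^ j * ψ (ρ (dd t) v) := fun j v => by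
    simp only [φ, LinearMap.sum_apply, LinearMap.smul_apply, LinearMap.comp_apply, smul_eq_mul]
  have hs : ∑ j ∈ Finset.range (p - 1), φ j y ≠ 0 := by
    simp only [hφ]
    rw [Finset.sum_comm]
    simp only [← Finset.sum_mul]
    rw [Finset.sum_eq_single 1 (fun t _ ht => by rw [geo ht, zero_mul]) (fun h => absurd (Finset.mem_univ _) h)]
    simp only [inv_one, Units.val_one, map_one, one_pow, Finset.sum_const, Finset.card_range, nsmul_eq_mul, mul_one,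
      dd_one, Module.End.one_apply]
    exact mul_ne_zero (pm K) hψ
  obtain ⟨j, -, hj⟩ := Finset.exists_ne_zero_of_sum_ne_zero hs
  refine ⟨φ j, j, ⟨fun a w hw => ?_, fun s w hw => ?_⟩, hj⟩
  · rw [hφ, hφ]
    refine Finset.sum_congr rfl fun t _ => ?_
    rw [← Module.End.mul_apply, ← map_mul, dd_uu, map_mul, Module.End.mul_apply, kU _ _ (hW _ w hw)]
  · rw [hφ, hφ, Finset.mul_sum]
    refine Fintype.sum_equiv (Equiv.mulRight s) _ _ fun t => ?_
    rw [Equiv.coe_mulRight, ← Module.End.mul_apply, ← map_mul, ← dd_mul, c_inv s t, mul_assoc]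

/-- `v = ∑ t, (χ t⁻¹) ^ j • ρ (dd t) w`, `φ v = (p - 1) * φ w`; reindex for the weight. -/
theorem ex_vec {ρ : Representation K (SL2 p) V} {W : Submodule K V} (hW : Inv ρ W) {φ : V →ₗ[K] K}
    {j : ℕ} (hφ : Fn ρ W φ j) (hne : ∃ w ∈ W, φ w ≠ 0) :
    ∃ v ∈ W, φ v ≠ 0 ∧ ∀ t, ρ (dd t) v = algebraMap (ZMod p) K t ^ j • v := by
  obtain ⟨w, hw, h0⟩ := hne
  refine ⟨∑ t : (ZMod p)ˣ, algebraMap (ZMod p) K ((t⁻¹ : (ZMod p)ˣ) : ZMod p) ^ j • ρ (dd t) w,
    W.sum_mem fun t _ => W.smul_mem _ (hW _ w hw), ?_, fun s => ?_⟩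
  · have : ∀ t : (ZMod p)ˣ, φ (algebraMap (ZMod p) K ((t⁻¹ : (ZMod p)ˣ) : ZMod p) ^ j • ρ (dd t) w) = φ w := fun t => by
      rw [map_smul, hφ.hD t w hw, smul_eq_mul, ← mul_assoc, ← mul_pow, ← map_mul, Units.inv_mul, map_one, one_pow, one_mul]
    rw [map_sum]
    simp only [this, Finset.sum_const, Finset.card_univ, ZMod.card_units, nsmul_eq_mul]
    exact mul_ne_zero (pm K) h0
  · rw [map_sum, Finset.smul_sum]
    refine Fintype.sum_equiv (Equiv.mulRight s) _ _ fun t => ?_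
    rw [Equiv.coe_mulRight, map_smul, ← Module.End.mul_apply, ← map_mul, ← dd_mul, c_inv s t, mul_smul, mul_comm s t]

/-- `u = ρ (uu 1)`, `s = (t ^ 2).val`: `ρ (dd t) * (u - 1) = (u ^ s - 1) * ρ (dd t)` (`dd_uu`, `uu_val`),
`u ^ s - 1 = S * (u - 1)`, `S = ∑ i<s, u ^ i` commutes with `u`. So
`ρ (dd t) y = χ t ^ i • (S ^ m) y`; `S` preserves `W`, `φ (S w) = s * φ w` on `W`, `(s : K) = χ t ^ 2`. Hence
`χ t ^ j * φ y = χ t ^ i * χ t ^ (2 m) * φ y`; take a generator `t` of `(ZMod p)ˣ` (order `p - 1`,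
`algebraMap` injective, `pow_eq_pow_iff_modEq`). -/
theorem wt {ρ : Representation K (SL2 p) V} {W : Submodule K V} (hW : Inv ρ W) {φ : V →ₗ[K] K}
    {i j m : ℕ} (hφ : Fn ρ W φ j) {v : V} (hv : ∀ t, ρ (dd t) v = algebraMap (ZMod p) K t ^ i • v)
    (hy : ((ρ (uu 1) - 1) ^ m) v ∈ W) (h0 : φ (((ρ (uu 1) - 1) ^ m) v) ≠ 0) :
    j ≡ 2 * m + i [MOD p - 1] := by
  obtain ⟨t, ht⟩ := IsCyclic.exists_ofOrder_eq_natCard (α := (ZMod p)ˣ)
  rw [Nat.card_eq_fintype_card, ZMod.card_units] at ht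
  set u := ρ (uu 1) with hu
  set s := ((t : ZMod p) ^ 2).val with hs
  set S : Module.End K V := ∑ i ∈ Finset.range s, u ^ i with hS
  have e1 : ρ (dd t) * (u - 1) = (S * (u - 1)) * ρ (dd t) := by
    rw [hS, geom_sum_mul, mul_sub, sub_mul, mul_one, one_mul, hu, ← map_mul, dd_uu, mul_one, uu_val, map_mul, map_pow]
  have cm : Commute S (u - 1) :=
    Commute.sum_left _ _ _ fun i _ => ((Commute.refl u).sub_right (Commute.one_right u)).pow_left i
  have e2 : ∀ m : ℕ, ρ (dd t) * (u - 1) ^ m = (S * (u - 1)) ^ m * ρ (dd t) := fun m => by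
    induction m with
    | zero => simp
    | succ m ih => rw [pow_succ, ← mul_assoc, ih, mul_assoc, e1, ← mul_assoc, ← pow_succ]
  have un : ∀ n : ℕ, ∀ w ∈ W, (u ^ n) w ∈ W ∧ φ ((u ^ n) w) = φ w := fun n w hw => by
    rw [hu, ← map_pow, uu_pow]
    exact ⟨hW _ w hw, hφ.hU _ w hw⟩
  have s1 : ∀ w ∈ W, S w ∈ W ∧ φ (S w) = s * φ w := fun w hw => by
    rw [hS, LinearMap.sum_apply, map_sum]
    refine ⟨W.sum_mem fun i _ => (un i w hw).1, ?_⟩
    rw [Finset.sum_congr rfl fun i _ => (un i w hw).2, Finset.sum_const, Finset.card_range, nsmul_eq_mul]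
  have sm : ∀ n : ℕ, ∀ w ∈ W, φ ((S ^ n) w) = s ^ n * φ w := fun n => by
    induction n with
    | zero => intro w _; simp
    | succ n ih =>
      intro w hw
      rw [pow_succ, Module.End.mul_apply, ih _ (s1 w hw).1, (s1 w hw).2, pow_succ, mul_assoc]
  have e3 := hφ.hD t _ hy
  rw [← Module.End.mul_apply, e2, cm.mul_pow, Module.End.mul_apply, hv, map_smul, map_smul, Module.End.mul_apply,
    sm m _ hy, smul_eq_mul, ← mul_assoc] at e3
  have e4 := mul_right_cancel₀ h0 e3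
  have e5 : (s : K) = algebraMap (ZMod p) K t ^ 2 := by
    rw [← map_natCast (algebraMap (ZMod p) K), hs, ZMod.natCast_zmod_val, map_pow]
  rw [e5, ← pow_mul, ← pow_add, ← map_pow, ← map_pow, ← Units.val_pow_eq_pow_val, ← Units.val_pow_eq_pow_val] at e4
  have e6 := Units.ext ((algebraMap (ZMod p) K).injective e4)
  rw [pow_eq_pow_iff_modEq, ht, add_comm] at e6
  exact e6.symm

end CL.LS6
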