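import Cfsg.Agent.FGS.LS6.MD
import Cfsg.Agent.FGS.LS6.ME

/-! Defining characteristic: `dim W ≤ 2 fW u W + 4 fW x W`. -/

namespace CL.LS6
open Module

variable {p : ℕ} [Fact p.Prime] {K V : Type*} [Field K] [Algebra (ZMod p) K] [AddCommGroup V]
  [Module K V] [FiniteDimensional K V]

omit [FiniteDimensional K V] in
theorem MF.nil (ρ : Representation K (SL2 p) V) : (ρ (uu 1) - 1 : Module.End K V) ^ p = 0 := by
  have : CharP K p := charP_of_injective_algebraMap (algebraMap (ZMod p) K).injective p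
  rcases subsingleton_or_nontrivial V with hV | hV
  · exact Subsingleton.elim _ _
  have : CharP (Module.End K V) p :=
    charP_of_injective_algebraMap (algebraMap K (Module.End K V)).injective p
  rw [sub_pow_char_of_commute p (Commute.one_right _), ← map_pow, uu_pow, one_pow]
  simp [uu_zero]

omit [Algebra (ZMod p) K] [FiniteDimensional K V] in
theorem MF.mem {ρ : Representation K (SL2 p) V} {W : Submodule K V} (hW : Inv ρ W) (k : ℕ) {w : V}
    (hw : w ∈ W) : ((ρ (uu 1) - 1 : Module.End K V) ^ k) w ∈ W := by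
  induction k with
  | zero => simpa using hw
  | succ k ih =>
    rw [pow_succ', Module.End.mul_apply]
    exact W.sub_mem (hW _ _ ih) ih

theorem MF.mono (A : Module.End K V) {W W' : Submodule K V} (h : W' ≤ W) : fW A W' ≤ fW A W :=
  Submodule.finrank_mono (inf_le_inf_right _ h)

/-- if the fixed spaces in `W' ≤ W` have the same dimension, the end of a chain is not hit from `W'`. -/
theorem MF.not_mem (A : Module.End K V) {W W' : Submodule K V} (h : W' ≤ W) (hb : fW A W ≤ fW A W')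
    {v : V} (hv : v ∈ W) (hv' : v ∉ W') : (A - 1) v ∉ W'.map (A - 1) := by
  rintro ⟨w, hw, e⟩
  have heq : W' ⊓ LinearMap.ker (A - 1) = W ⊓ LinearMap.ker (A - 1) :=
    Submodule.eq_of_le_of_finrank_le (inf_le_inf_right _ h) hb
  have h1 : v - w ∈ W ⊓ LinearMap.ker (A - 1) :=
    ⟨W.sub_mem hv (h hw), by rw [SetLike.mem_coe, LinearMap.mem_ker, map_sub, e, sub_self]⟩
  rw [← heq] at h1
  exact hv' (by simpa using W'.add_mem h1.1 hw)

theorem MF.fe_ge (e : ℕ) : e + 1 ≤ 4 * fe e + 2 := by unfold fe; split_ifs <;> omega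

theorem MF.fe_ge' {e : ℕ} (h1 : e ≠ 1) (h4 : e ≠ 4) : e + 1 ≤ 4 * fe e := by
  unfold fe; split_ifs <;> omega

theorem phi [IsAlgClosed K] (h11 : 11 ≤ p) (h3 : p % 3 = 2) (ρ : Representation K (SL2 p) V)
    (W : Submodule K V) (hW : Inv ρ W) :
    finrank K W ≤ 2 * fW (ρ (uu 1)) W + 4 * fW (ρ xx) W := by
  induction hn : finrank K W using Nat.strong_induction_on generalizing W with
  | _ n ih =>
  subst hn
  have IH : ∀ W' : Submodule K V, Inv ρ W' → finrank K W' < finrank K W →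
      finrank K W' ≤ 2 * fW (ρ (uu 1)) W' + 4 * fW (ρ xx) W' := fun W' h1 h2 => ih _ h2 W' h1 rfl
  set Δ : Module.End K V := ρ (uu 1) - 1 with hΔ
  have hnil : Δ ^ p = 0 := MF.nil ρ
  by_cases hbot : W = ⊥
  · subst hbot; simp
  -- a vector outside `Δ W`
  obtain ⟨y, hyW, hy⟩ : ∃ y ∈ W, y ∉ W.map Δ := by
    by_contra hcon
    push Not at hcon
    have : ∀ k : ℕ, ∀ w ∈ W, ∃ w' ∈ W, (Δ ^ k) w' = w := by
      intro k
      induction k with
      | zero => exact fun w hw => ⟨w, hw, rfl⟩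
      | succ k ihk =>
        intro w hw
        obtain ⟨w1, hw1, e1⟩ := ihk w hw
        obtain ⟨w2, hw2, e2⟩ := hcon w1 hw1
        exact ⟨w2, hw2, by rw [pow_succ, Module.End.mul_apply, e2, e1]⟩
    apply hbot
    rw [eq_bot_iff]
    intro w hw
    obtain ⟨w', -, e⟩ := this p w hw
    rw [hnil] at e
    simpa using e.symm
  obtain ⟨φ1, j1, hφ1, h01⟩ := ex_fun hW hy
  obtain ⟨v, hvW, hv0, hvD⟩ := ex_vec hW hφ1 ⟨y, hyW, h01⟩
  obtain ⟨W1, hle1, hW1, hs1⟩ := step h3 hW hφ1 ⟨y, hyW, h01⟩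
  have m1 := MF.mono (ρ (uu 1)) hle1
  rcases hs1 with ⟨N, hN, hd, hf⟩ | ⟨e1, he1, hj1, hd1, hf1, hb1, hc1⟩
  · have := IH W1 hW1 (by omega); omega
  have i1 := IH W1 hW1 (by omega)
  by_cases hbad : ¬ (e1 = 1 ∨ e1 = 4)
  · have := MF.fe_ge' (e := e1) (by omega) (by omega); omega
  replace hbad : e1 = 1 ∨ e1 = 4 := not_not.mp hbad
  have g1 := MF.fe_ge e1
  by_cases hb : fW (ρ (uu 1)) W1 < fW (ρ (uu 1)) W
  · omega
  have hy1 : (Δ ^ (e1 + 1)) v ∉ W1.map Δ := by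
    rw [pow_succ', Module.End.mul_apply]
    exact MF.not_mem _ hle1 (by omega) (MF.mem hW e1 hvW) (hb1 v hvW hv0)
  have hy1W : (Δ ^ (e1 + 1)) v ∈ W1 := hc1 v hvW
  obtain ⟨φ2, j2, hφ2, h02⟩ := ex_fun hW1 hy1
  have hwt := wt hW1 hφ2 hvD hy1W h02
  obtain ⟨W2, hle2, hW2, hs2⟩ := step h3 hW1 hφ2 ⟨_, hy1W, h02⟩
  have m2 := MF.mono (ρ (uu 1)) hle2
  rcases hs2 with ⟨N, hN, hd, hf⟩ | ⟨e2, he2, hj2, hd2, hf2, hb2, hc2⟩
  · have := IH W2 hW2 (by omega); omega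
  have i2 := IH W2 hW2 (by omega)
  have hsum : e1 + e2 + 2 = p - 1 := by
    have h1 : (p - 1) ∣ e1 + e2 + 2 := by
      have a1 : e2 + j2 ≡ e2 + (2 * (e1 + 1) + j1) [MOD p - 1] := Nat.ModEq.add_left _ hwt
      have a2 : (p - 1) ∣ e2 + (2 * (e1 + 1) + j1) :=
        (Nat.modEq_zero_iff_dvd.mp (a1.symm.trans (Nat.modEq_zero_iff_dvd.mpr hj2)))
      have a3 : e2 + (2 * (e1 + 1) + j1) = (e1 + j1) + (e1 + e2 + 2) := by ring
      rw [a3] at a2
      exact (Nat.dvd_add_right hj1).mp a2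
    obtain ⟨c, hc⟩ := h1
    rcases c with _ | _ | c
    · omega
    · omega
    · have : (p - 1) * (c + 1 + 1) ≥ (p - 1) * 2 := Nat.mul_le_mul_left _ (by omega)
      omega
  by_cases h17 : 17 ≤ p
  · have : e1 + 1 + (e2 + 1) ≤ 4 * fe e1 + 4 * fe e2 := by
      unfold fe; rcases hbad with h | h <;> subst h <;> split_ifs <;> omega
    omega
  have g2 : e1 + 1 + (e2 + 1) ≤ 4 * fe e1 + 4 * fe e2 + 2 := by
    have hp : p.Prime := Fact.out
    have : p = 11 := by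
      have h14 : p ≠ 14 := by rintro rfl; norm_num at hp
      omega
    unfold fe; rcases hbad with h | h <;> subst h <;> split_ifs <;> omega
  by_cases hb' : fW (ρ (uu 1)) W2 < fW (ρ (uu 1)) W
  · omega
  have hy2 : (Δ ^ (e2 + 1)) ((Δ ^ (e1 + 1)) v) ∉ W2.map Δ := by
    rw [pow_succ' Δ e2, Module.End.mul_apply]
    exact MF.not_mem _ hle2 (by omega) (MF.mem hW1 e2 hy1W) (hb2 _ hy1W h02)
  have hy2W : (Δ ^ (e2 + 1)) ((Δ ^ (e1 + 1)) v) ∈ W2 := hc2 _ hy1W
  obtain ⟨φ3, j3, hφ3, h03⟩ := ex_fun hW2 hy2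
  obtain ⟨W3, hle3, hW3, hs3⟩ := step h3 hW2 hφ3 ⟨_, hy2W, h03⟩
  have m3 := MF.mono (ρ (uu 1)) hle3
  rcases hs3 with ⟨N, hN, hd, hf⟩ | ⟨e3, he3, hj3, hd3, hf3, hb3, hc3⟩
  · have := IH W3 hW3 (by omega); omega
  have i3 := IH W3 hW3 (by omega)
  have h0 : e3 = 0 := by
    by_contra h0
    apply hb3 _ hy2W h03
    rw [← Module.End.mul_apply, ← Module.End.mul_apply, ← pow_add, ← pow_add,
      show e3 + (e2 + 1) + (e1 + 1) = (e3 - 1) + p by omega, pow_add, hnil]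
    simp
  subst h0
  have : fe 0 = 1 := rfl
  omega

theorem not_bad_def [IsAlgClosed K] (h11 : 11 ≤ p) (h3 : p % 3 = 2)
    (ρ : Representation K (SL2 p) V) : ¬ Bad ρ := fun hb => by
  have h := phi h11 h3 ρ ⊤ fun _ _ _ => Submodule.mem_top
  rw [fW_top, fW_top, finrank_top] at h
  have h1 := hb _ uu_one_ne
  have h2 := hb _ xx_ne
  omega

end CL.LS6
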