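import Cfsg.Agent.FGS.LS6.Defs
import Cfsg.Agent.FGS.LS6.Inv
import Cfsg.Agent.CLAS.FiveU
namespace CL.LS6
open Module

variable {K V G : Type*} [Field K] [AddCommGroup V] [Module K V] [FiniteDimensional K V] [Group G]

namespace Tri
omit [Group G]

theorem one (A : Module.End K V) (hA : A ^ 3 = 1) {ω : K} (hω : ω ^ 2 + ω + 1 = 0) :
    finrank K V ≤ finrank K (LinearMap.ker (1 - ω • A)) +
      finrank K (LinearMap.ker (1 - ω ^ 2 • A)) + fx A := by
  have e1 : ω + ω ^ 2 = -1 := by linear_combination hω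
  have e3 : ω ^ 3 = 1 := by linear_combination (ω - 1) * hω
  have e : (1 - ω • A) * (1 - ω ^ 2 • A) = 1 - (ω + ω ^ 2) • A + (ω ^ 3) • (A * A) := by
    simp only [sub_mul, mul_sub, one_mul, mul_one, smul_mul_assoc, mul_smul_comm, smul_smul]
    module
  have z : (1 - ω • A) * (1 - ω ^ 2 • A) * (A - 1) = 0 := by
    rw [e, e1, e3, neg_smul, one_smul, one_smul]
    have : (1 - -A + A * A) * (A - 1) = A ^ 3 - 1 := by noncomm_ring
    rw [this, hA, sub_self]
  have h1 := ker_mul_le ((1 - ω • A) * (1 - ω ^ 2 • A)) (A - 1)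
  have h2 := ker_mul_le (1 - ω • A) (1 - ω ^ 2 • A)
  rw [z] at h1
  have h0 : finrank K (LinearMap.ker (0 : Module.End K V)) = finrank K V := by
    rw [LinearMap.ker_zero, finrank_top]
  unfold fx
  omega

omit [FiniteDimensional K V] in
theorem fixI (A B : Module.End K V) {μ : K} (h3 : μ ^ 3 = 1) :
    LinearMap.ker (1 - μ • A) ⊓ LinearMap.ker (1 - μ • B) ≤ LinearMap.ker (A ^ 2 * B - 1) := by
  have key : ∀ C : Module.End K V, ∀ v ∈ LinearMap.ker (1 - μ • C), C v = μ ^ 2 • v := by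
    intro C v hv
    have h : v = μ • C v := by
      have := LinearMap.mem_ker.1 hv
      simpa [sub_eq_zero] using this
    calc C v = (μ ^ 3) • C v := by rw [h3, one_smul]
      _ = μ ^ 2 • (μ • C v) := by rw [smul_smul]; congr 1; ring
      _ = μ ^ 2 • v := by rw [← h]
  rintro v ⟨ha, hb⟩
  have a1 := key A v ha
  have b1 := key B v hb
  rw [LinearMap.mem_ker]
  have : (A ^ 2 * B - 1 : Module.End K V) v = A (A (B v)) - v := by simp [pow_two]
  rw [this, b1, map_smul, a1, map_smul, map_smul, a1, smul_smul, smul_smul]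
  have : μ ^ 2 * μ ^ 2 * μ ^ 2 = 1 := by linear_combination (μ ^ 3 + 1) * h3
  rw [this, one_smul, sub_self]

omit [FiniteDimensional K V] in
theorem rngR (A B : Module.End K V) {μ : K} (h3 : μ ^ 3 = 1) :
    LinearMap.range (A ^ 2 * B - 1) ≤
      LinearMap.range (1 - μ • A) ⊔ LinearMap.range (1 - μ • B) := by
  rintro _ ⟨v, rfl⟩
  have e : (A ^ 2 * B - 1 : Module.End K V) v = -((1 - μ • A) ((μ • A) ((μ • B) v)) + (1 - μ • A) ((μ • B) v)) +
      -((1 - μ • B) v) := by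
    have : (A ^ 2 * B - 1 : Module.End K V) v = (μ ^ 3) • A (A (B v)) - v := by simp [pow_two, h3]
    rw [this]
    simp only [LinearMap.sub_apply, LinearMap.smul_apply, Module.End.one_apply, map_smul, smul_smul]
    module
  rw [e]
  exact Submodule.add_mem_sup
    (neg_mem (add_mem (LinearMap.mem_range_self _ _) (LinearMap.mem_range_self _ _)))
    (neg_mem (LinearMap.mem_range_self _ _))

theorem main (h3 : (3 : K) ≠ 0) (A B : Module.End K V) (hA : A ^ 3 = 1) (hB : B ^ 3 = 1)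
    (hAB : (A * B) ^ 3 = 1) {ω : K} (hω : ω ^ 2 + ω + 1 = 0) :
    finrank K V ≤ fx A + fx B + fx (A * B) + 2 * fx (A ^ 2 * B) := by
  have e3 : ω ^ 3 = 1 := by linear_combination (ω - 1) * hω
  have e6 : (ω ^ 2) ^ 3 = 1 := by linear_combination (ω ^ 3 + 1) * e3
  have n1 : (1 : K) - ω ≠ 0 := fun h => h3 (by
    have : ω = 1 := by linear_combination -h
    rw [this] at hω
    linear_combination hω)
  have n0 : ω ≠ 0 := fun h => by rw [h] at e3; simp at e3
  have s1 := CL.Five.scott_lin (ω • A) (ω • B)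
  have s2 := CL.Five.scott_lin (ω ^ 2 • A) (ω ^ 2 • B)
  have m1 : (ω • A) * (ω • B) = ω ^ 2 • (A * B) := by
    rw [smul_mul_smul_comm, pow_two]
  have m2 : (ω ^ 2 • A) * (ω ^ 2 • B) = ω • (A * B) := by
    rw [smul_mul_smul_comm]; congr 1; linear_combination ω * e3
  rw [m1] at s1
  rw [m2] at s2
  have o1 := one A hA hω
  have o2 := one B hB hω
  have o3 := one (A * B) hAB hω
  set I1 := LinearMap.ker (1 - ω • A) ⊓ LinearMap.ker (1 - ω • B) with hI1
  set I2 := LinearMap.ker (1 - ω ^ 2 • A) ⊓ LinearMap.ker (1 - ω ^ 2 • B) with hI2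
  set R1 := LinearMap.range (1 - ω • A) ⊔ LinearMap.range (1 - ω • B) with hR1
  set R2 := LinearMap.range (1 - ω ^ 2 • A) ⊔ LinearMap.range (1 - ω ^ 2 • B) with hR2
  have i0 : I1 ⊓ I2 = ⊥ := by
    rw [eq_bot_iff]
    rintro v ⟨⟨h1, -⟩, ⟨h2, -⟩⟩
    have a1 : v = ω • A v := by simpa [sub_eq_zero] using LinearMap.mem_ker.1 h1
    have a2 : v = ω ^ 2 • A v := by simpa [sub_eq_zero] using LinearMap.mem_ker.1 h2
    have a3 : (1 - ω) • v = 0 := by
      rw [sub_smul, one_smul, sub_eq_zero]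
      calc v = ω ^ 2 • A v := a2
        _ = ω • (ω • A v) := by rw [smul_smul, pow_two]
        _ = ω • v := by rw [← a1]
    exact (Submodule.mem_bot K).2 ((smul_eq_zero.1 a3).resolve_left n1)
  have i1 := Submodule.finrank_sup_add_finrank_inf_eq I1 I2
  rw [i0, finrank_bot] at i1
  have i2 : finrank K ↥(I1 ⊔ I2) ≤ fx (A ^ 2 * B) :=
    Submodule.finrank_mono (sup_le (fixI A B e3) (fixI A B e6))
  have r0 : R1 ⊔ R2 = ⊤ := by
    rw [eq_top_iff]
    intro v _
    have e : v = (1 - ω • A) (-(ω * (1 - ω)⁻¹) • v) + (1 - ω ^ 2 • A) ((1 - ω)⁻¹ • v) := by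
      have c : (1 - ω) * (1 - ω)⁻¹ = 1 := mul_inv_cancel₀ n1
      simp only [LinearMap.sub_apply, LinearMap.smul_apply, Module.End.one_apply, map_smul,
        smul_smul, smul_sub]
      have c1 : v = ((1 - ω) * (1 - ω)⁻¹) • v := by rw [c, one_smul]
      conv_lhs => rw [c1]
      module
    rw [e]
    exact Submodule.add_mem_sup (Submodule.mem_sup_left (LinearMap.mem_range_self _ _))
      (Submodule.mem_sup_left (LinearMap.mem_range_self _ _))
  have r1 := Submodule.finrank_sup_add_finrank_inf_eq R1 R2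
  rw [r0, finrank_top] at r1
  have r2 : finrank K (LinearMap.range (A ^ 2 * B - 1)) ≤ finrank K ↥(R1 ⊓ R2) :=
    Submodule.finrank_mono (le_inf (rngR A B e3) (rngR A B e6))
  have r3 := LinearMap.finrank_range_add_finrank_ker (A ^ 2 * B - 1)
  have r4 : fx (A ^ 2 * B) = finrank K (LinearMap.ker (A ^ 2 * B - 1)) := rfl
  omega

end Tri

/-- No `(3,3,3)`-triple. Suppose `a ≠ b`; `h = a⁻¹ b ≠ 1`, `3 ≠ 0` in `K` (`Bad.chr`), `ω ∈ K` with
`ω² + ω + 1 = 0` (alg. closed), `ω³ = 1`, `ω ≠ ω²`. For `μ ∈ {ω, ω²}` apply Scott's lemma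
`CL.Five.scott_lin` to `A = μ • ρ a`, `B = μ • ρ b` (`A B = μ² • ρ (a b)`):
`d μ a + d μ b + d μ² (a b) + dim R μ ≤ 2 n + dim I μ`, with `d μ g = dim ker (1 - μ • ρ g)`,
`R μ = range (1 - A) ⊔ range (1 - B)`, `I μ = ker (1 - A) ⊓ ker (1 - B)`.
(1) for `g ^ 3 = 1`: `(1 - ω ρ g)(1 - ω² ρ g)(ρ g - 1) = ρ g ^ 3 - 1 = 0`, so
`n ≤ d ω g + d ω² g + fx g` (`ker_mul_le` twice).
(2) `I ω ⊓ I ω² = ⊥` (`ω a v = v = ω² a v`), both are fixed by `h` (`a v = b v`), so
`dim I ω + dim I ω² ≤ fx h`.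
(3) `range (ρ h - 1) ≤ R μ`: `ρ h - 1 = μ⁻¹... ` precisely `A⁻¹ B - 1 = A² B - 1` with `A³ = 1`,
`A² B = ρ (a² b) = ρ h` (`μ³ = 1`), and `R μ` contains `v - A v`, `v - B v` for all `v`, so
`A (A (B v)) - v ∈ R μ` by telescoping. `R ω ⊔ R ω² = ⊤`: `(1 - ω² a) - ω (1 - ω a) = 1 - ω ≠ 0`.
So `dim R ω + dim R ω² ≥ n + (n - fx h)`.
Adding: `3 n - (fx a + fx b + fx (a b)) + 2 n - fx h ≤ 4 n + fx h`, i.e.
`n ≤ fx a + fx b + fx (a b) + 2 fx h < 5 n / 6`: contradiction. -/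
theorem Bad.t3 [IsAlgClosed K] {ρ : Representation K G V} (hb : Bad ρ) (a b : G) (ha : a ≠ 1)
    (hb1 : b ≠ 1) (hab : a * b ≠ 1) (ha3 : a ^ 3 = 1) (hb3 : b ^ 3 = 1) (hab3 : (a * b) ^ 3 = 1) :
    a = b := by
  by_contra hne
  have h3 : (3 : K) ≠ 0 := by
    have := hb.chr ha Nat.prime_three (by norm_num) ha3
    exact_mod_cast this
  obtain ⟨ω, hω⟩ : ∃ ω : K, ω ^ 2 + ω + 1 = 0 := by
    obtain ⟨z, hz⟩ := IsAlgClosed.exists_root
      (Polynomial.X ^ 2 + Polynomial.X + 1 : Polynomial K) (by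
        have : (Polynomial.X ^ 2 + Polynomial.X + 1 : Polynomial K).degree = 2 := by
          compute_degree!
        rw [this]; norm_num)
    exact ⟨z, by simpa using hz⟩
  have hh : a ^ 2 * b ≠ 1 := fun e => hne (by
    calc a = a * (a ^ 2 * b) := by rw [e, mul_one]
      _ = a ^ 3 * b := by rw [← mul_assoc, ← pow_succ']
      _ = b := by rw [ha3, one_mul])
  have k := Tri.main h3 (ρ a) (ρ b) (by rw [← map_pow, ha3, map_one])
    (by rw [← map_pow, hb3, map_one]) (by rw [← map_mul, ← map_pow, hab3, map_one]) hω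
  rw [← map_mul, ← map_pow, ← map_mul] at k
  have b1 := hb a ha
  have b2 := hb b hb1
  have b3 := hb _ hab
  have b4 := hb _ hh
  omega

theorem Bad.gp [IsAlgClosed K] {ρ : Representation K G V} (hb : Bad ρ) : Gp G :=
  ⟨hb.u2, hb.t3, hb.r5⟩

end CL.LS6
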